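/- Two-length and derived length, part 1: weights and commutator chains on a module. -/
import Cfsg.Agent.H98.Coprime
import Cfsg.Agent.H98.Norm

set_option autoImplicit false

namespace H33.Br

open Cfsg Subgroup H98 Module
open scoped commutatorElement

section Grp

variable {H : Type*} [Group H]

/-- The derived series of a subgroup. -/
def dS (P : Subgroup H) : ℕ → Subgroup H
  | 0 => P
  | i + 1 => ⁅dS P i, dS P i⁆

/-- The chain `[X, P, P', P'', ...]`. -/
def cS (X P : Subgroup H) : ℕ → Subgroup H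
  | 0 => X
  | i + 1 => ⁅cS X P i, dS P i⁆

theorem nor_dS {A P : Subgroup H} (h : A ≤ normalizer (P : Set H)) (i : ℕ) :
    A ≤ normalizer (dS P i : Set H) := by
  induction i with
  | zero => exact h
  | succ i ih => exact le_normalizer_commutator ih ih

theorem dS_succ_le (P : Subgroup H) (i : ℕ) : dS P (i + 1) ≤ dS P i := commutator_le_left' le_normalizer

theorem dS_anti (P : Subgroup H) : Antitone (dS P) := antitone_nat_of_succ_le (dS_succ_le P)

theorem dS_le (P : Subgroup H) (i : ℕ) : dS P i ≤ P := dS_anti P (Nat.zero_le i)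

theorem dS_mono {P P' : Subgroup H} (h : P ≤ P') (i : ℕ) : dS P i ≤ dS P' i := by
  induction i with
  | zero => exact h
  | succ i ih => exact commutator_mono ih ih

theorem nor_cS {A X P : Subgroup H} (hX : A ≤ normalizer (X : Set H)) (h : A ≤ normalizer (P : Set H))
    (i : ℕ) : A ≤ normalizer (cS X P i : Set H) := by
  induction i with
  | zero => exact hX
  | succ i ih => exact le_normalizer_commutator ih (nor_dS h i)

theorem cS_anti {X P : Subgroup H} (hX : P ≤ normalizer (X : Set H)) : Antitone (cS X P) :=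
  antitone_nat_of_succ_le fun i => commutator_le_left' ((dS_le P i).trans (nor_cS hX le_normalizer i))

theorem cS_mono {X X' P P' : Subgroup H} (hX : X ≤ X') (h : P ≤ P') (i : ℕ) : cS X P i ≤ cS X' P' i := by
  induction i with
  | zero => exact hX
  | succ i ih => exact commutator_mono ih (dS_mono h i)

theorem cS_le_dS {X P : Subgroup H} (h : X ≤ P) (i : ℕ) : cS X P i ≤ dS P i := by
  induction i with
  | zero => exact h
  | succ i ih => exact commutator_mono ih le_rfl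

theorem map_dS {K : Type*} [Group K] (f : H →* K) (P : Subgroup H) (i : ℕ) :
    (dS P i).map f = dS (P.map f) i := by
  induction i with
  | zero => rfl
  | succ i ih => rw [dS, dS, map_commutator, ih]

theorem map_cS {K : Type*} [Group K] (f : H →* K) (X P : Subgroup H) (i : ℕ) :
    (cS X P i).map f = cS (X.map f) (P.map f) i := by
  induction i with
  | zero => rfl
  | succ i ih => rw [cS, cS, map_commutator, ih, map_dS]

end Grp

variable {k V H : Type*} [Field k] [AddCommGroup V] [Module k V] [Group H]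

/-- The chain `[V, P, P', ...]` on a module. -/
def Ch (ρ : Representation k H V) (P : Subgroup H) : ℕ → Submodule k V
  | 0 => ⊤
  | i + 1 => Submodule.span k {w | ∃ n ∈ dS P i, ∃ u ∈ Ch ρ P i, w = u - ρ n u}

/-- A weight space. -/
def Wt (ρ : Representation k H V) {ι : Type*} (x : ι → H) (w : ι → k) : Submodule k V :=
  ⨅ i, End.eigenspace (ρ (x i)) (w i)

/-- The sum of the other weight spaces. -/
def Ot (ρ : Representation k H V) {ι : Type*} (x : ι → H) (w : ι → k) : Submodule k V :=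
  ⨆ w', ⨆ _ : w' ≠ w, Wt ρ x w'

variable {ρ : Representation k H V} {ι : Type*} {x : ι → H} {w : ι → k} {v : V}

theorem mem_wt : v ∈ Wt ρ x w ↔ ∀ i, ρ (x i) v = w i • v := by
  simp [Wt]

theorem mem_ot {w' : ι → k} (h : w' ≠ w) (hv : v ∈ Wt ρ x w') : v ∈ Ot ρ x w :=
  Submodule.mem_iSup_of_mem w' (Submodule.mem_iSup_of_mem h hv)

theorem rho_mul (ρ : Representation k H V) (g h : H) (v : V) : ρ (g * h) v = ρ g (ρ h v) := by
  rw [map_mul, End.mul_apply]

theorem wt_disj (hc : ∀ i j, x i * x j = x j * x i) (h1 : v ∈ Wt ρ x w) (h2 : v ∈ Ot ρ x w) :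
    v = 0 := by
  have := (End.independent_iInf_maxGenEigenspace_of_forall_mapsTo (fun i => ρ (x i)) fun i j φ =>
    End.mapsTo_maxGenEigenspace_of_comm (by rw [Commute, SemiconjBy, ← map_mul, ← map_mul, hc]) φ).mono
    (t := Wt ρ x) fun w => iInf_mono fun i => End.eigenspace_le_maxGenEigenspace
  exact Submodule.disjoint_def.1 (this w) v h1 h2

theorem ot_inv {g : H} (hg : ∀ i, x i * g = g * x i) (hv : v ∈ Ot ρ x w) : ρ g v ∈ Ot ρ x w := by
  have : Ot ρ x w ≤ (Ot ρ x w).comap (ρ g) := iSup_le fun w' => iSup_le fun h u hu =>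
    mem_ot h (mem_wt.2 fun i => by rw [← rho_mul, hg, rho_mul, mem_wt.1 hu, map_smul])
  exact this hv

theorem wt_inv {g : H} (hg : ∀ i, x i * g = g * x i) (hv : v ∈ Wt ρ x w) : ρ g v ∈ Wt ρ x w :=
  mem_wt.2 fun i => by rw [← rho_mul, hg, rho_mul, mem_wt.1 hv, map_smul]

theorem rho_ne (g : H) (hv : v ≠ 0) : ρ g v ≠ 0 := fun e => hv (by
  rw [← ρ.inv_self_apply g v, e, map_zero])

theorem exists_wt [IsAlgClosed k] [FiniteDimensional k V] (hc : ∀ i j, x i * x j = x j * x i)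
    {U : Submodule k V} (h0 : U ≠ ⊥) (hU : ∀ i, ∀ u ∈ U, ρ (x i) u ∈ U) :
    ∃ v ∈ U, v ≠ 0 ∧ ∃ w, v ∈ Wt ρ x w := by
  obtain ⟨W, ⟨a1, a2, a3⟩, hm⟩ := (wellFounded_lt (α := Submodule k V)).has_min
    {W | W ≤ U ∧ W ≠ ⊥ ∧ ∀ i, ∀ u ∈ W, ρ (x i) u ∈ W} ⟨U, le_rfl, h0, hU⟩
  have : Nontrivial W := Submodule.nontrivial_iff_ne_bot.2 a2
  have key : ∀ i, ∃ c, W ≤ End.eigenspace (ρ (x i)) c := fun i => by
    obtain ⟨c, hc'⟩ := End.exists_eigenvalue ((ρ (x i)).restrict (a3 i))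
    obtain ⟨u, hu, u0⟩ := hc'.exists_hasEigenvector
    refine ⟨c, inf_eq_left.1 (eq_of_le_of_not_lt inf_le_left (hm _ ⟨inf_le_left.trans a1,
      (Submodule.ne_bot_iff _).2 ⟨u, ⟨u.2, End.mem_eigenspace_iff.2 ?_⟩, fun e => u0 (Subtype.ext e)⟩,
      fun j y hy => ⟨a3 j y hy.1, End.mem_eigenspace_iff.2 ?_⟩⟩))⟩
    · exact congrArg Subtype.val (End.mem_eigenspace_iff.1 hu)
    · rw [← rho_mul, hc, rho_mul, End.mem_eigenspace_iff.1 hy.2, map_smul]
  choose w hw using key
  obtain ⟨v, hv, v0⟩ := (Submodule.ne_bot_iff _).1 a2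
  exact ⟨v, a1 hv, v0, w, (Submodule.mem_iInf _).2 fun i => hw i hv⟩

/-- The elements fixing a vector. -/
def fx (ρ : Representation k H V) (v : V) : Subgroup H where
  carrier := {g | ρ g v = v}
  mul_mem' {a b} ha hb := by
    rw [Set.mem_ofPred_eq] at *
    rw [rho_mul, hb, ha]
  one_mem' := by simp
  inv_mem' {a} ha := by
    rw [Set.mem_ofPred_eq] at *
    conv_lhs => rw [← ha, ρ.inv_self_apply]

theorem mem_of_sq {K : Subgroup H} {g : H} (ho : Odd (orderOf g)) (h : g * g ∈ K) : g ∈ K :=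
  zpowers_le.2 (sq g ▸ h) (mem_zpowers_pow_iff.2 (Nat.coprime_two_left.2 ho))

theorem sq_fix [CharP k 2] {g : H} (h : ρ g (v - ρ g v) = v - ρ g v) : ρ (g * g) v = v := by
  have two : ∀ u : V, u + u = 0 := fun u => by rw [← two_smul k, CharTwo.two_eq_zero, zero_smul]
  rw [map_sub, ← rho_mul, sub_eq_sub_iff_add_eq_add, two] at h
  rw [eq_neg_of_add_eq_zero_right h.symm, neg_eq_of_add_eq_zero_right (two v)]

theorem exists_wt_ne [IsAlgClosed k] [FiniteDimensional k V] [CharP k 2]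
    (inj : Function.Injective ρ) (hc : ∀ i j, x i * x j = x j * x i) {j : ι} (ho : Odd (orderOf (x j)))
    (h1 : x j ≠ 1) : ∃ v, v ≠ 0 ∧ ∃ w, v ∈ Wt ρ x w ∧ w j ≠ 1 := by
  obtain ⟨_, ⟨u, rfl⟩, v0, w, hw⟩ := exists_wt (ρ := ρ) hc (U := LinearMap.range (1 - ρ (x j)))
    (fun e => h1 (inj (by rw [map_one]; exact (sub_eq_zero.1 (LinearMap.range_eq_bot.1 e)).symm)))
    (by rintro i _ ⟨u, rfl⟩
        exact ⟨ρ (x i) u, by simp only [LinearMap.sub_apply, End.one_apply, map_sub, ← rho_mul, hc i j]⟩)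
  refine ⟨_, v0, w, hw, fun e => v0 ?_⟩
  have := mem_wt.1 hw j
  rw [e, one_smul] at this
  exact sub_eq_zero.2 (mem_of_sq (K := fx ρ u) ho (sq_fix this)).symm

/-- The elements acting trivially on `V / C`. -/
def tq (ρ : Representation k H V) (C : Submodule k V) : Subgroup H where
  carrier := {g | ∀ v, v - ρ g v ∈ C}
  mul_mem' {a b} ha hb v := by simpa using C.add_mem (hb v) (ha (ρ b v))
  one_mem' := by simp
  inv_mem' {a} ha v := by simpa using C.neg_mem (ha (ρ a⁻¹ v))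

theorem mem_ch {P : Subgroup H} {i : ℕ} {n : H} (hn : n ∈ dS P i) (hv : v ∈ Ch ρ P i) :
    v - ρ n v ∈ Ch ρ P (i + 1) := Submodule.subset_span ⟨n, hn, v, hv, rfl⟩

theorem dS_le_tq (P : Subgroup H) (i : ℕ) : dS P i ≤ tq ρ (Ch ρ P i) := by
  induction i with
  | zero => exact fun _ _ _ => trivial
  | succ i ih =>
    refine commutator_le.2 fun a ha b hb v => ?_
    have := Submodule.sub_mem _ (mem_ch hb (ih ha (ρ (a⁻¹ * b⁻¹) v))) (mem_ch ha (ih hb (ρ (a⁻¹ * b⁻¹) v)))
    simp only [map_sub, ← rho_mul] at this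
    rw [show b * (a * (a⁻¹ * b⁻¹)) = 1 by group, show a * (b * (a⁻¹ * b⁻¹)) = ⁅a, b⁆ by
      rw [commutatorElement_def]; group, map_one, End.one_apply] at this
    convert this using 1
    abel

theorem stage {Γ St P : Subgroup H} {B : ℕ → Subgroup H} (hB : Antitone B) (v : V) {j : ℕ}
    (hΓ : B j ≤ Γ) (t : ℕ)
    (h : ∀ i, j ≤ i → i < j + t → ∃ n ∈ B i, n ∈ dS P i ∧ ∀ b ∈ B (i + 1), b * n ∉ St) :
    ∃ T : End k V, (∀ u ∈ Ch ρ P j, T u ∈ Ch ρ P (j + t)) ∧
      (∀ W : Submodule k V, (∀ g ∈ Γ, ∀ u ∈ W, ρ g u ∈ W) → ∀ u ∈ W, T u ∈ W) ∧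
      T v - v ∈ Submodule.span k {u | ∃ g ∈ Γ, (∀ b ∈ B (j + t), b * g ∉ St) ∧ u = ρ g v} := by
  induction t with
  | zero => exact ⟨1, fun u hu => hu, fun W _ u hu => hu, by simp⟩
  | succ t ih =>
    obtain ⟨T, a1, a2, a3⟩ := ih fun i h1 h2 => h i h1 (by omega)
    obtain ⟨n, b1, b2, b3⟩ := h (j + t) (by omega) (by omega)
    have nΓ := hΓ (hB (Nat.le_add_right j t) b1)
    refine ⟨(1 - ρ n) * T, fun u hu => mem_ch b2 (a1 u hu),
      fun W hW u hu => W.sub_mem (a2 W hW u hu) (hW n nΓ _ (a2 W hW u hu)), ?_⟩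
    have le : ∀ g ∈ B (j + t), Submodule.span k {u | ∃ g ∈ Γ, (∀ b ∈ B (j + t), b * g ∉ St) ∧ u = ρ g v} ≤
        (Submodule.span k {u | ∃ g ∈ Γ, (∀ b ∈ B (j + (t + 1)), b * g ∉ St) ∧ u = ρ g v}).comap (ρ g) :=
      fun g hg => Submodule.span_le.2 (by
        rintro _ ⟨c, c1, c2, rfl⟩
        exact Submodule.subset_span ⟨g * c, mul_mem (hΓ (hB (Nat.le_add_right j t) hg)) c1, fun b hb =>
          mul_assoc b g c ▸ c2 _ (mul_mem (hB (by omega) hb) hg), (rho_mul ρ g c v).symm⟩)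
    have := Submodule.sub_mem _ (Submodule.sub_mem _ (Submodule.mem_comap.1 (le 1 (one_mem _) a3))
      (Submodule.mem_comap.1 (le n b1 a3))) (Submodule.subset_span ⟨n, nΓ, b3, rfl⟩)
    simp only [map_one, End.one_apply, map_sub] at this
    convert this using 1
    simp only [End.mul_apply, LinearMap.sub_apply, End.one_apply]
    abel

end H33.Br
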