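/- Two-length and derived length, part 2: group lemmas. -/
import Cfsg.Agent.H33.BrLin
import Cfsg.Agent.H3.FrattiniP
import Cfsg.Agent.H1.CoprimeGen

set_option autoImplicit false

namespace H33.Br

open Cfsg Subgroup H98
open scoped commutatorElement

variable {H : Type*} [Group H] [Finite H]

theorem desc1 {p : ℕ} [Fact p.Prime] {N St : Subgroup H} (hN : IsPGroup p N) (h : ¬ N ≤ St) :
    ∃ n ∈ N, ∀ b ∈ ⁅N, N⁆, b * n ∉ St := by
  by_contra r
  push Not at r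
  have := hN.isNilpotent
  refine h (subgroupOf_eq_top.1 (H3.eq_top_of_sup_commutator_of_nilpotent (eq_top_iff.2 fun n _ => ?_)))
  obtain ⟨b, hb, e⟩ := r n n.2
  rw [← map_subtype_commutator] at hb
  obtain ⟨b, hb, rfl⟩ := hb
  exact (mul_mem_cancel_left (mem_sup_right hb)).1 (mem_sup_left e)

theorem desc2 {p : ℕ} [Fact p.Prime] {N X K : Subgroup H} (hN : IsPGroup p N) (le : X ≤ N)
    (hK : N ≤ normalizer (K : Set H)) (h : ¬ X ≤ K) : ∃ n ∈ X, ∀ b ∈ ⁅X, N⁆, b * n ∉ K := by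
  by_contra r
  push Not at r
  have : (K.subgroupOf N).Normal :=
    ⟨fun a ha g => mem_subgroupOf.2 (conj_mem_of_mem_normalizer (H := K) (hK g.2) ha)⟩
  let π := QuotientGroup.mk' (K.subgroupOf N)
  have nil := (hN.to_quotient (K.subgroupOf N)).isNilpotent
  have e : (X.subgroupOf N).map π = ⊥ := eq_bot_of_le_commutator (A := ⊤) (H := ⊤)
    inferInstance le_top le_top (by
      rintro _ ⟨n, hn, rfl⟩
      obtain ⟨b, hb, e⟩ := r n hn
      have c : Subgroup.map N.subtype ⁅X.subgroupOf N, ⊤⁆ = ⁅X, N⁆ := by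
        rw [map_commutator, map_subgroupOf_eq_of_le le, ← MonoidHom.range_eq_map, range_subtype]
      obtain ⟨b, hb', rfl⟩ := c.ge hb
      have e1 : π (b * n) = 1 := (QuotientGroup.eq_one_iff _).2 e
      rw [map_mul, mul_eq_one_iff_inv_eq] at e1
      rw [← e1, ← map_top_of_surjective π (QuotientGroup.mk'_surjective _), ← map_commutator]
      exact inv_mem (mem_map_of_mem π hb'))
  exact h fun n hn => (QuotientGroup.eq_one_iff (⟨n, le hn⟩ : N)).1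
    (mem_bot.1 (e.le (mem_map_of_mem π hn)))

/-- A minimal invariant subgroup not centralised by `E`. -/
theorem exists_min {p : ℕ} [Fact p.Prime] {Y B E : Subgroup H} (hB : IsPGroup p B)
    (hY : Y ≤ normalizer (B : Set H)) (EY : E ≤ Y) (hE : Y ≤ normalizer (E : Set H))
    (hr : res p E = E) (h : ⁅B, E⁆ ≠ ⊥) :
    ∃ X ≤ B, Y ≤ normalizer (X : Set H) ∧ ⁅X, E⁆ = X ∧ X ≠ ⊥ ∧ ∀ Z ≤ X, Z ≠ X →
      Y ≤ normalizer (Z : Set H) → E ≤ centralizer (Z : Set H) ∧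
        (X ≤ normalizer (Z : Set H) → Z ≤ centralizer (X : Set H)) := by
  obtain ⟨X, ⟨a1, a2, a3⟩, hm⟩ := (wellFounded_lt (α := Subgroup H)).has_min
    {X | X ≤ B ∧ Y ≤ normalizer (X : Set H) ∧ ⁅X, E⁆ ≠ ⊥} ⟨B, le_rfl, hY, h⟩
  have le := commutator_le_left' (EY.trans a2)
  have e : ⁅X, E⁆ = X := eq_of_le_of_not_lt le (hm _ ⟨le.trans a1, le_normalizer_commutator a2 hE, by
    rwa [commutator_commutator_of_res_eq (hB.to_le a1) (EY.trans a2) hr]⟩)
  refine ⟨X, a1, a2, e, e ▸ a3, fun Z b1 b2 b3 => ?_⟩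
  have c : ⁅Z, E⁆ = ⊥ := by_contra fun r => hm Z ⟨b1.trans a1, b3, r⟩ (lt_of_le_of_ne b1 b2)
  refine ⟨le_centralizer_iff.1 (commutator_eq_bot_iff_le_centralizer.1 c), fun n => ?_⟩
  have := commutator_commutator_eq_bot_of_rotate (H₁ := E) (H₂ := X) (H₃ := Z)
    (le_bot_iff.1 (c ▸ commutator_mono (commutator_le_right' n) le_rfl)) (by rw [c, commutator_bot_left])
  rw [commutator_comm E, e] at this
  exact le_centralizer_iff.1 (commutator_eq_bot_iff_le_centralizer.1 this)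

theorem exists_minQ [Fact (Nat.Prime 2)] {Y B E C : Subgroup H} (hB : IsPGroup 2 B) (BY : B ≤ Y)
    (hY : Y ≤ normalizer (B : Set H)) (EY : E ≤ Y) (hE : Y ≤ normalizer (E : Set H))
    (hC : Y ≤ normalizer (C : Set H)) (hr : res 2 E = E) (h : ¬ ⁅B, E⁆ ≤ C) :
    ∃ X ≤ B, Y ≤ normalizer (X : Set H) ∧ ⁅X, E⁆ = X ∧ ¬ X ≤ C ∧ (⁅X, X⁆ ≤ C → ∀ q ∈ X, q * q ∈ C) := by
  obtain ⟨X, ⟨a1, a2, a3⟩, hm⟩ := (wellFounded_lt (α := Subgroup H)).has_min
    {X | X ≤ B ∧ Y ≤ normalizer (X : Set H) ∧ ¬ ⁅X, E⁆ ≤ C} ⟨B, le_rfl, hY, h⟩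
  have le := commutator_le_left' (EY.trans a2)
  have e : ⁅X, E⁆ = X := eq_of_le_of_not_lt le (hm _ ⟨le.trans a1, le_normalizer_commutator a2 hE, by
    rwa [commutator_commutator_of_res_eq (hB.to_le a1) (EY.trans a2) hr]⟩)
  refine ⟨X, a1, a2, e, e ▸ a3, fun c => ?_⟩
  have : Nontrivial X := (nontrivial_iff_ne_bot X).2 fun r => a3 (by rw [r, commutator_bot_left]; exact bot_le)
  have b1 : ⁅(frattini X).map X.subtype, E⁆ ≤ C := by_contra fun r => hm _ ⟨(map_subtype_le _).trans a1,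
    a2.trans (normalizer_le_normalizer_map_subtype _), r⟩ (lt_of_le_of_ne (map_subtype_le _) fun e => by
      have : frattini X = ⊤ := map_injective X.subtype_injective (by rw [e, map_subtype_top])
      exact bot_ne_top (frattini_nongenerating (K := (⊥ : Subgroup X)) (by rw [this, sup_top_eq])))
  have m : ∀ q ∈ X, q * q ∈ (frattini X).map X.subtype := fun q hq =>
    ⟨_, H3.pow_mem_frattini_pgroup (hB.to_le a1) ⟨q, hq⟩, sq q⟩
  have cj : ∀ a ∈ X, ∀ b ∈ X, a * ⁅b, a⁆ * a⁻¹ ∈ C := fun a ha b hb =>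
    conj_mem_of_mem_normalizer (hC (BY (a1 ha))) (c (commutator_mem_commutator hb ha))
  let S : Subgroup H := ⟨⟨⟨{q | q ∈ X ∧ q * q ∈ C}, fun {a b} ha hb => ⟨mul_mem ha.1 hb.1, by
    have := mul_mem (mul_mem (cj a ha.1 b hb.1) ha.2) hb.2
    rwa [show a * ⁅b, a⁆ * a⁻¹ * (a * a) * (b * b) = a * b * (a * b) by
      rw [commutatorElement_def]; group] at this⟩⟩, one_mem _, by simp⟩,
    fun {a} ha => ⟨inv_mem ha.1, by rw [← mul_inv_rev]; exact inv_mem ha.2⟩⟩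
  have : ⁅X, E⁆ ≤ S := commutator_le.2 fun q hq g hg => by
    have h1 : g * q⁻¹ * g⁻¹ ∈ X := conj_mem_of_mem_normalizer (a2 (EY hg)) (inv_mem hq)
    refine ⟨e ▸ commutator_mem_commutator hq hg, ?_⟩
    have := mul_mem (cj q hq _ h1) (b1 (commutator_mem_commutator (m q hq) hg))
    rwa [show q * ⁅g * q⁻¹ * g⁻¹, q⁆ * q⁻¹ * ⁅q * q, g⁆ = ⁅q, g⁆ * ⁅q, g⁆ by
      simp only [commutatorElement_def]; group] at this
  exact fun q hq => (this (e.ge hq)).2

/-- `x` is fixed or inverted by every element of `T`. -/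
def Eig (T : Subgroup H) (x : H) : Prop := ∀ t ∈ T, t * x * t⁻¹ = x ∨ t * x * t⁻¹ = x⁻¹

theorem exists_sqrt {K : Type*} [Group K] [Finite K] {u : K} (h : Odd (orderOf u)) :
    ∃ m : ℕ, u ^ m * u ^ m = u := by
  obtain ⟨m, hm⟩ := h
  exact ⟨m + 1, by rw [← pow_add, show m + 1 + (m + 1) = orderOf u + 1 by omega, pow_succ,
    pow_orderOf_eq_one, one_mul]⟩

theorem le_closure_eig {R T : Subgroup H} (ho : Odd (Nat.card R)) (hn : T ≤ normalizer (R : Set H))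
    (h2 : ∀ t ∈ T, t * t ∈ centralizer (R : Set H)) : R ≤ closure {x | x ∈ R ∧ Eig T x} := by
  let f : T →* MulAut R := R.normalizerMonoidHom.comp (inclusion hn)
  have hf : ∀ (t : T) (x : R), (f t x : H) = t * x * (t : H)⁻¹ := fun _ _ => rfl
  have s2 : ∀ a : f.range, a * a = 1 := by
    rintro ⟨_, t, rfl⟩
    refine Subtype.ext (MulEquiv.ext fun x => Subtype.ext ?_)
    change (f t * f t) x = (x : H)
    rw [← map_mul, hf, coe_mul, ← h2 t t.2 x x.2, mul_inv_cancel_right]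
  have : IsMulCommutative f.range := ⟨⟨fun a b => by
    rw [← inv_eq_of_mul_eq_one_right (s2 (a * b)), mul_inv_rev, inv_eq_of_mul_eq_one_right (s2 a),
      inv_eq_of_mul_eq_one_right (s2 b)]⟩⟩
  have := Fact.mk Nat.prime_two
  have p2 : IsPGroup 2 f.range := fun a => ⟨1, by rw [pow_one, sq, s2]⟩
  refine subgroupOf_eq_top.1 (H1.eq_top_of_cocyclic_fixed _ R f.range.subtype rfl ?_ _ fun Y hY x hx => ?_)
  · obtain ⟨n, e⟩ := p2.exists_card_eq
    exact e ▸ Nat.Coprime.pow_left n (Nat.coprime_two_left.2 ho)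
  obtain ⟨g, hg⟩ := hY.exists_generator
  obtain ⟨g, rfl⟩ := QuotientGroup.mk_surjective g
  have two : ∀ a : f.range, a ∈ Y ∨ a * g ∈ Y := fun a => by
    obtain ⟨n, e⟩ := hg (a : f.range ⧸ Y)
    have g2 : (g : f.range ⧸ Y) ^ (2 : ℤ) = 1 := by
      rw [zpow_two, ← QuotientGroup.mk_mul, s2, QuotientGroup.mk_one]
    obtain ⟨m, rfl | rfl⟩ := Int.even_or_odd' n
    · left; rw [← QuotientGroup.eq_one_iff, ← e]; simp only [zpow_mul, g2, one_zpow]
    · right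
      rw [← QuotientGroup.eq_one_iff, QuotientGroup.mk_mul, ← e]
      simp only [zpow_add, zpow_mul, g2, one_zpow, zpow_one, one_mul]
      rw [← zpow_two, g2]
  have gg : ∀ y : R, g.1 (g.1 y) = y := fun y => DFunLike.congr_fun (congrArg Subtype.val (s2 g)) y
  obtain ⟨m, hm⟩ := exists_sqrt (u := x * (g.1 x)⁻¹) (ho.of_dvd_nat (orderOf_dvd_natCard _))
  have gu : g.1 (x * (g.1 x)⁻¹) = (x * (g.1 x)⁻¹)⁻¹ := by rw [map_mul, map_inv, gg, mul_inv_rev, inv_inv]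
  have au : ∀ a ∈ Y, a.1 (x * (g.1 x)⁻¹) = x * (g.1 x)⁻¹ := fun a ha => by
    have : a.1 (g.1 x) = g.1 (a.1 x) := DFunLike.congr_fun (congrArg Subtype.val (mul_comm' a g)) x
    rw [map_mul, map_inv, this, show a.1 x = x from hx a ha]
  generalize hu : x * (g.1 x)⁻¹ = u at hm gu au
  have gx : g.1 x = u⁻¹ * x := by rw [← hu]; group
  have key : ∀ y : R, (∀ a ∈ Y, a.1 y = y) → (g.1 y = y ∨ g.1 y = y⁻¹) →
      y ∈ (closure {x | x ∈ R ∧ Eig T x}).subgroupOf R := fun y h1 h3 =>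
    subset_closure ⟨y.2, fun t ht => by
      change (f ⟨t, ht⟩ y : H) = y ∨ (f ⟨t, ht⟩ y : H) = (y⁻¹ : R)
      rw [Subtype.coe_inj, Subtype.coe_inj]
      rcases two ⟨f ⟨t, ht⟩, _, rfl⟩ with r | r
      · exact .inl (h1 _ r)
      · have r' : f ⟨t, ht⟩ (g.1 y) = y := h1 _ r
        exact h3.imp (fun e => by rwa [e] at r') fun e => by rwa [e, map_inv, inv_eq_iff_eq_inv] at r'⟩
  rw [← mul_inv_cancel_left (u ^ m) x]
  refine mul_mem (key _ (fun a ha => by rw [map_pow, au a ha]) (.inr (by rw [map_pow, gu, inv_pow])))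
    (key _ (fun a ha => by rw [map_mul, map_inv, map_pow, au a ha, show a.1 x = x from hx a ha])
      (.inl ?_))
  rw [map_mul, map_inv, map_pow, gu, gx, inv_pow, inv_inv]
  rw [← mul_assoc, mul_left_inj, mul_inv_eq_iff_eq_mul, eq_inv_mul_iff_mul_eq, hm]

omit [Finite H] in
theorem comm_of_sign {x y q : H} (ho : Odd (orderOf ⁅x, y⁆)) (hy : ⁅x, y⁆ * y = y * ⁅x, y⁆)
    (hq : ⁅x, y⁆ * q = q * ⁅x, y⁆) (h1 : q * x * q⁻¹ = x) (h2 : q * y * q⁻¹ = y⁻¹) : ⁅x, y⁆ = 1 := by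
  refine mem_bot.1 (mem_of_sq ho (mem_bot.2 ?_))
  have e : q * ⁅x, y⁆ * q⁻¹ = y⁻¹ * ⁅x, y⁆⁻¹ * y := by
    rw [conjugate_commutatorElement, h1, h2, commutatorElement_def, commutatorElement_def]; group
  rw [← hq, mul_inv_cancel_right] at e
  calc ⁅x, y⁆ * ⁅x, y⁆ = y⁻¹ * ⁅x, y⁆⁻¹ * (y * ⁅x, y⁆) := by rw [← mul_assoc, ← e]
    _ = 1 := by rw [← hy]; group

end H33.Br
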