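/- Two-length and derived length, part 3: the three module cases. -/
import Cfsg.Agent.H33.BrGrp

set_option autoImplicit false

namespace H33.Br

open Cfsg Subgroup H98 Module
open scoped commutatorElement

variable {k V H : Type*} [Field k] [AddCommGroup V] [Module k V] [Group H] {ρ : Representation k H V}

/-- The stabiliser of a submodule. -/
def st (ρ : Representation k H V) (U : Submodule k V) : Subgroup H where
  carrier := {g | ∀ u, u ∈ U ↔ ρ g u ∈ U}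
  mul_mem' {a b} ha hb u := by rw [rho_mul]; exact (hb u).trans (ha _)
  one_mem' u := by simp
  inv_mem' {a} ha u := by
    have := ha (ρ a⁻¹ u)
    rw [ρ.self_inv_apply] at this
    exact this.symm

theorem conj_wt {Z : Subgroup H} {g : H} (hg : g ∈ normalizer (Z : Set H)) (ω : Z → k) (u : V) :
    u ∈ Wt ρ Subtype.val ω ↔
      ρ g u ∈ Wt ρ Subtype.val fun z : Z => ω ⟨g⁻¹ * z * g, conj_mem_of_mem_normalizer' hg z.2⟩ := by
  rw [mem_wt, mem_wt]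
  refine ⟨fun h z => ?_, fun h z => ?_⟩
  · rw [← map_smul, ← h, ← rho_mul, ← rho_mul]
    congr 2
    group
  · have := congrArg (ρ g⁻¹) (h ⟨g * z * g⁻¹, conj_mem_of_mem_normalizer hg z.2⟩)
    rw [map_smul, ρ.inv_self_apply, ← rho_mul, ← rho_mul] at this
    simpa [mul_assoc] using this

theorem ot_of_not_st {Z : Subgroup H} {g : H} (hg : g ∈ normalizer (Z : Set H)) {ω : Z → k} {v : V}
    (h : g ∉ st ρ (Wt ρ Subtype.val ω)) (hv : v ∈ Wt ρ Subtype.val ω) : ρ g v ∈ Ot ρ Subtype.val ω :=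
  mem_ot (fun e => h fun u => by rw [conj_wt hg ω u, e]) ((conj_wt hg ω v).1 hv)

variable [Finite H]

local instance factBrCore : Fact (Nat.Prime 2) := ⟨Nat.prime_two⟩

theorem stage1 {P Z : Subgroup H} (hP : IsPGroup 2 P) (hn : P ≤ normalizer (Z : Set H)) {ω : Z → k}
    {v : V} (hv : v ∈ Wt ρ Subtype.val ω) (j : ℕ)
    (hj : ∀ i < j, ¬ dS P i ≤ st ρ (Wt ρ Subtype.val ω)) :
    ∃ T : End k V, (∀ u, T u ∈ Ch ρ P j) ∧ T v - v ∈ Ot ρ Subtype.val ω := by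
  obtain ⟨T, a1, -, a3⟩ := stage (ρ := ρ) (St := st ρ (Wt ρ Subtype.val ω)) (P := P) (dS_anti P) v
    (j := 0) le_rfl j fun i _ hi => by
      obtain ⟨n, b1, b2⟩ := desc1 (hP.to_le (dS_le P i)) (hj i (by omega))
      exact ⟨n, b1, b1, b2⟩
  rw [zero_add] at a1 a3
  refine ⟨T, fun u => a1 u trivial, Submodule.span_le.2 ?_ a3⟩
  rintro _ ⟨g, b1, b2, rfl⟩
  exact ot_of_not_st (hn b1) (by simpa using b2 1 (one_mem _)) hv

omit [Finite H] in
theorem odd_ord {R : Subgroup H} (ho : Odd (Nat.card R)) {x : H} (hx : x ∈ R) : Odd (orderOf x) :=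
  ho.of_dvd_nat (R.orderOf_dvd_natCard hx)

theorem case_ab [IsAlgClosed k] [FiniteDimensional k V] [CharP k 2] (inj : Function.Injective ρ)
    {P R : Subgroup H} (hP : IsPGroup 2 P) (ho : Odd (Nat.card R)) (hn : P ≤ normalizer (R : Set H))
    (hc : R ≤ centralizer (R : Set H)) {l : ℕ} {a : H} (ha : a ∈ dS P l)
    (h : a ∉ centralizer (R : Set H)) : Ch ρ P (l + 1) ≠ ⊥ := fun e => by
  obtain ⟨x, hx, h⟩ : ∃ x ∈ R, x * a ≠ a * x := by simpa [mem_centralizer_iff] using h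
  have m : x⁻¹ * (a⁻¹ * x * a) ∈ R :=
    mul_mem (inv_mem hx) (conj_mem_of_mem_normalizer' (hn (dS_le P l ha)) hx)
  have cc : ∀ i j : R, i.1 * j.1 = j.1 * i.1 := fun i j => hc j.2 i i.2
  obtain ⟨v, v0, ω, hv, w1⟩ := exists_wt_ne inj cc (j := ⟨_, m⟩) (odd_ord ho m) fun r => h (by
    rw [inv_mul_eq_one, mul_assoc, eq_inv_mul_iff_mul_eq] at r
    exact r.symm)
  obtain ⟨T, a1, a2⟩ := stage1 hP hn hv (l + 1) fun i hi r => w1 (by
    have b1 := mem_wt.1 ((r (dS_anti P (Nat.le_of_lt_succ hi) ha) v).1 hv) ⟨x, hx⟩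
    have b2 := mem_wt.1 hv ⟨_, m⟩
    rw [rho_mul, rho_mul, rho_mul, b1, map_smul, ρ.inv_self_apply, ← mem_wt.1 hv ⟨x, hx⟩,
      ρ.inv_self_apply] at b2
    exact smul_left_injective k v0 (b2.symm.trans (one_smul k v).symm))
  have := a1 v
  rw [e, Submodule.mem_bot] at this
  rw [this, zero_sub, neg_mem_iff] at a2
  exact v0 (wt_disj cc hv a2)

/-- The elements `g` with `(g - 1) (c - 1) = 0`. -/
def kl (ρ : Representation k H V) (c : H) : Subgroup H := ⨅ v, fx ρ (v - ρ c v)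

omit [Finite H] in
theorem mem_kl {c g : H} : g ∈ kl ρ c ↔ ∀ v, ρ g (v - ρ c v) = v - ρ c v := mem_iInf

omit [Finite H] in
theorem kl_symm {c g : H} (h : c * g = g * c) (hg : g ∈ kl ρ c) : c ∈ kl ρ g := mem_kl.2 fun v => by
  have := mem_kl.1 hg v
  rw [map_sub, ← rho_mul] at this ⊢
  rw [h, ← sub_eq_zero, ← sub_eq_zero.2 this]
  abel

omit [Finite H] in
theorem kl_of_inv {c b x : H} (ho : Odd (orderOf x)) (h : x * c = c * x) (hb : b ∈ kl ρ c)
    (hi : b * x * b⁻¹ = x⁻¹) : x ∈ kl ρ c := by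
  refine mem_of_sq ho (mem_kl.2 fun v => ?_)
  have e : x * x = b⁻¹ * x⁻¹ * b * x := by rw [← hi]; group
  have e2 : ρ x (v - ρ c v) = ρ x v - ρ c (ρ x v) := by rw [map_sub, ← rho_mul, h, rho_mul]
  rw [e, rho_mul, rho_mul, rho_mul, e2, mem_kl.1 hb, ← e2, ρ.inv_self_apply, mem_kl.1 (inv_mem hb)]

section Pair

variable {R : Subgroup H}

omit [Finite H] in
theorem comm_z (hR : ⁅R, R⁆ ≤ centralizer (R : Set H)) {x y : H} (hx : x ∈ R) (hy : y ∈ R) :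
    ⁅x, y⁆ ∈ R ⊓ centralizer (R : Set H) :=
  ⟨commutator_le_left' le_normalizer (commutator_mem_commutator hx hy), hR (commutator_mem_commutator hx hy)⟩

omit [Finite H] in
theorem comm_mixed (ho : Odd (Nat.card R)) (hR : ⁅R, R⁆ ≤ centralizer (R : Set H)) {x y t : H}
    (hx : x ∈ R) (hy : y ∈ R) (ht : t ∈ centralizer ((R ⊓ centralizer (R : Set H) : Subgroup H) : Set H))
    (h1 : t * x * t⁻¹ = x) (h2 : t * y * t⁻¹ = y⁻¹) : x * y = y * x :=
  commutatorElement_eq_one_iff_mul_comm.1 (comm_of_sign (odd_ord ho (comm_z hR hx hy).1)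
    ((comm_z hR hx hy).2 y hy).symm (ht _ (comm_z hR hx hy)) h1 h2)

omit [Finite H] in
theorem same_type (ho : Odd (Nat.card R)) (hR : ⁅R, R⁆ ≤ centralizer (R : Set H)) {T : Subgroup H}
    (hT : T ≤ centralizer ((R ⊓ centralizer (R : Set H) : Subgroup H) : Set H)) {x y t : H}
    (hx : x ∈ R) (hy : y ∈ R) (ex : Eig T x) (ey : Eig T y) (h : x * y ≠ y * x) (ht : t ∈ T) :
    (t * x * t⁻¹ = x ∧ t * y * t⁻¹ = y) ∨ (t * x * t⁻¹ = x⁻¹ ∧ t * y * t⁻¹ = y⁻¹) := by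
  rcases ex t ht with a | a <;> rcases ey t ht with b | b
  · exact .inl ⟨a, b⟩
  · exact (h (comm_mixed ho hR hx hy (hT ht) a b)).elim
  · exact (h (comm_mixed ho hR hy hx (hT ht) b a).symm).elim
  · exact .inr ⟨a, b⟩

theorem exists_pair (ho : Odd (Nat.card R)) {T : Subgroup H} (hn : T ≤ normalizer (R : Set H))
    (h2 : ∀ t ∈ T, t * t ∈ centralizer (R : Set H))
    (hT : T ≤ centralizer ((R ⊓ centralizer (R : Set H) : Subgroup H) : Set H)) {c : H} (hc : c ∈ T)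
    (h : c ∉ centralizer (R : Set H)) :
    ∃ x ∈ R, ∃ y ∈ R, Eig T x ∧ Eig T y ∧ c * x * c⁻¹ = x⁻¹ ∧ x * y ≠ y * x := by
  by_contra r
  push Not at r
  have key : ∀ g : H, (∀ y ∈ R, Eig T y → g * y = y * g) → g ∈ centralizer (R : Set H) := fun g hg y hy =>
    (((closure_le (centralizer {g})).2 (fun y hy _ e => e ▸ hg y hy.1 hy.2)
      (le_closure_eig ho hn h2 hy)) g rfl).symm
  refine h (key c fun x hx ex => (ex c hc).elim (fun e => mul_inv_eq_iff_eq_mul.1 e) fun e => ?_)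
  exact (hT hc x ⟨hx, key x fun y hy ey => r x hx y hy ex ey e⟩).symm

end Pair

omit [Finite H] in
theorem quad_core [CharP k 2] (inj : Function.Injective ρ) {R : Subgroup H} (ho : Odd (Nat.card R))
    (hR : ⁅R, R⁆ ≤ centralizer (R : Set H)) {a b q x y : H} (hx : x ∈ R) (hy : y ∈ R)
    (hq : q ∈ normalizer (R : Set H))
    (ha : a ∈ centralizer ((R ⊓ centralizer (R : Set H) : Subgroup H) : Set H))
    (hq' : q ∈ centralizer ((R ⊓ centralizer (R : Set H) : Subgroup H) : Set H))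
    (e : q * b * q⁻¹ = a) (hb : b ∈ kl ρ a) (ax : a * x * a⁻¹ = x) (ay : a * y * a⁻¹ = y)
    (bx : b * x * b⁻¹ = x⁻¹) (bY : b * y * b⁻¹ = y⁻¹) : x * y = y * x := by
  have z := comm_z hR hx hy
  have key : ∀ u ∈ R, a * u * a⁻¹ = u → b * u * b⁻¹ = u⁻¹ → u ∈ kl ρ ⁅x, y⁆ := fun u hu au bu => by
    have c := mul_inv_eq_iff_eq_mul.1 au
    have a1 := kl_symm c (kl_of_inv (odd_ord ho hu) c.symm hb bu)
    have a2 : ∀ w ∈ R, b * w * b⁻¹ = w⁻¹ → q * w * q⁻¹ ∈ kl ρ u := fun w hw bw => by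
      have m := conj_mem_of_mem_normalizer hq hw
      have i : a * (q * w * q⁻¹) * a⁻¹ = (q * w * q⁻¹)⁻¹ := by
        rw [← e, show (q * w * q⁻¹)⁻¹ = q * w⁻¹ * q⁻¹ by group, ← bw]; group
      exact kl_of_inv (odd_ord ho m) (comm_mixed ho hR hu m ha au i).symm a1 i
    refine kl_symm (z.2 u hu) ?_
    rw [← mul_inv_cancel_right ⁅x, y⁆ q, hq' _ z, conjugate_commutatorElement]
    exact commutator_le_left' le_normalizer (commutator_mem_commutator (a2 x hx bx) (a2 y hy bY))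
  have := commutator_le_left' le_normalizer (commutator_mem_commutator (key x hx ax bx) (key y hy ay bY))
  refine commutatorElement_eq_one_iff_mul_comm.1 (mem_bot.1 (mem_of_sq (odd_ord ho z.1) (mem_bot.2 (inj ?_))))
  ext v
  rw [sq_fix (mem_kl.1 this v), map_one, End.one_apply]

theorem case_quad [CharP k 2] (inj : Function.Injective ρ) {P Q R : Subgroup H} (ho : Odd (Nat.card R))
    (hR : ⁅R, R⁆ ≤ centralizer (R : Set H)) (hn : P ≤ normalizer (R : Set H)) (QP : Q ≤ P)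
    (hQ : Q ≤ centralizer ((R ⊓ centralizer (R : Set H) : Subgroup H) : Set H)) {l : ℕ} {a q : H}
    (ha : a ∈ dS P l) (aQ : a ∈ Q) (hq : q ∈ Q) (h : ⁅a, q⁆ ∉ centralizer (R : Set H)) :
    Ch ρ P (l + 1) ≠ ⊥ := fun e => by
  have kk : ∀ a ∈ dS P l, ∀ b ∈ dS P l, a ∈ kl ρ b := fun a ha b hb => mem_kl.2 fun v => by
    have := mem_ch ha (dS_le_tq (ρ := ρ) P l hb v)
    rw [e, Submodule.mem_bot] at this
    exact (sub_eq_zero.1 this).symm
  have s2 : ∀ a ∈ dS P l, a * a = 1 := fun a ha => inj (by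
    ext v
    rw [sq_fix (mem_kl.1 (kk a ha a ha) v), map_one, End.one_apply])
  have hb := conj_mem_of_mem_normalizer (nor_dS le_normalizer l (QP hq)) ha
  have bQ : q * a * q⁻¹ ∈ Q := mul_mem (mul_mem hq aQ) (inv_mem hq)
  have hT := (inf_le_right (a := dS P l)).trans hQ
  obtain ⟨x, hx, y, hy, ex, ey, i, c⟩ := exists_pair ho (T := dS P l ⊓ Q)
    (inf_le_right.trans (QP.trans hn)) (fun t ht => by rw [s2 t ht.1]; exact one_mem _) hT
    (c := a * (q * a * q⁻¹)) (mul_mem ⟨ha, aQ⟩ ⟨hb, bQ⟩) (by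
      rwa [commutatorElement_def, inv_eq_of_mul_eq_one_right (s2 a ha), mul_assoc, mul_assoc,
        ← mul_assoc q] at h)
  have x1 : x ≠ x⁻¹ := fun r => c (by
    rw [mem_bot.1 (mem_of_sq (K := ⊥) (odd_ord ho hx) (mem_bot.2 (mul_eq_one_iff_eq_inv.2 r))),
      one_mul, mul_one])
  generalize hb' : q * a * q⁻¹ = b at hb bQ i
  have i' : a * (b * x * b⁻¹) * a⁻¹ = x⁻¹ := by rw [← i]; group
  rcases same_type ho hR hT hx hy ex ey c ⟨ha, aQ⟩ with ⟨a1, a2⟩ | ⟨a1, a2⟩ <;>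
    rcases same_type ho hR hT hx hy ex ey c ⟨hb, bQ⟩ with ⟨b1, b2⟩ | ⟨b1, b2⟩
  · exact x1 (by rw [← i', b1, a1])
  · exact c (quad_core inj ho hR hx hy (inv_mem (hn (QP hq))) (hQ aQ) (hQ (inv_mem hq))
      (by rw [← hb']; group) (kk b hb a ha) a1 a2 b1 b2)
  · exact c (quad_core inj ho hR hx hy (hn (QP hq)) (hQ bQ) (hQ hq) hb' (kk a ha b hb) b1 b2 a1 a2)
  · rw [b1] at i'
    exact x1 (calc x = (a * x * a⁻¹)⁻¹ := by rw [a1, inv_inv]
      _ = a * x⁻¹ * a⁻¹ := by group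
      _ = x⁻¹ := i')

omit [Finite H] in
theorem exists_good [IsAlgClosed k] [FiniteDimensional k V] {ι : Type*} [Finite ι] {x y : ι → H}
    {U : Submodule k V} (h0 : U ≠ ⊥) (hc : ∀ i j, x i * x j = x j * x i)
    (hx : ∀ i, ∀ u ∈ U, ρ (x i) u ∈ U) (hy : ∀ i, ∀ u ∈ U, ρ (y i) u ∈ U)
    (hxy : ∀ i j, j ≠ i → x j * y i = y i * x j)
    (hz : ∀ i, ∃ c ≠ (1 : k), ∀ u ∈ U, ρ ⁅x i, y i⁆ u = c • u) :
    ∃ v ∈ U, v ≠ 0 ∧ ∃ μ, v ∈ Wt ρ x μ ∧ ∀ i, μ i ≠ 1 := by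
  classical
  have := Fintype.ofFinite ι
  suffices h : ∀ s : Finset ι, ∃ v ∈ U, v ≠ 0 ∧ ∃ μ, v ∈ Wt ρ x μ ∧ ∀ i ∈ s, μ i ≠ 1 by
    simpa using h Finset.univ
  intro s
  induction s using Finset.induction_on with
  | empty => simpa using exists_wt hc h0 hx
  | insert i s _ ih =>
    obtain ⟨v, a1, a2, μ, a3, a4⟩ := ih
    by_cases h : μ i = 1
    · obtain ⟨c, c1, c2⟩ := hz i
      refine ⟨ρ (y i) v, hy i v a1, rho_ne _ a2, Function.update μ i c, mem_wt.2 fun j => ?_,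
        fun j hj => ?_⟩ <;> rcases eq_or_ne j i with rfl | r
      · rw [Function.update_self, ← c2 _ (hy j v a1), ← rho_mul, show x j * y j = ⁅x j, y j⁆ * y j * x j by
          rw [commutatorElement_def]; group, rho_mul, mem_wt.1 a3, h, one_smul, rho_mul]
      · rw [Function.update_of_ne r, ← rho_mul, hxy i j r, rho_mul, mem_wt.1 a3, map_smul]
      · rwa [Function.update_self]
      · rw [Function.update_of_ne r]
        exact a4 j ((Finset.mem_insert.1 hj).resolve_left r)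
    · exact ⟨v, a1, a2, μ, a3, fun j hj => (Finset.mem_insert.1 hj).elim (fun e => e ▸ h) (a4 j)⟩

omit [Finite H] in
theorem ot_of_inv [CharP k 2] {ι : Type*} {x : ι → H} {μ : ι → k} {v : V} (hv : v ∈ Wt ρ x μ)
    (v0 : v ≠ 0) (h1 : ∀ i, μ i ≠ 1) {g : H} (hg : ∀ i, g⁻¹ * x i * g = x i ∨ g⁻¹ * x i * g = (x i)⁻¹)
    {j : ι} (hj : g⁻¹ * x j * g = (x j)⁻¹) : ρ g v ∈ Ot ρ x μ := by
  classical
  have m0 : ∀ i, μ i ≠ 0 := fun i e => rho_ne (ρ := ρ) (x i) v0 (by rw [mem_wt.1 hv, e, zero_smul])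
  refine mem_ot (w' := fun i => if g⁻¹ * x i * g = (x i)⁻¹ then (μ i)⁻¹ else μ i) (fun e => ?_)
    (mem_wt.2 fun i => ?_)
  · have := congrFun e j
    rw [if_pos hj, inv_eq_iff_eq_inv, ← mul_eq_one_iff_eq_inv₀ (m0 j), mul_self_eq_one_iff,
      CharTwo.neg_eq, or_self] at this
    exact h1 j this
  · rw [← rho_mul, show x i * g = g * (g⁻¹ * x i * g) by group, rho_mul, ← map_smul]
    congr 1
    split_ifs with r
    · rw [r, eq_inv_smul_iff₀ (m0 i), ← map_smul, ← mem_wt.1 hv, ρ.inv_self_apply]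
    · rw [(hg i).resolve_right r, mem_wt.1 hv]

theorem case_free [IsAlgClosed k] [FiniteDimensional k V] [CharP k 2] (inj : Function.Injective ρ)
    {P Q R : Subgroup H} (hP : IsPGroup 2 P) (ho : Odd (Nat.card R))
    (hR : ⁅R, R⁆ ≤ centralizer (R : Set H)) (hn : P ≤ normalizer (R : Set H)) (QP : Q ≤ P)
    (hPQ : P ≤ normalizer (Q : Set H))
    (hQ : Q ≤ centralizer ((R ⊓ centralizer (R : Set H) : Subgroup H) : Set H))
    (h2 : ∀ q ∈ Q, q * q ∈ centralizer (R : Set H)) {l : ℕ} {a : H}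
    (ha : a ∈ cS Q P l) (h : a ∉ centralizer (R : Set H)) : Ch ρ P (l + 1) ≠ ⊥ := fun e => by
  classical
  have anti := cS_anti hPQ
  have aQ : a ∈ Q := anti (Nat.zero_le l) ha
  obtain ⟨x0, hx0, y0, hy0, ex0, ey0, i0, c0⟩ := exists_pair ho (QP.trans hn) h2 hQ aQ h
  have hZ := le_normalizer_inf hn (le_normalizer_centralizer hn)
  have cz : ∀ x ∈ R, ∀ y ∈ R, ⁅x, y⁆ ∈ R ⊓ centralizer (R : Set H) := fun x hx y hy => comm_z hR hx hy
  have st' : ∀ x ∈ R, ∀ y ∈ R, Eig Q x → Eig Q y → x * y ≠ y * x →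
      Q ⊓ centralizer {x} = Q ⊓ centralizer {y} := by
    have key : ∀ x ∈ R, ∀ y ∈ R, Eig Q x → Eig Q y → x * y ≠ y * x →
        Q ⊓ centralizer {x} ≤ Q ⊓ centralizer {y} := fun x hx y hy ex ey c t ht => by
      refine ⟨ht.1, mem_centralizer_singleton_iff.2 ((ey t ht.1).elim mul_inv_eq_iff_eq_mul.1 fun r => ?_)⟩
      exact (c (comm_mixed ho hR hx hy (hQ ht.1)
        (mul_inv_eq_iff_eq_mul.2 (mem_centralizer_singleton_iff.1 ht.2)) r)).elim
    exact fun x hx y hy ex ey c => le_antisymm (key x hx y hy ex ey c) (key y hy x hx ey ex c.symm)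
  have ZR : R ⊓ centralizer (R : Set H) ≤ R := inf_le_left
  have cr : ∀ g ∈ R, ∀ z : (R ⊓ centralizer (R : Set H) : Subgroup H), z.1 * g = g * z :=
    fun g hg z => (z.2.2 g hg).symm
  have cq : ∀ g ∈ Q, ∀ z : (R ⊓ centralizer (R : Set H) : Subgroup H), z.1 * g = g * z :=
    fun g hg z => hQ hg z z.2
  generalize R ⊓ centralizer (R : Set H) = Z at hZ cz cr cq ZR
  have cc : ∀ i j : Z, i.1 * j.1 = j.1 * i.1 := fun i j => cr j (ZR j.2) i
  obtain ⟨v0, n0, ω, hv0, w1⟩ := exists_wt_ne inj cc (j := ⟨_, cz x0 hx0 y0 hy0⟩)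
    (odd_ord ho (ZR (cz x0 hx0 y0 hy0))) fun r => c0 (commutatorElement_eq_one_iff_mul_comm.1 r)
  let X : Set H := {x | x ∈ R ∧ Eig Q x ∧ ∃ y ∈ R, Eig Q y ∧ ∃ u ∈ Wt ρ Subtype.val ω, ρ ⁅x, y⁆ u ≠ u}
  have X0 : x0 ∈ X := ⟨hx0, ex0, y0, hy0, ey0, v0, hv0, fun r => w1 (smul_left_injective k n0
    ((mem_wt.1 hv0 ⟨_, cz x0 hx0 y0 hy0⟩).symm.trans (r.trans (one_smul k v0).symm)))⟩
  choose x hx hD using fun i : {D : Subgroup H // ∃ x ∈ X, Q ⊓ centralizer {x} = D} => i.2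
  choose xR xE y yR yE u uU hu using hx
  have nc : ∀ i, x i * y i ≠ y i * x i := fun i r => hu i (by
    rw [commutatorElement_eq_one_iff_mul_comm.2 r, map_one, End.one_apply])
  have hc : ∀ i j, x i * x j = x j * x i := fun i j => by_contra fun r => r (by
    rw [Subtype.ext ((hD i).symm.trans ((st' _ (xR i) _ (xR j) (xE i) (xE j) r).trans (hD j)))])
  obtain ⟨v, vU, v0, μ, hv, m1⟩ := exists_good (ρ := ρ) (x := x) (y := y)
    ((Submodule.ne_bot_iff _).2 ⟨v0, hv0, n0⟩) hc (fun i u hu => wt_inv (cr _ (xR i)) hu)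
    (fun i u hu => wt_inv (cr _ (yR i)) hu)
    (fun i j r => by_contra fun s => r (Subtype.ext ((hD j).symm.trans ((st' _ (xR j) _ (yR i) (xE j) (yE i)
      s).trans ((st' _ (xR i) _ (yR i) (xE i) (yE i) (nc i)).symm.trans (hD i))))))
    fun i => ⟨ω ⟨_, cz _ (xR i) _ (yR i)⟩, fun r => hu i (by
      rw [mem_wt.1 (uU i) ⟨_, cz _ (xR i) _ (yR i)⟩, r, one_smul]),
      fun u hu => mem_wt.1 hu ⟨_, cz _ (xR i) _ (yR i)⟩⟩
  have eg : ∀ g ∈ P, ∀ x, Eig Q x → Eig Q (g * x * g⁻¹) := fun g hg x ex t ht => by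
    rw [show t * (g * x * g⁻¹) * t⁻¹ = g * (g⁻¹ * t * g * x * (g⁻¹ * t * g)⁻¹) * g⁻¹ by group]
    refine (ex _ (conj_mem_of_mem_normalizer' (hPQ hg) ht)).imp (fun r => by rw [r]) fun r => ?_
    rw [r]
    group
  have hX : ∀ g ∈ P ⊓ st ρ (Wt ρ Subtype.val ω), ∀ x ∈ X, g * x * g⁻¹ ∈ X := by
    rintro g hg x ⟨b1, b2, y, b3, b4, u, b5, b6⟩
    refine ⟨conj_mem_of_mem_normalizer (hn hg.1) b1, eg g hg.1 x b2, _, conj_mem_of_mem_normalizer (hn hg.1) b3,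
      eg g hg.1 y b4, ρ g u, (hg.2 u).1 b5, fun r => b6 ?_⟩
    rw [← conjugate_commutatorElement, rho_mul, rho_mul, ρ.inv_self_apply] at r
    simpa using congrArg (ρ g⁻¹) r
  have hK : P ⊓ st ρ (Wt ρ Subtype.val ω) ≤ normalizer (centralizer X : Set H) := fun g hg =>
    mem_normalizer_of_cj_le fun c hc x hx => by
      have := mem_cj.1 hc _ (hX _ (inv_mem hg) x hx)
      calc x * c = g * (g⁻¹ * x * g⁻¹⁻¹ * (g⁻¹ * c * g)) * g⁻¹ := by group
        _ = c * x := by rw [this]; group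
  obtain ⟨j, j1, j2, j3⟩ : ∃ j ≤ l + 1, (∀ i < j, ¬ dS P i ≤ st ρ (Wt ρ Subtype.val ω)) ∧
      (j = l + 1 ∨ dS P j ≤ st ρ (Wt ρ Subtype.val ω)) :=
    have ex : ∃ j, j = l + 1 ∨ dS P j ≤ st ρ (Wt ρ Subtype.val ω) := ⟨_, .inl rfl⟩
    ⟨Nat.find ex, Nat.find_min' ex (.inl rfl), fun i hi r => Nat.find_min ex hi (.inr r), Nat.find_spec ex⟩
  obtain ⟨t, ht⟩ := Nat.exists_eq_add_of_le j1
  obtain ⟨T1, a1, a2⟩ := stage1 hP hZ vU j j2
  obtain ⟨T2, b1, b2, b3⟩ := stage (ρ := ρ) (St := centralizer X) (P := P) anti v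
    (anti (Nat.zero_le j)) t fun i h1 h3 => by
      obtain ⟨n, c1, c2⟩ := desc2 (hP.to_le (dS_le P i)) (cS_le_dS QP i) ((le_inf (dS_le P i)
        ((dS_anti P h1).trans (j3.resolve_left (by omega)))).trans hK) fun r => c0 (by
          rw [← r (anti (by omega) ha) x0 X0, mul_inv_cancel_right, ← mul_eq_one_iff_eq_inv] at i0
          rw [mem_bot.1 (mem_of_sq (K := ⊥) (odd_ord ho hx0) (mem_bot.2 i0)), one_mul, mul_one])
      exact ⟨n, c1, cS_le_dS QP i c1, c2⟩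
  have z1 := b1 _ (a1 v)
  rw [← ht, e, Submodule.mem_bot] at z1
  have z2 := b2 _ (fun g hg u hu => ot_inv (cq g hg) hu) _ a2
  rw [map_sub, z1, zero_sub, neg_mem_iff] at z2
  rw [wt_disj cc (b2 _ (fun g hg u hu => wt_inv (cq g hg) hu) _ vU) z2, zero_sub, neg_mem_iff] at b3
  refine v0 (wt_disj hc hv (Submodule.span_le.2 ?_ b3))
  rintro _ ⟨g, c1, c2, rfl⟩
  obtain ⟨x', hx', r⟩ : ∃ x' ∈ X, x' * g ≠ g * x' := by
    simpa [mem_centralizer_iff] using c2 1 (one_mem _)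
  have ee : ∀ i, g⁻¹ * x i * g = x i ∨ g⁻¹ * x i * g = (x i)⁻¹ := fun i => by
    simpa using xE i g⁻¹ (inv_mem c1)
  refine ot_of_inv hv v0 m1 ee (j := ⟨_, x', hx', rfl⟩) ((ee _).resolve_left fun s => r ?_)
  rw [mul_assoc, inv_mul_eq_iff_eq_mul] at s
  exact (mem_centralizer_singleton_iff.1
    ((hD ⟨_, x', hx', rfl⟩).le ⟨c1, mem_centralizer_singleton_iff.2 s.symm⟩).2).symm

end H33.Br
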