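/- Two-length and derived length, part 4: the induction. -/
import Cfsg.Agent.H33.BrCore
import Cfsg.Agent.H18.PLength
import Cfsg.Agent.H22.BaseChange
import Cfsg.Agent.H2.MinNormal

set_option autoImplicit false

namespace H33.Br

open Cfsg Subgroup H98 Module
open scoped commutatorElement

universe u

local instance factBrInd : Fact (Nat.Prime 2) := ⟨Nat.prime_two⟩

section Ser

variable {G : Type*} [Group G]

/-- The series `O^{2'}(Y), O^{2', 2, 2'}(Y), ...`. -/
def kS (Y : Subgroup G) : ℕ → Subgroup G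
  | 0 => pElementClosure 2 Y
  | n + 1 => pElementClosure 2 (res 2 (kS Y n))

theorem kS_le (Y : Subgroup G) (n : ℕ) : kS Y n ≤ Y := by
  induction n with
  | zero => exact pcl_le Y
  | succ n ih => exact (pcl_le _).trans ((res_le _).trans ih)

theorem nor_kS {A Y : Subgroup G} (h : A ≤ normalizer (Y : Set G)) (n : ℕ) :
    A ≤ normalizer (kS Y n : Set G) := by
  induction n with
  | zero => exact le_normalizer_pcl h
  | succ n ih => exact le_normalizer_pcl (le_normalizer_res ih)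

instance kS_normal (n : ℕ) : (kS (⊤ : Subgroup G) n).Normal :=
  normal_of_top_le_normalizer (nor_kS le_normalizer n)

instance res_kS_normal (n : ℕ) : (res 2 (kS (⊤ : Subgroup G) n)).Normal :=
  normal_of_top_le_normalizer (le_normalizer_res (nor_kS le_normalizer n))

theorem pcl_kS (Y : Subgroup G) (n : ℕ) : pElementClosure 2 (kS Y n) = kS Y n := by
  cases n <;> exact pcl_pcl _

variable [Finite G]

theorem map_kS {K : Type*} [Group K] (f : G →* K) (Y : Subgroup G) (n : ℕ) :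
    (kS Y n).map f = kS (Y.map f) n := by
  induction n with
  | zero => exact map_pcl f Y
  | succ n ih => rw [kS, kS, map_pcl, map_res, ih]

theorem map_kS_top (N : Subgroup G) [N.Normal] (n : ℕ) :
    (kS ⊤ n).map (QuotientGroup.mk' N) = kS ⊤ n := by
  rw [map_kS, map_top_of_surjective _ (QuotientGroup.mk'_surjective N)]

theorem pcl_eq_bot {X : Subgroup G} (hX : res 2 X = X)
    (h : pElementClosure 2 X ≤ centralizer (X : Set G)) : pElementClosure 2 X = ⊥ := by
  obtain ⟨T, hT⟩ := exists_isSyl 2 X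
  have c := (le_pcl hT.isPGroup hT.le).trans h
  obtain ⟨P, rfl⟩ := hT.exists_sylow_map
  have hP : normalizer ((P : Subgroup X) : Set X) ≤ centralizer ((P : Subgroup X) : Set X) :=
    fun x _ y hy => Subtype.ext (c ⟨y, hy, rfl⟩ x x.2).symm
  have h1 : res 2 X ≤ (MonoidHom.transferSylow P hP).ker.map X.subtype :=
    res_le_of_forall_pow fun x hx => by
      obtain ⟨k, hk⟩ := P.isPGroup' (MonoidHom.transferSylow P hP ⟨x, hx⟩)
      exact ⟨k, ⟨x, hx⟩ ^ 2 ^ k, MonoidHom.mem_ker.2 (by rw [map_pow, hk]), rfl⟩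
  rw [hT.pcl_eq_ncl, ncl_eq_bot_iff, hT.eq_bot_iff]
  refine not_dvd_card_of_le (hX.ge.trans h1) ?_
  rw [card_map_of_injective X.subtype_injective]
  exact MonoidHom.not_dvd_card_ker_transferSylow P hP

theorem pcl_le_comm {X : Subgroup G} [X.Normal] (hX : res 2 X = X) :
    pElementClosure 2 X ≤ ⁅pElementClosure 2 X, X⁆ := by
  have : (pElementClosure 2 X).Normal := normal_of_top_le_normalizer (le_normalizer_pcl le_normalizer_of_normal)
  let π := QuotientGroup.mk' ⁅pElementClosure 2 X, X⁆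
  have := pcl_eq_bot (X := X.map π) (by rw [← map_res, hX]) (by
    rw [← map_pcl, ← commutator_eq_bot_iff_le_centralizer, ← map_commutator, Subgroup.map_eq_bot_iff,
      QuotientGroup.ker_mk'])
  rwa [← map_pcl, Subgroup.map_eq_bot_iff, QuotientGroup.ker_mk'] at this

theorem exists_SY [Group.IsSolvable G] {n : ℕ} (h : kS (⊤ : Subgroup G) (n + 1) ≠ ⊥) :
    ∃ S : Subgroup G, IsPGroup 2 S ∧ ⁅S, res 2 (kS (normalizer (S : Set G)) n)⁆ ≠ ⊥ := by
  obtain ⟨S, hS⟩ := exists_isSyl 2 (kS (⊤ : Subgroup G) (n + 1))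
  refine ⟨S, hS.isPGroup, fun e => ?_⟩
  let π := QuotientGroup.mk' (res 2 (kS (⊤ : Subgroup G) (n + 1)))
  have z : (res 2 (kS (⊤ : Subgroup G) (n + 1))).map π = ⊥ := QuotientGroup.map_mk'_self _
  have a1 : S.map π = (kS ⊤ (n + 1)).map π := by
    rw [← congrArg (map π) hS.sup_res, Subgroup.map_sup, z, sup_bot_eq]
  have a2 : (normalizer (S : Set G)).map π = ⊤ := by
    have := congrArg (map π) (hS.frattini le_top le_normalizer_of_normal)
    rwa [top_inf_eq, Subgroup.map_sup, ← a1, sup_eq_left.2 (map_mono le_normalizer),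
      map_top_of_surjective _ (QuotientGroup.mk'_surjective _)] at this
  have a3 := map_mono (f := π) (pcl_le_comm (res_res (p := 2) (kS (⊤ : Subgroup G) n)))
  have a4 := congrArg (map π) e
  rw [map_commutator, map_res, map_kS, a2, a1, Subgroup.map_bot, ← map_kS_top, ← map_res, ← map_commutator] at a4
  have a5 := pcl_le_comm (X := kS (⊤ : Subgroup G) (n + 1)) (le_antisymm (res_le _) (by
    rw [← QuotientGroup.ker_mk' (res 2 _), ← Subgroup.map_eq_bot_iff]
    exact le_bot_iff.1 (a3.trans a4.le)))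
  rw [pcl_kS] at a5
  exact (Group.IsSolvable.commutator_lt_of_ne_bot h).not_ge a5

end Ser

/-- The inductive statement. -/
def Tn (n : ℕ) : Prop :=
  ∀ (G : Type u) [Group G] [Finite G] [Group.IsSolvable G] (V D P : Subgroup G), V.Normal → D.Normal →
    IsPGroup 2 V → IsSyl 2 P ⊤ → ¬ ⁅V, res 2 (kS ⊤ n)⁆ ≤ D → ¬ cS V P (n + 1) ≤ D

theorem tn_zero : Tn.{u} 0 := fun G _ _ _ V D P _ _ _ hP h r => h (by
  refine (le_stab_iff.1 ((res_le _).trans ?_)).2
  rw [kS, hP.pcl_eq_ncl]
  exact ncl_le (le_stab_iff.2 ⟨le_normalizer_of_normal, r⟩)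
    (le_normalizer_stab le_normalizer_of_normal le_normalizer_of_normal))

theorem Tn.sub {n : ℕ} (ih : Tn.{u} n) {G : Type u} [Group G] [Finite G] [Group.IsSolvable G]
    {Y V D P : Subgroup G} (VY : V ≤ Y) (hV : Y ≤ normalizer (V : Set G)) (hD : Y ≤ normalizer (D : Set G))
    (p2 : IsPGroup 2 V) (hP : IsSyl 2 P Y) (h : ¬ ⁅V, res 2 (kS Y n)⁆ ≤ D) : ¬ cS V P (n + 1) ≤ D := by
  intro r
  refine ih Y (V.subgroupOf Y) (D.subgroupOf Y) (P.subgroupOf Y)
    ⟨fun a ha g => mem_subgroupOf.2 (conj_mem_of_mem_normalizer (H := V) (hV g.2) ha)⟩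
    ⟨fun a ha g => mem_subgroupOf.2 (conj_mem_of_mem_normalizer (H := D) (hD g.2) ha)⟩
    (isPGroup_subgroupOf p2 Y) hP.subgroupOf_top (fun s => h ?_) (map_le_iff_le_comap.1 ?_)
  · have := map_le_iff_le_comap.2 s
    rwa [map_commutator, map_res, map_kS, map_subtype_top, map_subgroupOf_eq_of_le VY] at this
  · rwa [map_cS, map_subgroupOf_eq_of_le VY, map_subgroupOf_eq_of_le hP.le]

theorem mod_step {n : ℕ} (ih : Tn.{u} n) {k V : Type*} {H : Type u} [Field k] [AddCommGroup V] [Module k V]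
    [IsAlgClosed k] [FiniteDimensional k V] [CharP k 2] [Group H] [Finite H] [Group.IsSolvable H]
    {ρ : Representation k H V} (inj : Function.Injective ρ) (h2 : pCore 2 H = ⊥)
    (h : kS (⊤ : Subgroup H) (n + 1) ≠ ⊥) : ∃ P : Subgroup H, IsPGroup 2 P ∧ Ch ρ P (n + 2) ≠ ⊥ := by
  obtain ⟨S, hS, b0⟩ := exists_SY h
  obtain ⟨Y, hY⟩ : ∃ Y, Y = normalizer (S : Set H) := ⟨_, rfl⟩
  have SY : S ≤ Y := hY ▸ le_normalizer
  have YS := hY.le
  rw [← hY] at b0
  have EY : res 2 (kS Y n) ≤ Y := (res_le _).trans (kS_le Y n)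
  have hE : Y ≤ normalizer (res 2 (kS Y n) : Set H) := le_normalizer_res (nor_kS le_normalizer n)
  have BS := commutator_le_left' (EY.trans YS)
  have eB := commutator_commutator_of_res_eq hS (EY.trans YS) (res_res _)
  have hB := le_normalizer_commutator YS hE
  have BY := BS.trans SY
  have pB := hS.to_le BS
  generalize ⁅S, res 2 (kS Y n)⁆ = B at b0 BS eB hB BY pB
  obtain ⟨r, hr⟩ : ∃ r : Nat.Primes, ¬ pCore r H ≤ centralizer (B : Set H) := by
    by_contra s
    push Not at s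
    refine b0 (le_bot_iff.1 (h2 ▸ H2.le_pCore_of_le_fitting pB
      (le_trans (le_centralizer_iff.1 ?_) (H2.centralizer_fitting_le H))))
    rw [H2.fitting_eq_iSup_pCore]
    exact iSup_le s
  have := Fact.mk r.2
  have r2 : (r : ℕ) ≠ 2 := fun e => hr (by rw [e, h2]; exact bot_le)
  obtain ⟨R, a1, a2, a3, a4, a5⟩ := exists_min (isPGroup_pCore r H) le_normalizer_of_normal BY hB
    (res_eq_self_of_isPGroup_prime Nat.prime_two r2.symm pB)
    (mt commutator_eq_bot_iff_le_centralizer.1 hr)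
  have ho : Odd (Nat.card R) := Nat.not_even_iff_odd.1 (mt even_iff_two_dvd.1
    (not_dvd_card_of_isPGroup_ne Nat.prime_two r2.symm ((isPGroup_pCore r H).to_le a1)))
  have hC := le_normalizer_centralizer a2
  obtain ⟨Q, b1, b2, b3, b4, b5⟩ := exists_minQ pB BY hB EY hE hC (res_res _) fun s => a4 (by
    rw [← a3, commutator_eq_bot_iff_le_centralizer, le_centralizer_iff]
    exact eB ▸ s)
  obtain ⟨P, hP⟩ := exists_isSyl 2 Y
  have pQ := pB.to_le b1
  have QP := hP.le_of_le_normalizer pQ (b1.trans BY) (hP.le.trans b2)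
  have key : ∀ D : Subgroup H, Y ≤ normalizer (D : Set H) → ¬ Q ≤ D → ∃ a ∈ cS Q P (n + 1), a ∉ D :=
    fun D c1 c2 => SetLike.not_le_iff_exists.1 (ih.sub (b1.trans BY) b2 c1 pQ hP (by rwa [b3]))
  have PR := hP.le.trans a2
  refine ⟨P, hP.isPGroup, ?_⟩
  by_cases ab : R ≤ centralizer (R : Set H)
  · obtain ⟨a, c1, c2⟩ := key _ hC b4
    exact case_ab inj hP.isPGroup ho PR ab (cS_le_dS QP _ c1) c2
  have hR := (a5 _ (commutator_le_left' le_normalizer) (Group.IsSolvable.commutator_lt_of_ne_bot a4).ne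
    (le_normalizer_commutator a2 a2)).2 (le_normalizer_commutator le_normalizer le_normalizer)
  have hQ := b1.trans (a5 _ inf_le_left (mt inf_eq_left.1 ab) (le_normalizer_inf a2 hC)).1
  by_cases qq : ⁅Q, Q⁆ ≤ centralizer (R : Set H)
  · obtain ⟨a, c1, c2⟩ := key _ hC b4
    exact case_free inj hP.isPGroup ho hR PR QP (hP.le.trans b2) hQ (b5 qq) c1 c2
  · obtain ⟨a, c1, c2⟩ := key _ (le_normalizer_stab b2 hC) fun s => qq (le_stab_iff.1 s).2
    have aQ := cS_anti (hP.le.trans b2) (Nat.zero_le _) c1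
    obtain ⟨q, d1, d2⟩ : ∃ q ∈ Q, ⁅q, a⁆ ∉ centralizer (R : Set H) := by
      simpa [mem_stab, hC (BY (b1 aQ))] using c2
    exact case_quad inj ho hR PR QP hQ (cS_le_dS QP _ c1) aQ d1 fun s =>
      d2 (commutatorElement_inv a q ▸ inv_mem s)

theorem pCore_quot {G : Type*} [Group G] [Finite G] {M C : Subgroup G} [M.Normal] [C.Normal]
    (p2 : IsPGroup 2 M) (hM : ∀ K : Subgroup G, K.Normal → K ≤ M → K = ⊥ ∨ K = M) (M0 : M ≠ ⊥)
    (hC : C = centralizer (M : Set G)) : pCore 2 (G ⧸ C) = ⊥ := by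
  have c := map_comap_eq_self_of_surjective (QuotientGroup.mk'_surjective C) (pCore 2 (G ⧸ C))
  have : ((pCore 2 (G ⧸ C)).comap (QuotientGroup.mk' C)).Normal := inferInstance
  generalize (pCore 2 (G ⧸ C)).comap (QuotientGroup.mk' C) = O at c this
  obtain ⟨S, hS⟩ := exists_isSyl 2 O
  have c2 := (hS.map (QuotientGroup.mk' C)).eq_of_isPGroup (c.symm ▸ isPGroup_pCore 2 _)
  have c3 : O ≤ S ⊔ C := by
    have := le_comap_map (QuotientGroup.mk' C) O
    rwa [← c2, comap_map_eq, QuotientGroup.ker_mk'] at this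
  rw [← c, Subgroup.map_eq_bot_iff, QuotientGroup.ker_mk', hC, le_centralizer_iff,
    ← commutator_eq_bot_iff_le_centralizer]
  refine (hM _ inferInstance (commutator_le_left _ _)).resolve_right fun r => ?_
  refine (commutator_lt_of_isPGroup p2 hS.isPGroup le_normalizer_of_normal M0).not_ge ?_
  refine r.ge.trans ((commutator_mono le_rfl c3).trans ?_)
  rw [commutator_comm, commutator_sup_centralizer_left hC.le (.inr le_normalizer_of_normal),
    commutator_comm]

theorem ch_eq_bot {k W G H : Type*} [Field k] [AddCommGroup W] [Module k W] [Group G] [Group H]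
    {τ : Representation k H W} {π : G →* H} {M P : Subgroup G} [M.Normal] {T : Subgroup H} {ι : M → W}
    (a2 : ∀ a b, ι (a * b) = ι a + ι b) (a3 : Submodule.span k (Set.range ι) = ⊤)
    (a4 : ∀ (g : G) (v w : M), (w : G) = g * v * g⁻¹ → τ (π g) (ι v) = ι w) (hT : T ≤ P.map π) {l : ℕ}
    (e : cS M P l = ⊥) : Ch τ T l = ⊥ := by
  have link : ∀ i, Ch τ T i ≤ Submodule.span k (ι '' {v | v.1 ∈ cS M P i}) := by
    intro i
    induction i with
    | zero => exact a3.ge.trans (Submodule.span_mono (by rintro _ ⟨v, rfl⟩; exact ⟨v, v.2, rfl⟩))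
    | succ i ih =>
      refine Submodule.span_le.2 ?_
      rintro _ ⟨x, hx, u, hu, rfl⟩
      obtain ⟨x, hx', rfl⟩ := (map_dS π _ i).ge (dS_mono hT i hx)
      refine (Submodule.span_le (p := (Submodule.span k (ι '' {v | v.1 ∈ cS M P (i + 1)})).comap
        (1 - τ (π x)))).2 ?_ (ih hu)
      rintro _ ⟨v, hv, rfl⟩
      have m : x * v * x⁻¹ ∈ M := Normal.conj_mem inferInstance _ v.2 x
      refine Submodule.subset_span ⟨⟨⁅v.1, x⁆, commutator_le_left _ ⊤ (commutator_mem_commutator v.2 trivial)⟩,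
        commutator_mem_commutator hv hx', ?_⟩
      rw [LinearMap.sub_apply, End.one_apply, eq_sub_iff_add_eq, a4 x v ⟨_, m⟩ rfl, ← a2]
      congr 1
      ext
      simp only [coe_mul, commutatorElement_def]
      group
  refine le_bot_iff.1 ((link _).trans (Submodule.span_le.2 ?_))
  rintro _ ⟨v, hv, rfl⟩
  have : v = 1 := Subtype.ext (mem_bot.1 (e.le hv))
  have z := a2 1 1
  rw [mul_one, left_eq_add] at z
  rw [this, z]
  exact zero_mem _

theorem step_rep {n : ℕ} (ih : Tn.{u} n) {G : Type u} [Group G] [Finite G] [Group.IsSolvable G]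
    {M P : Subgroup G} [M.Normal] (p2 : IsPGroup 2 M) (hM : ∀ K : Subgroup G, K.Normal → K ≤ M → K = ⊥ ∨ K = M)
    (hP : IsSyl 2 P ⊤) (h : ⁅M, res 2 (kS (⊤ : Subgroup G) (n + 1))⁆ ≠ ⊥)
    {k W : Type*} [Field k] [AddCommGroup W] [Module k W] [IsAlgClosed k] [FiniteDimensional k W] [CharP k 2]
    (σ : G →* End k W) (kσ : σ.ker = centralizer (M : Set G)) {ι : M → W}
    (a2 : ∀ a b, ι (a * b) = ι a + ι b) (a3 : Submodule.span k (Set.range ι) = ⊤)
    (a4 : ∀ (g : G) (v w : M), (w : G) = g * v * g⁻¹ → σ g (ι v) = ι w) : cS M P (n + 2) ≠ ⊥ := fun e => by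
  have M0 : M ≠ ⊥ := fun r => h (by rw [r, commutator_bot_left])
  obtain ⟨T, b1, b2⟩ := mod_step ih (ρ := QuotientGroup.lift σ.ker σ le_rfl)
    ((injective_iff_map_eq_one _).2 fun g => QuotientGroup.induction_on g fun g r =>
      (QuotientGroup.eq_one_iff g).2 r) (pCore_quot p2 hM M0 kσ) fun r => h (by
      rw [← map_kS_top, Subgroup.map_eq_bot_iff, QuotientGroup.ker_mk', kσ] at r
      rw [commutator_comm, commutator_eq_bot_iff_le_centralizer]
      exact (res_le _).trans r)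
  obtain ⟨g, -, hg⟩ := (hP.map (QuotientGroup.mk' σ.ker)).exists_le_cj b1
    (by rw [map_top_of_surjective _ (QuotientGroup.mk'_surjective _)]; exact le_top)
  obtain ⟨g, rfl⟩ := QuotientGroup.mk'_surjective _ g
  rw [← map_cj] at hg
  refine b2 (ch_eq_bot a2 a3 a4 hg ?_)
  rw [← cj_eq_self_of_normal g M, ← map_cS, e, Subgroup.map_bot]

theorem step_min {n : ℕ} (ih : Tn.{u} n) {G : Type u} [Group G] [Finite G] [Group.IsSolvable G]
    {M P : Subgroup G} [M.Normal] (p2 : IsPGroup 2 M) (hM : ∀ K : Subgroup G, K.Normal → K ≤ M → K = ⊥ ∨ K = M)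
    (hP : IsSyl 2 P ⊤) (h : ⁅M, res 2 (kS (⊤ : Subgroup G) (n + 1))⁆ ≠ ⊥) : cS M P (n + 2) ≠ ⊥ := by
  have ea := H2.isElementaryAbelian_of_minimal_normal p2 hM
  obtain ⟨W, _, _, _, ρ, ι, a1, -, a2, -, a3, a4⟩ := H22.exists_rep_elemAb M ea ⊤ le_normalizer_of_normal
  exact step_rep ih p2 hM hP h (ρ.comp (topEquiv (G := G)).symm.toMonoidHom)
    (Subgroup.ext fun g => a1 ⟨g, trivial⟩) a2 a3 fun g v w r => a4 ⟨g, trivial⟩ v w r

theorem tn (n : ℕ) : Tn.{u} n := by
  induction n with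
  | zero => exact tn_zero
  | succ n ih =>
    intro G _ _ _ V D P _ hD p2 hP h r
    obtain ⟨N, ⟨a1, a2, a3⟩, hm⟩ := (wellFounded_gt (α := Subgroup G)).has_min
      {N | N.Normal ∧ D ≤ N ∧ ¬ ⁅V, res 2 (kS ⊤ (n + 1))⁆ ≤ N} ⟨D, hD, le_rfl, h⟩
    let π := QuotientGroup.mk' N
    have sj := QuotientGroup.mk'_surjective N
    have : (map π ⁅V, res 2 (kS ⊤ (n + 1))⁆).Normal := Normal.map inferInstance π sj
    have le : ⁅V, res 2 (kS ⊤ (n + 1))⁆ ≤ V := commutator_le_left _ _
    refine step_min ih (M := map π ⁅V, res 2 (kS ⊤ (n + 1))⁆) (P := P.map π) ((p2.to_le le).map π)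
      (fun K hK b1 => or_iff_not_imp_left.2 fun b2 => le_antisymm b1 (map_le_iff_le_comap.2 ?_))
      (map_top_of_surjective π sj ▸ hP.map π) ?_ ?_
    · have c : N ≤ K.comap π := (QuotientGroup.ker_mk' N).ge.trans (ker_le_comap π K)
      by_contra b3
      refine hm _ ⟨hK.comap π, a2.trans c, b3⟩ (lt_of_le_of_ne c fun b4 => b2 ?_)
      rw [← map_comap_eq_self_of_surjective sj K, ← b4]
      exact QuotientGroup.map_mk'_self N
    · rwa [← map_kS_top, ← map_res, ← map_commutator,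
        commutator_commutator_of_res_eq p2 le_normalizer_of_normal (res_res _), Ne,
        Subgroup.map_eq_bot_iff, QuotientGroup.ker_mk']
    · rw [← map_cS, Subgroup.map_eq_bot_iff, QuotientGroup.ker_mk']
      exact (cS_mono le le_rfl _).trans (r.trans a2)

theorem kS_eq_bot {G : Type u} [Group G] [Finite G] [Group.IsSolvable G] (d : ℕ)
    (hd : ∀ P : Sylow 2 G, derivedSeries (P : Subgroup G) d = ⊥) : kS (⊤ : Subgroup G) d = ⊥ := by
  have key : ∀ P : Subgroup G, IsPGroup 2 P → dS P d = ⊥ := fun P hP => by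
    obtain ⟨T, hT⟩ := hP.exists_le_sylow
    have : ∀ i, dS (T : Subgroup G) i = (derivedSeries (T : Subgroup G) i).map (T : Subgroup G).subtype :=
      fun i => by
        induction i with
        | zero => exact (map_subtype_top _).symm
        | succ i ih => rw [dS, derivedSeries_succ, map_commutator, ih]
    exact le_bot_iff.1 ((dS_mono hT d).trans (by rw [this, hd, Subgroup.map_bot]))
  cases d with
  | zero => exact le_bot_iff.1 (pcl_le_of_forall_isPGroup fun Q _ hQ => (key Q hQ).le)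
  | succ n =>
    by_contra h
    obtain ⟨S, hS, b0⟩ := exists_SY h
    obtain ⟨P, hP, le⟩ := exists_isSyl_le hS (le_normalizer (H := S))
    exact (tn n).sub le_normalizer le_rfl (le_normalizer_bot _) hS hP (mt le_bot_iff.1 b0)
      ((cS_le_dS le _).trans (key P hP.isPGroup).le)

theorem pLengthLE_of_kS {G : Type u} [Group G] [Finite G] (hG : IsPSolvable 2 G) (d : ℕ)
    (h : kS (⊤ : Subgroup G) d = ⊥) : PLengthLE 2 d G := by
  refine H18.pLengthLE_of_step (fun k X _ => kS (⊤ : Subgroup X) k = ⊥) (fun k X _ _ h => ?_)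
    (fun X _ _ _ h => ?_) (fun k X _ _ _ h0 h => ?_) d G hG h
  · rw [← map_kS_top, h, Subgroup.map_bot]
  · exact H18.coprime_card_of_forall_isPGroup_eq_bot fun P hP => le_bot_iff.1 ((le_pcl hP le_top).trans h.le)
  · rw [← map_kS_top, Subgroup.map_eq_bot_iff, QuotientGroup.ker_mk']
    refine H2.le_pCore (res_eq_bot_iff.1 (le_bot_iff.1 (h0 ▸ H2.le_pPrimeCore_of_not_dvd ?_)))
    obtain ⟨T, hT⟩ := exists_isSyl 2 (res 2 (kS (⊤ : Subgroup X) k))
    exact hT.eq_bot_iff.1 (le_bot_iff.1 ((le_pcl hT.isPGroup hT.le).trans h.le))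

end H33.Br
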