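import Cfsg.Agent.H48.DP3Kit

/-! # S3275, chapter (3): the critical pair gives an offender (`JobOff`) -/

set_option autoImplicit false

namespace H33.DPO

open Subgroup Cfsg H98 H97 H48.DP
open scoped commutatorElement

universe u

variable {G : Type*} [Group G]

theorem two_ne_three [Finite G] {A B : Subgroup G} (hB : IsPGroup 2 B) : A.relIndex B ≠ 3 := by
  intro e
  obtain ⟨n, hn⟩ := IsPGroup.iff_card.1 hB
  have := relIndex_dvd_card A B
  rw [e, hn] at this
  exact absurd (Nat.prime_three.dvd_of_dvd_pow this) (by decide)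

theorem sup_eq_of_four [Finite G] {Q B X : Subgroup G} (hQ : Q ≤ X) (hB : B ≤ X)
    (h : Q.relIndex X = 4) (h4 : Q.relIndex B = 4) : X ≤ B ⊔ Q := by
  have e := relIndex_mul_relIndex Q (B ⊔ Q) X le_sup_right (sup_le hB hQ)
  have h1 := relIndex_le_of_le_right (H := Q) (le_sup_left : B ≤ B ⊔ Q) (relIndex_ne_zero' _ _)
  rw [h] at e
  rw [h4] at h1
  have h5 := relIndex_ne_zero' (B ⊔ Q) X
  refine relIndex_eq_one.1 ?_
  by_contra h6
  have : 4 * 2 ≤ Q.relIndex (B ⊔ Q) * (B ⊔ Q).relIndex X := Nat.mul_le_mul h1 (by omega)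
  omega

theorem jobOff : JobOff.{u} := by
  intro G _ _ T P R R' L L' g h h' hA hA' hB
  by_cases h4 : (O2 L').relIndex (cj g⁻¹ (Zq L)) = 4
  · right
    have hX := sup_eq_of_four h'.le hB h'.idx h4
    have h1 : (Zq P).relIndex (Zq L') ≤ (Ce (cj g⁻¹ (Zq L)) ⊓ Zq L').relIndex (Zq L') := by
      refine relIndex_le_of_le_left (fun w hw => h'.mem_Zq hw.2 ?_) (relIndex_ne_zero' _ _)
      refine centralizer_anti hX ?_
      rw [centralizer_sup]
      exact ⟨hw.1, (mem_oZ.1 hw.2).2.1⟩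
    rw [inf_relIndex_right, ← relIndex_cj g (Ce _), cj_centralizer, cj_cj_inv] at h1
    refine h1.trans ((relIndex_le_of_le_left (le_centralizer_oZ _) (relIndex_ne_zero' _ _)).trans ?_)
    exact h.idx ▸ relIndex_le_of_le_right hA (relIndex_ne_zero' _ _)
  · left
    have h2 : (O2 L').relIndex (cj g⁻¹ (Zq L)) ≤ 2 := by
      have h5 : (O2 L').relIndex (cj g⁻¹ (Zq L)) ≤ 4 :=
        h'.idx ▸ relIndex_le_of_le_right hB (relIndex_ne_zero' _ _)
      have h6 := two_ne_three (A := O2 L') (isPGroup_cj g⁻¹ (isPGroup_Zq L))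
      omega
    obtain ⟨t, ht, ht'⟩ := SetLike.not_le_iff_exists.1 hA'
    rw [← relIndex_cj g, cj_cj_inv] at h2
    have h3 : (C1 t).relIndex (Zq L) ≤ 2 := by
      refine (relIndex_le_of_le_left (fun q hq => mem_C1.2 ?_) (relIndex_ne_zero' _ _)).trans h2
      have := cj_mono g (le_centralizer_oZ (p := 2) (O2 L')) hq
      rw [cj_centralizer] at this
      exact mem_Ce.1 this t ht
    obtain ⟨x, hxP, hx⟩ := h.s3.exists_three
    have h3' : (C1 (x * t * x⁻¹)).relIndex (Zq L) ≤ 2 := by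
      have e := relIndex_cj x (C1 t) (Zq L)
      rw [cj_eq_self (le_No_Zq L (h.leL hxP))] at e
      refine (relIndex_le_of_le_left (fun q hq => mem_C1.2 ?_) (relIndex_ne_zero' _ _)).trans
        (e ▸ h3)
      have := mem_C1.1 (mem_cj.1 hq)
      calc x * t * x⁻¹ * q = x * (t * (x⁻¹ * q * x)) * x⁻¹ := by group
        _ = q * (x * t * x⁻¹) := by rw [this]; group
    have h1 : (Zq P).relIndex (Zq L) ≤ ((C1 t ⊓ C1 (x * t * x⁻¹)) ⊓ Zq L).relIndex (Zq L) := by
      refine relIndex_le_of_le_left (fun w hw => h.mem_Zq hw.2 (mem_Ce.2 fun a ha => ?_))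
        (relIndex_ne_zero' _ _)
      have := h.le_of (K := C1 w) (fun q hq => mem_C1.2 (mem_Ce.1 (mem_oZ.1 hw.2).2.1 q hq).symm)
        hxP hx (hA ht) ht' (mem_C1.2 (mem_C1.1 hw.1.1).symm) (mem_C1.2 (mem_C1.1 hw.1.2).symm) ha
      exact (mem_C1.1 this).symm
    rw [inf_relIndex_right] at h1
    exact h1.trans (relIndex_inf_le.trans (Nat.mul_le_mul h3 h3'))

end H33.DPO
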