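import Cfsg.Agent.H48.DP3Kit
import Cfsg.Agent.H48.Meta

/-! # S3275, chapter (3): sections of `N / O₂(N)` (`JobSec`) -/

set_option autoImplicit false

namespace H33.DPS

open Subgroup Cfsg H98 H97 H48.DP
open scoped commutatorElement

universe u

variable {G : Type*} [Group G]

theorem sect {X S : Type*} [Group X] [Group S] (N : Subgroup G) (π : N →* X)
    (hπ : Function.Surjective π) (H : Subgroup X) (f : H →* S) (hf : Function.Surjective f) :
    ∃ H' : Subgroup G, H' ≤ N ∧ ∃ f' : H' →* S, Function.Surjective f' :=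
  ⟨(H.comap π).map N.subtype, map_subtype_le _, f.comp ((π.subgroupComap H).comp
    (equivMapOfInjective (H.comap π) N.subtype N.subtype_injective).symm.toMonoidHom),
    hf.comp ((π.subgroupComap_surjective_of_surjective H hπ).comp (MulEquiv.surjective _))⟩

theorem c3_surj {A X : Type*} [Group A] [Group X] [Finite A] (h : C3 A) (f : A →* X)
    (hf : Function.Surjective f) : C3 X := fun B hB => by
  have : Fact (Nat.Prime 3) := ⟨Nat.prime_three⟩
  obtain ⟨S, hS⟩ := exists_isSyl 3 (B.comap f)
  have h1 := hS.map f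
  rw [map_comap_eq_self_of_surjective hf] at h1
  have := h S hS.isPGroup
  rw [← h1.eq_of_isPGroup hB]
  exact isCyclic_of_surjective (f.subgroupMap S) (f.subgroupMap_surjective S)

theorem c3_of_le [Finite G] {H M : Subgroup G} (h : PRankLE 3 1 M) (hH : H ≤ M) : C3 H :=
  fun B hB => by
    have : Fact (Nat.Prime 3) := ⟨Nat.prime_three⟩
    exact (H48.isCyclic_iff_pRankLE_one (by decide) hB).2 (H48.pRankLE_of_injective h
      ((inclusion hH).comp B.subtype) ((inclusion_injective hH).comp B.subtype_injective))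

theorem rank_of_c3 {X : Type*} [Group X] [Finite X] (h : C3 X) : PRankLE 3 1 X := fun A _ hA => by
  have := h A (isPGroup_iff_forall.2 fun a ha => ⟨1, by simpa using hA a ha⟩)
  simpa using H48.card_le_of_cyclic_of_exponent' this (by decide) hA

theorem jobSec : JobSec.{u} := by
  intro G _ _ h N hN
  have hM : PRankLE 3 1 (No (O2 N)) := h.e3 _ ⟨_, isPGroup_pCoreOf N, hN, rfl⟩
  have hNM : N ≤ No (O2 N) := self_le_normalizer_pCoreOf N
  have hMt : No (O2 N) ≠ ⊤ := fun e => by
    have := h.simple
    have hn : (O2 N).Normal := normal_of_top_le_normalizer e.ge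
    rcases hn.eq_bot_or_eq_top with e1 | e1
    · exact hN e1
    · have h2 : IsPGroup 2 G := isPGroup_top_iff.1 (e1 ▸ isPGroup_pCoreOf N)
      have h3 : center G ≠ ⊥ := by
        have := IsPGroup.center_nontrivial h2
        exact (nontrivial_iff_ne_bot _).1 this
      rcases (inferInstance : (center G).Normal).eq_bot_or_eq_top with e2 | e2
      · exact h3 e2
      · exact h.nc ⟨⟨fun a b => (mem_center_iff.1 (e2 ▸ mem_top b) a)⟩⟩
  refine ⟨fun p hp h3 H K _ => ⟨fun e => ?_⟩, c3_surj (c3_of_le hM hNM) _
    (QuotientGroup.mk'_surjective _), fun H K _ hs hc => ?_⟩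
  · obtain ⟨H', -, f, hf⟩ := sect N _ (QuotientGroup.mk'_surjective _) H
      (e.toMonoidHom.comp (QuotientGroup.mk' K)) (e.surjective.comp (QuotientGroup.mk'_surjective K))
    exact (h.nd p hp h3 H' f.ker).false (QuotientGroup.quotientKerEquivOfSurjective f hf)
  · obtain ⟨H', hH', f, hf⟩ := sect N _ (QuotientGroup.mk'_surjective _) H
      (QuotientGroup.mk' K) (QuotientGroup.mk'_surjective K)
    have e := QuotientGroup.quotientKerEquivOfSurjective f hf
    rcases h.k H' (fun e1 => hMt (top_le_iff.1 (e1 ▸ hH'.trans hNM))) f.ker e.isSimpleGroup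
      (fun hc' => hc ⟨⟨fun a b => e.symm.injective (by
        rw [map_mul, map_mul]; exact hc'.1.1 _ _)⟩⟩) with k | k
    · rw [← k]; exact Nat.card_congr e.symm.toEquiv
    · exact absurd (rank_of_c3 (c3_surj (c3_of_le hM (hH'.trans hNM)) _
        (QuotientGroup.mk'_surjective _))) k

end H33.DPS
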