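import Cfsg.Agent.H48.DP3Kit

/-! # S3275, chapter (3): lifting the structure of `N / O₂(N)` (`JobStr`) -/

set_option autoImplicit false

namespace H33.DPT

open Subgroup Cfsg H98 H97 H48.DP
open scoped commutatorElement

universe u

variable {G : Type*} [Group G] {X : Type*} [Group X]

theorem s3_map {ι : G →* X} (hι : Function.Injective ι) {T P : Subgroup G} (h : S3 T P) :
    S3 (T.map ι) (P.map ι) where
  le := map_mono h.le
  two := h.two.map ι
  idx := by rw [relIndex_map_map_of_injective _ _ hι]; exact h.idx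
  nn := fun hn => h.nn (by
    have := comap_le_normalizer_comap ι hn
    rwa [comap_map_eq_self_of_injective hι, comap_map_eq_self_of_injective hι] at this)

theorem dt_map {ι : G →* X} (hι : Function.Injective ι) {T N : Subgroup G} {y : G} {a : ℕ}
    (h : DT T N y a) : DT (T.map ι) (N.map ι) (ι y) a where
  mem := mem_map_of_mem ι h.mem
  ord := by rw [orderOf_injective ι hι, h.ord]
  idx := by
    rw [O2, ← map_pCoreOf_of_injective hι, relIndex_map_map_of_injective _ _ hι]; exact h.idx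
  s3 := by
    have := s3_map hι h.s3
    rwa [Subgroup.map_sup, MonoidHom.map_zpowers, map_pow] at this
  fr := by
    refine (map_mono h.fr).trans ?_
    rw [Subgroup.map_sup, MonoidHom.map_zpowers]
    exact sup_le_sup_right (map_le_normalizer_map ι le_rfl) _
  three := by
    rintro _ ⟨x, hx, rfl⟩ h1 _ ⟨x', hx', rfl⟩ h2
    rw [orderOf_injective ι hι] at h1 h2
    have := mem_map_of_mem ι (h.three x hx h1 x' hx' h2)
    rwa [Subgroup.map_sup, MonoidHom.map_zpowers, O2, map_pCoreOf_of_injective hι] at this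

theorem orderOf_cube {y : X} {a : ℕ} (hy : orderOf y = 3 ^ (a + 1)) : orderOf (y ^ 3 ^ a) = 3 := by
  rw [orderOf_pow_of_dvd (by positivity) (hy ▸ pow_dvd_pow 3 a.le_succ), hy, pow_succ,
    Nat.mul_div_cancel_left _ (by positivity)]

theorem mem_cube [Finite X] {y g : X} {a : ℕ} (hy : orderOf y = 3 ^ (a + 1)) (hg : g ∈ zpowers y)
    (h3 : g ^ 3 = 1) : g ∈ zpowers (y ^ 3 ^ a) := by
  obtain ⟨n, rfl⟩ := (mem_powers_iff_mem_zpowers).2 hg
  have h1 : 3 ^ a * 3 ∣ n * 3 := by
    rw [← pow_succ, ← hy]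
    exact orderOf_dvd_of_pow_eq_one (by rw [pow_mul]; exact h3)
  obtain ⟨m, rfl⟩ := Nat.dvd_of_mul_dvd_mul_right (by decide) h1
  exact ⟨m, by simp [pow_mul]⟩

theorem normal_cube {y : X} (n : ℕ) (hn : (zpowers y).Normal) : (zpowers (y ^ n)).Normal := by
  refine ⟨fun x hx g => ?_⟩
  obtain ⟨k, rfl⟩ := mem_zpowers_iff.1 hx
  obtain ⟨m, hm⟩ := mem_zpowers_iff.1 (hn.conj_mem y (mem_zpowers y) g)
  rw [← conj_zpow, ← conj_pow, ← hm]
  refine zpow_mem (mem_zpowers_iff.2 ⟨m, ?_⟩) k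
  rw [← zpow_natCast, ← zpow_natCast, ← zpow_mul, ← zpow_mul, mul_comm]

theorem idx_three [Finite X] {t x : X} (ht : orderOf t = 2) (hx : orderOf x = 3)
    (hn : (zpowers x).Normal) : (zpowers t).relIndex (zpowers t ⊔ zpowers x) = 3 := by
  have : Fact (Nat.Prime 3) := ⟨Nat.prime_three⟩
  have hd : zpowers x ⊓ zpowers t = ⊥ := disjoint_iff.1 (IsPGroup.disjoint_of_ne 3 2 (by decide) _ _
    (isPGroup_zpowers (k := 1) (by simpa using pow_three_of hx))
    (isPGroup_zpowers (k := 1) (by simpa [ht] using pow_orderOf_eq_one t)))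
  have h1 : (zpowers x).relIndex (zpowers t ⊔ zpowers x) = 2 := by
    rw [relIndex_sup_right, ← inf_relIndex_right, hd, relIndex_bot_left, Nat.card_zpowers, ht]
  have e1 := relIndex_mul_relIndex ⊥ (zpowers x) (zpowers t ⊔ zpowers x) bot_le le_sup_right
  have e2 := relIndex_mul_relIndex ⊥ (zpowers t) (zpowers t ⊔ zpowers x) bot_le le_sup_left
  rw [relIndex_bot_left, Nat.card_zpowers] at e1 e2
  rw [hx, h1] at e1
  rw [ht] at e2
  omega

theorem dt_top [Finite G] [Finite X] (π : G →* X) (hk : π.ker = O2 ⊤) {S : Subgroup G}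
    (hS : IsSyl 2 S ⊤) {t : X} {y : G} {a : ℕ} (hT : S.map π = zpowers t) (ht : orderOf t = 2)
    (hy : orderOf y = 3 ^ (a + 1)) (hy' : orderOf (π y) = 3 ^ (a + 1))
    (hn : (zpowers (π y)).Normal) (hinv : t * π y * t⁻¹ = (π y)⁻¹)
    (h3 : ∀ x : X, orderOf x = 3 → x ∈ zpowers (π y)) (hn' : (zpowers (π y) ⊔ S.map π).Normal) :
    DT S ⊤ y a := by
  have hkS : π.ker ≤ S := hk ▸ hS.pCoreOf_le
  have hc : (S.map π).comap π = S := comap_map_eq_self hkS
  have hx := orderOf_cube hy'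
  refine ⟨mem_top y, hy, by rw [← hk, relIndex_ker, hT, Nat.card_zpowers, ht],
    ⟨le_sup_left, hS.isPGroup, ?_, fun hh => ?_⟩, fun g _ => ?_, fun x _ h1 x' _ h2 => ?_⟩
  · conv_lhs => arg 1; rw [← hc]
    rw [relIndex_comap, Subgroup.map_sup, MonoidHom.map_zpowers, map_pow, hT]
    exact idx_three ht hx (normal_cube _ hn)
  · obtain ⟨s, hs, e⟩ : t ∈ S.map π := hT ▸ mem_zpowers t
    have h1 := mem_map_of_mem π (S.mul_mem
      (conj_mem_of_mem_normalizer (hh (mem_sup_right (mem_zpowers _))) hs) (S.inv_mem hs))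
    refine not_mem_of_three (hS.isPGroup.map π) (orderOf_sq_three hx) ?_
    convert h1 using 1
    have h2 : t * (π y ^ 3 ^ a)⁻¹ * t⁻¹ = π y ^ 3 ^ a := by
      rw [← conj_inv, ← conj_pow, hinv, inv_pow, inv_inv]
    simp only [map_mul, map_inv, map_pow, e]
    rw [pow_two]
    conv_lhs => arg 2; rw [← h2]
    group
  · have hK : (zpowers (π y) ⊔ S.map π).comap π = zpowers y ⊔ S := by
      rw [← MonoidHom.map_zpowers, ← Subgroup.map_sup, comap_map_eq_self (hkS.trans le_sup_right)]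
    have hN : (zpowers y ⊔ S).Normal := hK ▸ hn'.comap π
    obtain ⟨b, hb, n, hn, rfl⟩ := (hS.of_le le_sup_right le_top).frattini_mem
      (N := zpowers y ⊔ S) (g := g) (le_normalizer_of_normal (mem_top g))
    exact mul_mem (mem_sup_left hb)
      (sup_le le_sup_right (le_normalizer.trans le_sup_left) hn)
  · have key : ∀ x : G, orderOf x = 3 → orderOf (π x) = 3 := fun x h => by
      have : Fact (Nat.Prime 3) := ⟨Nat.prime_three⟩
      refine orderOf_eq_prime (by rw [← map_pow, pow_three_of h, map_one]) fun e => ?_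
      exact not_mem_of_three hS.isPGroup h (hkS e)
    have k1 := mem_cube hy' (h3 _ (key x h1)) (pow_three_of (key x h1))
    have k2 := mem_cube hy' (h3 _ (key x' h2)) (pow_three_of (key x' h2))
    have e : zpowers (π x') = zpowers (π y ^ 3 ^ a) :=
      eq_of_le_of_card_ge ((zpowers_le (G := X)).2 k2)
        (by rw [Nat.card_zpowers, Nat.card_zpowers, hx, key x' h2])
    rw [← hk, ← comap_map_eq, MonoidHom.map_zpowers, e]
    exact k1

theorem exists_lift [Finite G] (π : G →* X) (hπ : Function.Surjective π) (hk : IsPGroup 2 π.ker)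
    {yb : X} {n : ℕ} (hy : orderOf yb = 3 ^ n) :
    ∃ (y : G) (k : ℕ), orderOf y = 3 ^ n ∧ orderOf (π y) = 3 ^ n ∧ π y = yb ^ 2 ^ k := by
  obtain ⟨y, rfl⟩ := hπ yb
  obtain ⟨k, hk'⟩ := isPGroup_iff_forall.1 hk (y ^ 3 ^ n)
    (by rw [MonoidHom.mem_ker, map_pow, ← hy, pow_orderOf_eq_one])
  have h1 : orderOf (π (y ^ 2 ^ k)) = 3 ^ n := by
    rw [map_pow, Nat.Coprime.orderOf_pow (by rw [hy]; exact Nat.Coprime.pow _ _ (by decide)), hy]
  refine ⟨y ^ 2 ^ k, k, Nat.dvd_antisymm (orderOf_dvd_of_pow_eq_one ?_)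
    (h1 ▸ orderOf_map_dvd π _), h1, map_pow _ _ _⟩
  rw [← pow_mul, mul_comm, pow_mul, hk']

theorem ker_eq_pCore [Finite G] [Finite X] (φ : G →* X) (hφ : Function.Surjective φ)
    (hk : IsPGroup 2 φ.ker) (hs : IsSimpleGroup X) (hc : Nat.card X = 168) :
    pCore 2 G = φ.ker := by
  refine le_antisymm ?_ (H2.le_pCore hk)
  rw [← Subgroup.map_eq_bot_iff]
  rcases ((inferInstance : (pCore 2 G).Normal).map φ hφ).eq_bot_or_eq_top with e | e
  · exact e
  · obtain ⟨n, hn⟩ := IsPGroup.iff_card.1 ((isPGroup_pCore 2 G).map φ)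
    rw [e, card_top, hc] at hn
    exact absurd (Nat.prime_three.dvd_of_dvd_pow (hn ▸ (by decide : 3 ∣ 168))) (by decide)

theorem jobStr : JobStr.{u} := by
  intro hInv hSec hSA hSB hLT G _ _ h S N hN hS
  obtain ⟨k1, k2, k3⟩ := hSec G h N hN
  have hπ := QuotientGroup.mk'_surjective (pCore 2 N)
  have hker := QuotientGroup.ker_mk' (pCore 2 N)
  set π := QuotientGroup.mk' (pCore 2 N)
  have hk2 : IsPGroup 2 π.ker := hker.symm ▸ isPGroup_pCore 2 N
  have hS' := hS.subgroupOf_top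
  have hT := hS'.map π
  rw [← MonoidHom.range_eq_map, MonoidHom.range_eq_top.2 hπ] at hT
  have hb := H2.pCore_quotient_pCore 2 N
  refine ⟨fun hs => ?_, fun hs => ?_⟩
  · rcases hSA _ hb (hInv _ k1) k2 (Group.isSolvable_of_surjective hπ) _ hT with
      e | ⟨t, yb, a, e1, e2, e3, e4, e5, e6, e7⟩
    · left
      rw [Subgroup.map_eq_bot_iff, hker, ← pCoreOf_subgroupOf] at e
      have : S = O2 N := le_antisymm (fun s hs => e (x := ⟨s, hS.le hs⟩) hs) hS.pCoreOf_le
      exact this ▸ self_le_normalizer_pCoreOf N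
    · right
      obtain ⟨y, k, h1, h2, h3⟩ := exists_lift π hπ hk2 e3
      have hz : zpowers (π y) = zpowers yb :=
        eq_of_le_of_card_ge ((zpowers_le (G := N ⧸ pCore 2 N)).2 (h3 ▸ pow_mem (mem_zpowers _) _))
          (by rw [Nat.card_zpowers, Nat.card_zpowers, h2, e3])
      have := dt_map N.subtype_injective (dt_top π (hker.trans pCoreOf_top.symm) hS' e1 e2 h1 h2
        (hz ▸ e4) (by rw [h3, ← conj_pow, e5, inv_pow]) (hz ▸ e6) (hz ▸ e7))
      rw [map_subgroupOf_eq_of_le hS.le, map_subtype_top] at this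
      exact ⟨_, _, this⟩
  · have hs' : ¬ Group.IsSolvable (N ⧸ pCore 2 N) := fun h' => by
      have := (isPGroup_pCore 2 N).isNilpotent
      exact hs (Group.isSolvable_of_ker_le_range (pCore 2 N).subtype π (by simp [hker]))
    obtain ⟨Lb, l1, l2, l3, l4⟩ := hSB _ hb (hInv _ k1) k2 k3 hs'
    have hSL : S ≤ (Lb.comap π).map N.subtype := fun s hs => by
      refine ⟨⟨s, hS.le hs⟩, mem_comap.2 (mem_of_pow_mem_of_coprime (Lb.pow_index_mem _) ?_), rfl⟩
      obtain ⟨k, hk⟩ := isPGroup_iff_forall.1 hT.isPGroup _ (mem_map_of_mem π (x := ⟨s, hS.le hs⟩) hs)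
      exact Nat.Coprime.coprime_dvd_left (orderOf_dvd_of_pow_eq_one hk)
        (Nat.Coprime.pow_left _ (Nat.coprime_two_left.2 l4))
    let e := (equivMapOfInjective (Lb.comap π) N.subtype N.subtype_injective).symm
    let φ := (π.subgroupComap Lb).comp e.toMonoidHom
    have hφ : Function.Surjective φ :=
      (π.subgroupComap_surjective_of_surjective Lb hπ).comp e.surjective
    have hk : IsPGroup 2 φ.ker := isPGroup_iff_forall.2 fun x hx => by
      obtain ⟨k, hk⟩ := isPGroup_iff_forall.1 hk2 (e x).1 (congrArg Subtype.val hx)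
      exact ⟨k, e.injective (Subtype.ext (by rw [map_pow, map_one]; exact hk))⟩
    have f := (QuotientGroup.quotientMulEquivOfEq (ker_eq_pCore φ hφ hk l2 l3)).trans
      (QuotientGroup.quotientKerEquivOfSurjective φ hφ)
    obtain ⟨P, R, hl⟩ := hLT G S _ (hS.of_le hSL (map_subtype_le _)) f.isSimpleGroup
      ((Nat.card_congr f.toEquiv).trans l3)
    exact ⟨P, R, _, hl, map_subtype_le _, le_normalizer_map_subtype _⟩

end H33.DPT
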