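import Cfsg.Agent.H11.FBSpec

/-! S3404, tower FB, slot `ST`: the Steiner triple system argument. -/

set_option autoImplicit false

namespace H33.FbST

open MulAction Subgroup H11.FB

universe u v

theorem ex_sig {G : Type u} [Group G] [Finite G] {T U : Subgroup G} (hT : IsPGroup 2 T)
    (hU : U ≤ T) (hne : ∃ s ∈ T, s ∉ U) :
    ∃ σ ∈ T, σ ∈ normalizer (U : Set G) ∧ σ ∉ U ∧ σ * σ ∈ U := by
  have := Fact.mk Nat.prime_two
  have hN : Group.IsNilpotent T := hT.isNilpotent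
  have hlt : U.subgroupOf T < ⊤ := by
    obtain ⟨s, hs, h⟩ := hne
    exact lt_top_iff_ne_top.mpr fun e => h (show (⟨s, hs⟩ : T) ∈ U.subgroupOf T from e ▸ mem_top _)
  obtain ⟨g, hg, hg'⟩ := SetLike.exists_of_lt (Group.normalizerCondition_of_isNilpotent _ hlt)
  have hn : (g : G) ∈ normalizer (U : Set G) := fun y => by
    constructor
    · intro hy
      exact (hg ⟨y, hU hy⟩).mp hy
    · intro hy
      have hyT : y ∈ T := by
        have := T.mul_mem (T.mul_mem (T.inv_mem g.2) (hU hy)) g.2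
        simpa [mul_assoc] using this
      exact (hg ⟨y, hyT⟩).mpr hy
  obtain ⟨k, hk⟩ := hT g
  have hex : ∃ j, (g : G) ^ 2 ^ j ∈ U := ⟨k, by
    rw [show (g : G) ^ 2 ^ k = 1 from congrArg Subtype.val hk]; exact U.one_mem⟩
  classical
  have h0 : Nat.find hex ≠ 0 := fun e => hg' (by
    have := Nat.find_spec hex
    rw [e, pow_zero, pow_one] at this
    exact this)
  obtain ⟨j, hj⟩ := Nat.exists_eq_succ_of_ne_zero h0
  refine ⟨(g : G) ^ 2 ^ j, T.pow_mem g.2 _, pow_mem hn _, Nat.find_min hex (by omega), ?_⟩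
  have := Nat.find_spec hex
  rwa [hj, pow_succ, pow_mul, sq] at this

theorem three_dvd {Ω : Type v} [Fintype Ω] [DecidableEq Ω] (Φ : Finset Ω) (T : Ω → Ω → Ω → Prop)
    (mem : ∀ a b w, T a b w → a ∈ Φ ∧ b ∈ Φ ∧ a ≠ b)
    (ex : ∀ a ∈ Φ, ∀ b ∈ Φ, a ≠ b → ∃ w, T a b w)
    (un : ∀ a b w w', T a b w → T a b w' → w = w') (rot : ∀ a b w, T a b w → T b w a) :
    3 ∣ Φ.card * (Φ.card - 1) := by
  classical
  have := Fact.mk Nat.prime_three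
  let S := {t : Ω × Ω × Ω // T t.1 t.2.1 t.2.2}
  let f : Function.End S := fun t => ⟨(t.1.2.1, t.1.2.2, t.1.1), rot _ _ _ t.2⟩
  have hf : f ^ 3 ^ 1 = 1 := by
    funext t
    rfl
  have h1 := Equiv.Perm.card_fixedPoints_modEq hf
  have h0 : Fintype.card f.fixedPoints = 0 := by
    rw [Fintype.card_eq_zero_iff]
    refine ⟨fun t => (mem _ _ _ t.1.2).2.2 ?_⟩
    exact (congrArg (fun s : S => s.1.1) t.2).symm
  rw [h0] at h1
  have h2 : Fintype.card S = Φ.offDiag.card := by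
    rw [← Fintype.card_coe]
    refine Fintype.card_congr (Equiv.ofBijective
      (fun t => ⟨(t.1.1, t.1.2.1), Finset.mem_offDiag.2 (mem _ _ _ t.2)⟩) ⟨?_, ?_⟩)
    · rintro ⟨⟨a, b, w⟩, h⟩ ⟨⟨a', b', w'⟩, h'⟩ e
      obtain ⟨rfl, rfl⟩ := Prod.ext_iff.1 (congrArg Subtype.val e)
      obtain rfl := un _ _ _ _ h h'
      rfl
    · rintro ⟨⟨a, b⟩, h⟩
      obtain ⟨ha, hb, hab⟩ := Finset.mem_offDiag.1 h
      obtain ⟨w, hw⟩ := ex a ha b hb hab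
      exact ⟨⟨(a, b, w), hw⟩, rfl⟩
  rw [h2, Finset.offDiag_card] at h1
  rw [Nat.mul_sub_one]
  exact (Nat.modEq_zero_iff_dvd).1 h1

theorem third {Ω : Type v} [Fintype Ω] [DecidableEq Ω] (Ψ : Set Ω) (ho : Odd Ψ.ncard) (f : Ω → Ω)
    (hm : ∀ ω ∈ Ψ, f ω ∈ Ψ) (hi : ∀ ω ∈ Ψ, f (f ω) = ω) {a b : Ω} (ha : a ∈ Ψ) (hb : b ∈ Ψ)
    (hab : a ≠ b) (fa : f a = a) (fb : f b = b) : ∃ w ∈ Ψ, f w = w ∧ w ≠ a ∧ w ≠ b := by
  classical
  by_contra hc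
  let s : Finset Ω := (Ψ.toFinset.erase a).erase b
  have hs : ∀ ω, ω ∈ s ↔ ω ≠ b ∧ ω ≠ a ∧ ω ∈ Ψ := fun ω => by simp [s]
  have h1 : ∑ _x ∈ s, (1 : ZMod 2) = 0 := by
    refine Finset.sum_involution (fun ω _ => f ω) (fun _ _ => by decide) (fun ω h _ e => ?_)
      (fun ω h => ?_) fun ω h => hi ω ((hs ω).1 h).2.2
    · obtain ⟨h1, h2, h3⟩ := (hs ω).1 h
      exact hc ⟨ω, h3, e, h2, h1⟩
    · obtain ⟨h1, h2, h3⟩ := (hs ω).1 h
      refine (hs _).2 ⟨fun e => h1 ?_, fun e => h2 ?_, hm ω h3⟩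
      · rw [← hi ω h3, e, fb]
      · rw [← hi ω h3, e, fa]
  rw [Finset.sum_const, nsmul_eq_mul, mul_one, ZMod.natCast_eq_zero_iff] at h1
  have h2 : s.card + 1 = (Ψ.toFinset.erase a).card :=
    Finset.card_erase_add_one (by simp [hb, hab.symm])
  have h3 : (Ψ.toFinset.erase a).card + 1 = Ψ.toFinset.card :=
    Finset.card_erase_add_one (by simp [ha])
  rw [Set.ncard_eq_toFinset_card'] at ho
  obtain ⟨k, hk⟩ := ho
  omega

variable {G : Type u} {Ω : Type v} [Group G] [MulAction G Ω]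

theorem mem_fp {U : Subgroup G} {ω : Ω} : ω ∈ fixedPoints U Ω ↔ ∀ g ∈ U, g • ω = ω :=
  ⟨fun h g hg => h ⟨g, hg⟩, fun h g => h g g.2⟩

theorem ncard_cj (g : G) (P : Subgroup G) :
    (fixedPoints (cj g P) Ω).ncard = (fixedPoints P Ω).ncard := by
  rw [← Set.ncard_image_of_injective (fixedPoints P Ω) (MulAction.injective g)]
  congr 1
  ext ω
  constructor
  · intro h
    refine ⟨g⁻¹ • ω, mem_fp.2 fun x hx => ?_, smul_inv_smul g ω⟩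
    have := mem_fp.1 h _ (conj_mem_cj (g := g) hx)
    rw [mul_smul, mul_smul] at this
    rw [eq_inv_smul_iff, this]
  · rintro ⟨ω, h, rfl⟩
    exact mem_fp.2 fun x hx => conj_smul_iff.1 (mem_fp.1 h _ (mem_cj.1 hx))

theorem two_el {U : Subgroup G} (h : IsPGroup 2 U) {x : G} (hx : x ∈ U) :
    ∃ k : ℕ, x ^ 2 ^ k = 1 := by
  obtain ⟨k, e⟩ := h ⟨x, hx⟩
  exact ⟨k, congrArg Subtype.val e⟩

theorem jobST : JobST.{u, v} := by
  intro G Ω _ _ _ _ _ _ a b c d K H P hy pd ho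
  classical
  have pg : ∀ g : G, IsPGroup 2 (cj g P) := fun g => pd.pg.map _
  -- the block through four points
  have B1 : ∀ x y z w : Ω, D4 x y z w → ∃ g : G, ∀ l, l ∈ cj g P ↔
      (l • x = x ∧ l • y = y ∧ l • z = z ∧ l • w = w) ∧ ∃ k : ℕ, l ^ 2 ^ k = 1 := by
    intro x y z w h4
    obtain ⟨g, rfl, rfl, rfl, rfl⟩ := hy.exists_smul hy.ne h4
    have p := pd.cj g
    rw [← L4_smul] at p
    refine ⟨g, fun l => ⟨fun hl => ⟨mem_L4.1 ((hy.cj g).fr.Kle (p.le hl)), two_el (pg g) hl⟩, ?_⟩⟩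
    rintro ⟨h1, k, hk⟩
    exact p.all l (mem_L4.2 h1) k hk
  have B3 : ∀ (g : G) (x y z w : Ω), D4 x y z w → x ∈ fixedPoints (cj g P) Ω →
      y ∈ fixedPoints (cj g P) Ω → z ∈ fixedPoints (cj g P) Ω → w ∈ fixedPoints (cj g P) Ω →
      ∀ l : G, l • x = x → l • y = y → l • z = z → l • w = w → (∃ k : ℕ, l ^ 2 ^ k = 1) →
      l ∈ cj g P := by
    intro g x y z w h4 hx hy' hz hw l h1 h2 h3 h4' hk
    obtain ⟨g', hg'⟩ := B1 x y z w h4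
    have hle : cj g P ≤ cj g' P := fun m hm => (hg' m).2
      ⟨⟨mem_fp.1 hx m hm, mem_fp.1 hy' m hm, mem_fp.1 hz m hm, mem_fp.1 hw m hm⟩, two_el (pg g) hm⟩
    rw [eq_of_le_of_card_ge hle (by rw [card_cj, card_cj])]
    exact (hg' l).2 ⟨⟨h1, h2, h3, h4'⟩, hk⟩
  -- the maximal `D`
  let A : Set (Subgroup G) := {D | ∃ g : G, D ≤ cj g P ∧
    ∃ x ∈ fixedPoints D Ω, x ∉ fixedPoints (cj g P) Ω}
  have hA : A.Nonempty := by
    refine ⟨⊥, 1, bot_le, ?_⟩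
    by_contra hc
    refine (pd.cj 1).ne (eq_bot_iff.2 fun l hl => mem_bot.2 (eq_of_smul_eq_smul (α := Ω) fun ω => ?_))
    by_contra h
    refine hc ⟨ω, mem_fp.2 fun m hm => by rw [mem_bot.1 hm, one_smul], fun h' => h ?_⟩
    rw [one_smul]
    exact mem_fp.1 h' l hl
  obtain ⟨D, ⟨g, hD, x, hxD, hx⟩, hmax⟩ := (Set.toFinite A).exists_maximal hA
  obtain ⟨q, hq, hqn, hqD, hqq⟩ := ex_sig (pg g) hD (by
    by_contra hc
    refine hx (mem_fp.2 fun l hl => mem_fp.1 hxD l ?_)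
    by_contra h
    exact hc ⟨l, hl, h⟩)
  have hfix : ∀ ω ∈ fixedPoints D Ω, q • ω = ω → ω ∈ fixedPoints (cj g P) Ω := by
    intro ω h1 h2
    by_contra h3
    have hle : D ⊔ zpowers q ≤ stabilizer G ω :=
      sup_le (fun l hl => mem_fp.1 h1 l hl) (zpowers_le.2 h2)
    have := hmax (y := D ⊔ zpowers q)
      ⟨g, sup_le hD (zpowers_le.2 hq), ω, mem_fp.2 fun l hl => hle hl, h3⟩ le_sup_left
    exact hqD (this (mem_sup_right (mem_zpowers q)))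
  have hqF : ∀ ω ∈ fixedPoints D Ω, q • ω ∈ fixedPoints D Ω := fun ω h => mem_fp.2 fun l hl => by
    rw [← conj_smul_iff]
    refine mem_fp.1 h _ ?_
    have := (mem_normalizer_iff.1 (inv_mem hqn) l).1 hl
    rwa [inv_inv] at this
  have hq2 : ∀ ω ∈ fixedPoints D Ω, q • q • ω = ω := fun ω h => by
    rw [← mul_smul]; exact mem_fp.1 h _ hqq
  have hΦq : ∀ ω ∈ fixedPoints (cj g P) Ω, q • ω = ω := fun ω h => mem_fp.1 h q hq
  have hΦD : ∀ ω ∈ fixedPoints (cj g P) Ω, ω ∈ fixedPoints D Ω := fun ω h =>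
    mem_fp.2 fun l hl => mem_fp.1 h l (hD hl)
  obtain ⟨y, hyq⟩ : ∃ y, y = q • x := ⟨_, rfl⟩
  have qy : q • y = x := by rw [hyq, hq2 x hxD]
  have xy : x ≠ y := fun e => hx (hfix x hxD (by rw [← hyq, ← e]))
  have hyD : y ∈ fixedPoints D Ω := hyq ▸ hqF x hxD
  have hyΦ : y ∉ fixedPoints (cj g P) Ω := fun h => xy (by rw [← qy, hΦq y h])
  have d4 : ∀ a' ∈ fixedPoints (cj g P) Ω, ∀ b' ∈ fixedPoints (cj g P) Ω, a' ≠ b' →
      D4 a' b' x y := fun a' ha b' hb hab =>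
    ⟨hab, fun e => hx (e ▸ ha), fun e => hyΦ (e ▸ ha), fun e => hx (e ▸ hb), fun e => hyΦ (e ▸ hb),
      xy⟩
  let T : Ω → Ω → Ω → Prop := fun a' b' w => a' ∈ fixedPoints (cj g P) Ω ∧
    b' ∈ fixedPoints (cj g P) Ω ∧ w ∈ fixedPoints (cj g P) Ω ∧ a' ≠ b' ∧ w ≠ a' ∧ w ≠ b' ∧
    ∀ l : G, l • a' = a' → l • b' = b' → l • x = x → l • y = y → (∃ k : ℕ, l ^ 2 ^ k = 1) →
      l • w = w
  have blk : ∀ a' ∈ fixedPoints (cj g P) Ω, ∀ b' ∈ fixedPoints (cj g P) Ω, a' ≠ b' →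
      ∃ g' : G, (∀ l, l ∈ cj g' P ↔
        (l • a' = a' ∧ l • b' = b' ∧ l • x = x ∧ l • y = y) ∧ ∃ k : ℕ, l ^ 2 ^ k = 1) ∧
      a' ∈ fixedPoints (cj g' P) Ω ∧ b' ∈ fixedPoints (cj g' P) Ω ∧
      x ∈ fixedPoints (cj g' P) Ω ∧ y ∈ fixedPoints (cj g' P) Ω := by
    intro a' ha b' hb hab
    obtain ⟨g', hg'⟩ := B1 _ _ _ _ (d4 a' ha b' hb hab)
    exact ⟨g', hg', mem_fp.2 fun l hl => ((hg' l).1 hl).1.1,
      mem_fp.2 fun l hl => ((hg' l).1 hl).1.2.1, mem_fp.2 fun l hl => ((hg' l).1 hl).1.2.2.1,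
      mem_fp.2 fun l hl => ((hg' l).1 hl).1.2.2.2⟩
  rw [← ncard_cj g P, Set.ncard_eq_toFinset_card']
  refine three_dvd _ T (fun a' b' w h => ⟨Set.mem_toFinset.2 h.1, Set.mem_toFinset.2 h.2.1,
    h.2.2.2.1⟩) (fun a' ha b' hb hab => ?_) (fun a' b' w w' h h' => ?_) fun a' b' w h => ?_
  · rw [Set.mem_toFinset] at ha hb
    obtain ⟨g', hg', m1, m2, -, -⟩ := blk a' ha b' hb hab
    have hDg : D ≤ cj g' P := fun l hl => (hg' l).2 ⟨⟨mem_fp.1 (hΦD _ ha) l hl,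
      mem_fp.1 (hΦD _ hb) l hl, mem_fp.1 hxD l hl, mem_fp.1 hyD l hl⟩, two_el (pg g) (hD hl)⟩
    have hΨD : ∀ ω ∈ fixedPoints (cj g' P) Ω, ω ∈ fixedPoints D Ω := fun ω h =>
      mem_fp.2 fun l hl => mem_fp.1 h l (hDg hl)
    obtain ⟨w, hw, fw, wa, wb⟩ := third (fixedPoints (cj g' P) Ω) (by rwa [ncard_cj]) (q • ·)
      (fun ω h => mem_fp.2 fun l hl => by
        obtain ⟨⟨h1, h2, h3, h4⟩, k, hk⟩ := (hg' l).1 hl
        rw [← conj_smul_iff]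
        refine mem_fp.1 h _ ((hg' _).2 ⟨⟨?_, ?_, ?_, ?_⟩, k, ?_⟩)
        · rw [conj_smul_iff, hΦq _ ha, h1]
        · rw [conj_smul_iff, hΦq _ hb, h2]
        · rw [conj_smul_iff, ← hyq, h4]
        · rw [conj_smul_iff, qy, h3]
        · have := conj_pow (a := q⁻¹) (b := l) (i := 2 ^ k)
          rw [inv_inv] at this
          rw [this, hk, mul_one, inv_mul_cancel])
      (fun ω h => hq2 ω (hΨD ω h)) m1 m2 hab (hΦq _ ha) (hΦq _ hb)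
    exact ⟨w, ha, hb, hfix w (hΨD w hw) fw, hab, wa, wb,
      fun l h1 h2 h3 h4 hk => mem_fp.1 hw l ((hg' l).2 ⟨⟨h1, h2, h3, h4⟩, hk⟩)⟩
  · obtain ⟨ha, hb, hw, hab, wa, wb, h1⟩ := h
    obtain ⟨-, -, hw', -, wa', wb', h1'⟩ := h'
    by_contra ww
    obtain ⟨g', hg', m1, m2, m3, -⟩ := blk a' ha b' hb hab
    have mw : ∀ w : Ω, (∀ l : G, l • a' = a' → l • b' = b' → l • x = x → l • y = y →
        (∃ k : ℕ, l ^ 2 ^ k = 1) → l • w = w) → w ∈ fixedPoints (cj g' P) Ω := fun w h =>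
      mem_fp.2 fun l hl => by
        obtain ⟨⟨h1, h2, h3, h4⟩, hk⟩ := (hg' l).1 hl
        exact h l h1 h2 h3 h4 hk
    have := B3 g' a' b' w w' ⟨hab, wa.symm, wa'.symm, wb.symm, wb'.symm, ww⟩ m1 m2 (mw w h1)
      (mw w' h1') q (hΦq _ ha) (hΦq _ hb) (hΦq _ hw) (hΦq _ hw') (two_el (pg g) hq)
    exact xy (by rw [hyq, mem_fp.1 m3 q this])
  · obtain ⟨ha, hb, hw, hab, wa, wb, h1⟩ := h
    refine ⟨hb, hw, ha, wb.symm, hab, wa.symm, fun l l1 l2 l3 l4 hk => ?_⟩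
    obtain ⟨g', hg', m1, m2, m3, m4⟩ := blk a' ha b' hb hab
    have mw : w ∈ fixedPoints (cj g' P) Ω := mem_fp.2 fun l hl => by
      obtain ⟨⟨h1', h2, h3, h4⟩, hk⟩ := (hg' l).1 hl
      exact h1 l h1' h2 h3 h4 hk
    exact mem_fp.1 m1 l (B3 g' b' w x y (d4 b' hb w hw wb.symm) m2 mw m3 m4 l l1 l2 l3 l4 hk)

end H33.FbST
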