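import Cfsg.Agent.H36.NGSpec
import Cfsg.Agent.H30.ClassSum
import Cfsg.Agent.H42.Hecke

/-! # A congruence for characters constant on the `p`-singular elements (`JobCg`) -/

set_option autoImplicit false

namespace H33.NGC

open Cfsg H28 H87 H39 H2.PR H36.NG Subgroup

universe u

variable {G : Type*} [Group G]

/-- A sum over free orbits of a group of prime order `r` is divisible by `r`. -/
theorem sum_orbits {r : ℕ} (hr : r.Prime) {D : Subgroup G} (hD : Nat.card D = r) (f : G → ℂ)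
    (hf : ∀ g, IsIntegral ℤ (f g)) (hi : ∀ u ∈ D, ∀ g, f (u * g * u⁻¹) = f g) (T : Finset G) :
    (∀ u ∈ D, ∀ g ∈ T, u * g * u⁻¹ ∈ T) → (∀ g ∈ T, ¬ D ≤ centralizer ({g} : Set G)) →
      ∃ a, IsIntegral ℤ a ∧ ∑ g ∈ T, f g = r * a := by
  classical
  have : Fact r.Prime := ⟨hr⟩
  have : Finite D := Nat.finite_of_card_ne_zero (hD ▸ hr.ne_zero)
  have := Fintype.ofFinite D
  induction T using Finset.strongInduction with
  | H T ih =>
    intro h1 h2
    rcases T.eq_empty_or_nonempty with rfl | ⟨g, hg⟩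
    · exact ⟨0, isIntegral_zero, by simp⟩
    let c : D → G := fun u => u * g * (u : G)⁻¹
    have hb : (centralizer ({g} : Set G)).subgroupOf D = ⊥ :=
      (Subgroup.eq_bot_or_eq_top_of_prime_card (hp := ⟨hD ▸ hr⟩) _).resolve_right
        fun e => h2 g hg (subgroupOf_eq_top.1 e)
    have hc : Function.Injective c := fun u v e => by
      have : v⁻¹ * u ∈ (centralizer ({g} : Set G)).subgroupOf D := by
        rw [mem_subgroupOf, mem_centralizer_singleton_iff]
        simp only [c] at e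
        push_cast
        calc (v : G)⁻¹ * u * g = (v : G)⁻¹ * (u * g * (u : G)⁻¹) * u := by group
          _ = g * ((v : G)⁻¹ * u) := by rw [e]; group
      rw [hb, mem_bot] at this
      exact (inv_mul_eq_one.1 this).symm
    have hO : Finset.univ.image c ⊆ T := fun h hh => by
      obtain ⟨u, -, rfl⟩ := Finset.mem_image.1 hh
      exact h1 u u.2 g hg
    obtain ⟨a, ha, e⟩ := ih (T \ Finset.univ.image c)
      (Finset.sdiff_ssubset hO (Finset.univ_nonempty.image c)) (fun u hu h hh => by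
        obtain ⟨k1, k2⟩ := Finset.mem_sdiff.1 hh
        refine Finset.mem_sdiff.2 ⟨h1 u hu h k1, fun k3 => k2 ?_⟩
        obtain ⟨v, -, e⟩ := Finset.mem_image.1 k3
        refine Finset.mem_image.2 ⟨⟨u⁻¹ * v, D.mul_mem (D.inv_mem hu) v.2⟩, Finset.mem_univ _, ?_⟩
        simp only [c] at e ⊢
        calc u⁻¹ * v * g * (u⁻¹ * v)⁻¹ = u⁻¹ * (v * g * (v : G)⁻¹) * u := by group
          _ = h := by rw [e]; group)
      (fun h hh => h2 h (Finset.mem_sdiff.1 hh).1)
    refine ⟨a + f g, ha.add (hf g), ?_⟩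
    rw [← Finset.sum_sdiff hO, e, Finset.sum_image fun u _ v _ h => hc h,
      Finset.sum_congr rfl fun (u : D) _ => hi u u.2 g, Finset.sum_const, Finset.card_univ,
      ← Nat.card_eq_fintype_card, hD, nsmul_eq_mul]
    ring

theorem jobCg : JobCg.{u} := by
  intro G _ _ p r hp P d hP hI he χ c hc
  classical
  obtain ⟨x, hx, hx1⟩ := exists_ne_one_mem_prime hP
  have hox := orderOf_eq_of_mem_prime hP hx hx1
  obtain ⟨z, hz, hz1, hzx⟩ : ∃ z ∈ (P : Subgroup G), z ≠ 1 ∧ ¬ IsConj x z := by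
    by_contra hn
    push Not at hn
    have h1 := card_isConj_mem_prime hP hx hx1
    have h2 := card_ne_one_mem (P : Subgroup G)
    have h3 : Nat.card {h : G // h ∈ (P : Subgroup G) ∧ h ≠ 1} ≤
        Nat.card {h : G // IsConj x h ∧ h ∈ (P : Subgroup G)} :=
      Nat.card_le_card_of_injective (fun h => ⟨h.1, hn _ h.2.1 h.2.2, h.2.1⟩)
        fun a b e => Subtype.ext (by simpa using e)
    simp only [Cen, Nor] at he
    omega
  have hv : ∀ y ∈ (P : Subgroup G), y ≠ 1 → (χ : G → ℂ) y = c := fun y hy hy1 =>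
    hc y (by rw [orderOf_eq_of_mem_prime hP hy hy1])
  have hcl := χ.2.isClassFunction
  have hs : ∑ g with IsConj x g, ((χ : G → ℂ) (g * x⁻¹) - (χ : G → ℂ) (g * z⁻¹)) = 0 := by
    rw [Finset.sum_sub_distrib, sub_eq_zero]
    refine mul_right_cancel₀ χ.2.apply_one_ne_zero ?_
    rw [H30.sum_class_mul_irr χ.2, H30.sum_class_mul_irr χ.2,
      hv _ (inv_mem hx) (inv_ne_one.2 hx1), hv _ (inv_mem hz) (inv_ne_one.2 hz1)]
  have hD : zpowers d ≤ Cen (P : Subgroup G) := (zpowers_le (G := G)).2 hI.mem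
  have hcm : ∀ u ∈ zpowers d, ∀ y ∈ (P : Subgroup G), ∀ g : G,
      (χ : G → ℂ) (u * g * u⁻¹ * y) = (χ : G → ℂ) (g * y) := fun u hu y hy g => by
    rw [← hcl (g * y) u]
    congr 1
    have := mem_centralizer_iff.1 (inv_mem (hD hu)) y hy
    rw [mul_assoc (u * g), ← this]
    group
  obtain ⟨a, ha, e⟩ := sum_orbits hI.hr (D := zpowers d) (by rw [Nat.card_zpowers, hI.ord])
    (fun g => (χ : G → ℂ) (g * x⁻¹) - (χ : G → ℂ) (g * z⁻¹))
    (fun g => (χ.2.isCharacter.isIntegral _).sub (χ.2.isCharacter.isIntegral _))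
    (fun u hu g => by rw [hcm u hu _ (inv_mem hx), hcm u hu _ (inv_mem hz)])
    ((Finset.univ.filter (IsConj x)).filter fun g => g ∉ (P : Subgroup G))
    (fun u hu g hg => by
      simp only [Finset.mem_filter, Finset.mem_univ, true_and] at hg ⊢
      refine ⟨hg.1.trans (isConj_iff.2 ⟨u, rfl⟩), fun h => hg.2 ?_⟩
      have := mem_centralizer_iff.1 (hD hu) _ h
      rw [show g = u * g * u⁻¹ by
        calc g = u⁻¹ * (u * g * u⁻¹ * u) := by group
          _ = u * g * u⁻¹ := by rw [this]; group]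
      exact h)
    (fun g hg h => by
      simp only [Finset.mem_filter, Finset.mem_univ, true_and] at hg
      refine hg.2 (hI.only g ?_ (mem_centralizer_singleton_iff.1 (h (mem_zpowers d))).symm)
      obtain ⟨k, rfl⟩ := isConj_iff.1 hg.1
      rw [← hox]
      exact (MulAut.conj k).orderOf_eq x)
  rw [← Finset.sum_filter_add_sum_filter_not _ fun g => g ∈ (P : Subgroup G), e,
    Finset.sum_eq_single_of_mem x (Finset.mem_filter.2
      ⟨Finset.mem_filter.2 ⟨Finset.mem_univ _, IsConj.refl x⟩, hx⟩) (fun g hg hgx => by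
      simp only [Finset.mem_filter, Finset.mem_univ, true_and] at hg
      rw [hv _ (mul_mem hg.2 (inv_mem hx)) (fun h => hgx (mul_inv_eq_one.1 h)),
        hv _ (mul_mem hg.2 (inv_mem hz)) (fun h => hzx (mul_inv_eq_one.1 h ▸ hg.1)), sub_self]),
    mul_inv_cancel, hv _ (mul_mem hx (inv_mem hz))
      (fun h => hzx (mul_inv_eq_one.1 h ▸ IsConj.refl x)), ← coe_dg] at hs
  refine H42.Hk.exists_int_of_mul ha.neg (Int.natCast_ne_zero.2 hI.hr.ne_zero) ?_
  push_cast
  linear_combination -hs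

end H33.NGC
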