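import Cfsg.Agent.H86.M8.Def

/-! Row S3384, part M, slot `N2`: an element of the normaliser of the torus is a product of a
diagonal map, some `star`s and a permutation of the coordinates. -/

set_option autoImplicit false

namespace H33.O84N2

open H6 (F4)
open H56 H86.M8 QuadraticMap Subgroup

theorem span_e : ∀ x : E, ∃ s s' : F4, x = s • (1 : E) + s' • zt 1 ∧
    star x = s • (1 : E) + s' • zt (-1) := by decide +kernel

theorem zt_sq : zt 1 * zt 1 = tr (zt 1) • zt 1 + 1 := by decide +kernel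

theorem exp_pm : ∀ a c : ZMod 5,
    zt c * (zt c * zt a) = tr (zt 1) • (zt c * zt a) + zt a → c = 1 ∨ c = -1 := by
  decide +kernel

theorem local_form (φ : E → E) (c : ZMod 5) (hadd : ∀ x y, φ (x + y) = φ x + φ y)
    (hsm : ∀ (s : F4) x, φ (s • x) = s • φ x) (hn : nr (φ 1) = 1)
    (hz : ∀ x, φ (zt 1 * x) = zt c * φ x) :
    ∃ (a : ZMod 5) (ε : Bool), ∀ x, φ x = zt a * if ε then star x else x := by
  obtain ⟨a, ha⟩ := exists_zt _ hn
  have h1 : φ (zt 1) = zt c * zt a := by rw [← ha, ← hz, mul_one]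
  have h2 : zt c * (zt c * zt a) = tr (zt 1) • (zt c * zt a) + zt a := by
    rw [← h1, ← hz, zt_sq, hadd, hsm, ha]
  have h3 : ∀ s s' : F4, φ (s • (1 : E) + s' • zt 1) = zt a * (s • (1 : E) + s' • zt c) := by
    intro s s'
    rw [hadd, hsm, hsm, h1, ha, mul_add, mul_smul_comm, mul_smul_comm, mul_one, mul_comm (zt c)]
  rcases exp_pm a c h2 with rfl | rfl
  · refine ⟨a, false, fun x => ?_⟩
    obtain ⟨s, s', hx, -⟩ := span_e x
    simp only [Bool.false_eq_true, if_false]
    rw [hx, h3]
  · refine ⟨a, true, fun x => ?_⟩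
    obtain ⟨s, s', hx, hx'⟩ := span_e x
    simp only [if_true]
    rw [hx', ← h3, ← hx]

theorem tt_single (i : Fin 4) (c : ZMod 5) (x : E) :
    tt (Pi.single i c) (Pi.single i x : V) = Pi.single i (zt c * x) := funext fun k => by
  rw [tt_apply]
  by_cases h : k = i
  · subst h; simp
  · simp [h]

theorem jN2 : H86.M8.N2 := by
  intro h1 g hg
  obtain ⟨π, hπ⟩ := h1 g hg
  have hs : ∀ i x, g (Pi.single i x) = Pi.single (π i) (g (Pi.single i x) (π i)) := by
    intro i x
    obtain ⟨y, hy⟩ := (hπ i).2 x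
    rw [hy, Pi.single_eq_same]
  have key : ∀ i, ∃ (a : ZMod 5) (ε : Bool), ∀ x : E,
      g (Pi.single i x) (π i) = zt a * if ε then star x else x := by
    intro i
    obtain ⟨c, -, hc⟩ := (hπ i).1
    refine local_form (fun x => g (Pi.single i x) (π i)) c (fun x y => ?_) (fun s x => ?_) ?_
      fun x => ?_
    · rw [Pi.single_add, map_add, Pi.add_apply]
    · rw [Pi.single_smul, map_smul, Pi.smul_apply]
    · rw [← Q_single (π i), ← hs, O.map_Q, Q_single, nr_one]
    · have e : g (tt (Pi.single i 1) (Pi.single i x)) = tt (Pi.single (π i) c) (g (Pi.single i x)) := by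
        rw [← hc, O.mul_apply, O.mul_apply, O.inv_apply_apply]
      rw [← tt_single, e, tt_apply, Pi.single_eq_same]
  choose A B hAB using key
  refine ⟨fun k => A (π.symm k), fun k => B (π.symm k), π, O.ext fun x => funext fun k => ?_⟩
  obtain ⟨i, rfl⟩ := π.surjective k
  rw [O.mul_apply, O.mul_apply, tt_apply, ke_apply, Pm_apply, Equiv.symm_apply_apply, ← hAB]
  conv_lhs => rw [← Finset.univ_sum_single x]
  rw [map_sum, Finset.sum_apply, Finset.sum_eq_single i (fun j _ hj => ?_) (by simp)]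
  rw [hs, Pi.single_eq_of_ne fun h => hj (π.injective h).symm]

end H33.O84N2
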