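import Cfsg.Agent.H33.SolvAvg
import Cfsg.Agent.H32.GoingDown
import Cfsg.Agent.H32.IndSurj
import Cfsg.Agent.H28.Degree

/-! Degrees of primitive characters of solvable groups and conjugacy class sizes. -/

set_option autoImplicit false

open Cfsg H28

namespace H33.Solv

open Subgroup
open scoped commutatorElement

universe u

variable {G : Type u} [Group G]

theorem chief_triv [Finite G] {K L R : Subgroup G} [K.Normal] {W : Type*} [AddCommGroup W]
    {π : G → W} (hπ : Sec L K π) [DistribMulAction G W]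
    (hact : ∀ g : G, ∀ a ∈ K, g • π a = π (g * a * g⁻¹)) (hi : Irr G W) {p : ℕ} (hp : p.Prime)
    (hW : ∀ w : W, p • w = 0) (hR : R.Normal) (h : ∀ y ∈ R, ∃ k, y ^ p ^ k ∈ fittingSubgroup G) :
    ∀ y ∈ R, ∀ w : W, y • w = w := by
  have := Fact.mk hp
  have := hπ.finite
  let ρ := (DistribMulAction.toAddMonoidEnd G W).toHomUnits
  have hk : ∀ y, y ∈ ρ.ker ↔ ∀ w : W, y • w = w := fun y =>
    ⟨fun e w => congrArg (· • w) e, fun e => Units.ext (AddMonoidHom.ext e)⟩
  have hF : fittingSubgroup G ≤ ρ.ker := (H2.fitting_le_pCore_sup_pPrimeCore p G).trans (sup_le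
    (fun y hy => (hk y).2 (hi.cr.normal_p hp hW inferInstance (H2.pCore_isPGroup p G) y hy))
    fun y hy => (hk y).2 fun w => by
      obtain ⟨a, ha, rfl⟩ := hπ.surj w
      have h1 := Normal.conj_mem inferInstance a ha y
      have h2 : y * a * y⁻¹ * a⁻¹ ∈ pPrimeCore p G := by
        simpa [mul_assoc] using mul_mem hy (Normal.conj_mem inferInstance _ (inv_mem hy) a)
      rw [hact y a ha, ← sub_eq_zero, sub_eq_add_neg, ← hπ.inv ha, ← hπ.mul _ h1 _ (inv_mem ha)]
      refine AddMonoid.addOrderOf_eq_one_iff.1 (Nat.eq_one_of_dvd_coprimes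
        (H2.coprime_card_pPrimeCore p G) (addOrderOf_dvd_of_nsmul_eq_zero ?_)
        (addOrderOf_dvd_of_nsmul_eq_zero (hW _)))
      rw [← hπ.pow (mul_mem h1 (inv_mem ha)),
        show _ ^ _ = (1 : G) from congrArg Subtype.val (pow_card_eq_one' (x := (⟨_, h2⟩ : pPrimeCore p G))),
        hπ.one])
  have hi' : Irr ρ.range W := fun U hU => hi U fun g => hU (ρ.rangeRestrict g)
  exact fun y hy => hi'.cr.normal_p hp hW (hR.map _ ρ.rangeRestrict_surjective) (by
    rintro ⟨_, b, hb, rfl⟩
    obtain ⟨k, e⟩ := h b hb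
    exact ⟨k, Subtype.ext (Subtype.ext ((map_pow ρ b _).symm.trans (hF e)))⟩) _ ⟨y, hy, rfl⟩

theorem card_cent_le [Finite G] {K L : Subgroup G} {W : Type*} [AddCommGroup W]
    {π : G → W} (hπ : Sec L K π) [DistribMulAction G W]
    (hact : ∀ g : G, ∀ a ∈ K, g • π a = π (g * a * g⁻¹)) (g : G) (p : ℕ) :
    (Nat.card (K ⊓ centralizer {g} : Subgroup G)).factorization p ≤
      (Nat.card (L ⊓ centralizer {g} : Subgroup G)).factorization p +
        (Nat.card (fix W g)).factorization p := by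
  have := hπ.finite
  let f := hπ.hom.comp (inclusion (inf_le_left : K ⊓ centralizer {g} ≤ K))
  rw [← card_mul_index f.ker, index_ker, Nat.factorization_mul Nat.card_pos.ne' Nat.card_pos.ne']
  refine add_le_add (fact_le p (card_dvd_of_injective (MonoidHom.mk'
    (fun v => ⟨v.1.1, (hπ.zero _ v.1.2.1).1 v.2, v.1.2.2⟩) fun _ _ => rfl)
    fun a b e => Subtype.ext (Subtype.ext (congrArg (·.1) e))) Nat.card_pos.ne')
    (fact_le p (card_dvd_of_le (K := (fix W g).toSubgroup) ?_) Nat.card_pos.ne')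
  rintro _ ⟨v, rfl⟩
  refine (hact g _ v.2.1).trans (congrArg π ?_)
  rw [← mem_centralizer_singleton_iff.1 v.2.2, mul_inv_cancel_right]
  rfl

theorem prim_deg [Fintype G] (hs : Group.IsSolvable G) {χ : G → ℂ} (hχ : IsIrrCharacter G χ)
    (hprim : ¬ ∃ H : Subgroup G, H ≠ ⊤ ∧ ∃ θ : H → ℂ, IsCharacter H θ ∧ indFun H θ = χ) {p : ℕ}
    (hp : p.Prime) {R : Subgroup G} (hR : R.Normal)
    (h : ∀ y ∈ R, ∃ k, y ^ p ^ k ∈ fittingSubgroup G) (K : Subgroup G) :
    ∀ [K.Normal] (θ : K → ℂ) (e : ℕ), IsIrrCharacter K θ → (fun n : K => χ n) = (e : ℂ) • θ →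
      ∃ a : G → ℕ, (∀ x, ∀ y ∈ R, a (x * y) = a x) ∧
        (∀ g, a g + (Nat.card (K ⊓ centralizer {g} : Subgroup G)).factorization p ≤
          (Nat.card K).factorization p) ∧
        Nat.card G * (charDegree θ).factorization p ≤ ∑ g, a g := by
  classical
  induction K using (wellFounded_lt (α := Subgroup G)).induction with
  | _ K ih =>
  intro _ θ e hθ he
  by_cases h0 : K = ⊥
  · have := hθ.charDegree_dvd_card
    rw [card_eq_one.2 h0, Nat.dvd_one] at this
    exact ⟨0, fun _ _ _ => rfl, fun g => by simp [h0], by simp [this]⟩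
  obtain ⟨L, ⟨_, l1, l2⟩, hmax⟩ := H2.exists_maximal_subgroup
    (fun L : Subgroup G => L.Normal ∧ ⁅K, K⁆ ≤ L ∧ L < K)
    ⟨_, inferInstance, le_rfl, H2.commutator_lt_of_isSolvable h0⟩
  have hch : ∀ M : Subgroup G, M.Normal → L ≤ M → M ≤ K → M = L ∨ M = K := fun M h1 h2 h3 =>
    or_iff_not_imp_right.2 fun e => hmax M ⟨h1, l1.trans h2, lt_of_le_of_ne h3 e⟩ h2
  obtain ⟨W, _, π, hπ⟩ := exists_sec (Z := L) (N := K)
    (fun a ha b hb => l1 (commutator_mem_commutator ha hb)) fun a _ z hz =>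
      Normal.conj_mem inferInstance z hz a
  obtain ⟨_, hact⟩ := hπ.exists_act
  have := hπ.finite
  have hI : Irr G W := fun U hU => (hch (hπ.pre U) ⟨fun a ha g =>
    ⟨Normal.conj_mem inferInstance a ha.1 g, hact g a ha.1 ▸ hU g _ ha.2⟩⟩
    (fun z hz => ⟨l2.le hz, by rw [(hπ.zero z (l2.le hz)).2 hz]; exact zero_mem U⟩)
    fun a ha => ha.1).imp (fun e => eq_bot_iff.2 fun w hw => by
      obtain ⟨x, hx, rfl⟩ := hπ.surj w
      exact (hπ.zero x hx).2 (e.le ⟨hx, hw⟩)) fun e => eq_top_iff.2 fun w _ => by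
      obtain ⟨x, hx, rfl⟩ := hπ.surj w
      exact (e.ge hx).2
  have e0 : (e : ℂ) ≠ 0 := fun h => hχ.apply_one_ne_zero (by simpa [h] using congrFun he 1)
  have hK : (Nat.card K).factorization p =
      (Nat.card L).factorization p + (Nat.card W).factorization p := by
    rw [hπ.card, ← relIndex_bot_left K, ← relIndex_mul_relIndex ⊥ L K bot_le l2.le, relIndex_bot_left,
      Nat.factorization_mul (b := L.relIndex K) Nat.card_pos.ne' index_ne_zero_of_finite,
      Finsupp.add_apply]
  have hfix : ∀ g : G, (Nat.card (fix W g)).factorization p ≤ (Nat.card W).factorization p :=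
    fun g => fact_le p (AddSubgroup.card_addSubgroup_dvd_card _) Nat.card_pos.ne'
  have hc := fun g => card_cent_le hπ hact g p
  have hres : (fun n : L => χ n) = (e : ℂ) • fun x : L => θ ⟨x, l2.le x.2⟩ :=
    funext fun x => congrFun he ⟨x, l2.le x.2⟩
  have w1 : L.relIndex K ≠ 1 := fun e => l2.not_ge (relIndex_eq_one.1 e)
  rcases H32.going_down l2.le hch l1 hθ
    (H32.inertia_eq_top_of_homogeneous hχ.isClassFunction e0 he) with h1 | ⟨φ, f, h1, h2, h3⟩ |
      ⟨F, h1, h2, h3⟩
  · obtain ⟨a, a1, a2, a3⟩ := ih L l2 _ e h1 hres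
    exact ⟨a, a1, fun g => by have := a2 g; have := hc g; have := hfix g; omega, a3⟩
  · obtain ⟨a, a1, a2, a3⟩ := ih L l2 φ (e * f) h1 (by rw [hres, h2, smul_smul, Nat.cast_mul])
    have f0 : f ≠ 0 := by rintro rfl; exact index_ne_zero_of_finite h3.symm
    have hd : (charDegree θ).factorization p = f.factorization p + (charDegree φ).factorization p := by
      rw [charDegree_eq (n := f * charDegree φ) (by
        rw [Nat.cast_mul, h1.cast_charDegree]; exact congrFun h2 1),
        Nat.factorization_mul f0 h1.charDegree_pos.ne', Finsupp.add_apply]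
    rw [← hπ.card] at h3 w1
    have hw : (Nat.card W).factorization p = 2 * f.factorization p := by
      rw [← h3, Nat.factorization_pow]; rfl
    have := Finite.one_lt_card_iff_nontrivial.1
      (Nat.one_lt_iff_ne_zero_and_ne_one.2 ⟨Nat.card_pos.ne', w1⟩)
    obtain ⟨r, hr, hd', hW⟩ := hI.exists_prime
    have hav := avg_fix hs hI (by
      by_contra! e
      obtain ⟨w, hw⟩ := exists_ne (0 : W)
      have := Fact.mk hr
      have := (hI (AddSubgroup.zmultiples w) fun g v hv => (e g v).symm ▸ hv).resolve_left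
        (mt AddSubgroup.zmultiples_eq_bot.1 hw)
      rw [← AddSubgroup.card_top, ← this, Nat.card_zmultiples, addOrderOf_eq_prime (hW w) hw] at h3
      exact Nat.Prime.not_prime_pow' (n := 2) (by decide) (h3 ▸ hr)) p
    refine ⟨fun g => a g + ((Nat.card W).factorization p - (Nat.card (fix W g)).factorization p),
      fun x y hy => ?_, fun g => by
        have := a2 g; have := hc g; have := hfix g; beta_reduce; omega, ?_⟩
    · beta_reduce
      by_cases hpr : r = p
      · subst hpr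
        rw [a1 x y hy, show fix W (x * y) = fix W x from AddSubgroup.ext fun w => by
          rw [mem_fix, mem_fix, mul_smul, chief_triv hπ hact hI hp hW hR h y hy]]
      · have := Fact.mk hr
        obtain ⟨k, hk⟩ := (show IsPGroup r (Multiplicative W) from fun w => ⟨1, by
          rw [pow_one]; exact hW w⟩).exists_card_eq
        rw [a1 x y hy, show Nat.card W = r ^ k from hk, hr.factorization_pow,
          Finsupp.single_eq_of_ne' hpr, Nat.zero_sub, Nat.zero_sub]
    · rw [Finset.sum_add_distrib, Finset.sum_tsub_distrib _ fun g _ => hfix g, Finset.sum_const,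
        Finset.card_univ, ← Nat.card_eq_fintype_card, smul_eq_mul, hd, mul_add, hw]
      rw [hw, mul_left_comm] at hav
      rw [mul_left_comm]
      omega
  · obtain ⟨ψ, f, h4, h5⟩ : ∃ (ψ : L → ℂ) (f : ℕ), IsIrrCharacter L ψ ∧
        (fun n : L => χ n) = (f : ℂ) • ψ := by_contra fun e =>
      let ⟨T, ψ, _, t1, t2, t3⟩ := H32.exists_induced_of_not_homogeneous hχ e
      hprim ⟨T, t1, ψ, t2.isCharacter, t3⟩
    have := Fintype.ofFinite L
    refine (w1 (le_antisymm (h2 ▸ Finset.card_le_one_iff_subset_singleton.2 ⟨ψ, fun φ hφ => ?_⟩)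
      (Nat.pos_of_ne_zero index_ne_zero_of_finite))).elim
    refine Finset.mem_singleton.2 (h4.eq_of_classInner_ne_zero (h1 φ hφ) fun e' => e0 ?_).symm
    have := congrArg (classInner · φ) (hres.symm.trans h5)
    simp only [h3, classInner_smul_left, e', classInner_sum_left] at this
    rwa [Finset.sum_eq_single_of_mem φ hφ fun b hb hne => (h1 b hb).classInner_of_ne (h1 φ hφ) hne,
      (h1 φ hφ).classInner_self, mul_one, mul_zero] at this

theorem exists_class [Fintype G] (hs : Group.IsSolvable G) {χ : G → ℂ} (hχ : IsIrrCharacter G χ)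
    (hprim : ¬ ∃ H : Subgroup G, H ≠ ⊤ ∧ ∃ θ : H → ℂ, IsCharacter H θ ∧ indFun H θ = χ) {p : ℕ}
    (hp : p.Prime) {R : Subgroup G} (hR : R.Normal)
    (h : ∀ y ∈ R, ∃ k, y ^ p ^ k ∈ fittingSubgroup G) : ∃ x : G, ∀ y ∈ R,
      (charDegree χ).factorization p ≤ (centralizer {x * y}).index.factorization p := by
  obtain ⟨a, a1, a2, a3⟩ := prim_deg hs hχ hprim hp hR h ⊤ (fun n => χ n) 1
    (hχ.comp_mulEquiv topEquiv) (by simp)
  rw [Nat.card_eq_fintype_card, ← Finset.card_univ, ← smul_eq_mul, ← Finset.sum_const] at a3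
  obtain ⟨x, -, hx⟩ := Finset.exists_le_of_sum_le Finset.univ_nonempty a3
  refine ⟨x, fun y hy => hx.trans ?_⟩
  have := a2 (x * y)
  rw [a1 x y hy, top_inf_eq, card_top, ← card_mul_index (centralizer {x * y}),
    Nat.factorization_mul Nat.card_pos.ne' index_ne_zero_of_finite, Finsupp.add_apply] at this
  omega

end H33.Solv
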