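/- The number of generators of a `2`-group acting faithfully on an abelian group of odd order. -/
import Cfsg.Agent.H9.PBasic
import Cfsg.Agent.H46.Prod
import Cfsg.Agent.H3.FrattiniP
import Cfsg.Agent.H3.NormalRankOne
import Cfsg.Agent.H2.MinNormal

set_option autoImplicit false

open Cfsg Subgroup

namespace H33.R2

theorem tri {Q : Type*} [Group Q] [Finite Q] (hQ : IsPGroup 2 Q) :
    (∃ a : Q, (zpowers a).index = 1) ∨ (∃ a : Q, (zpowers a).index = 2) ∨
      ∃ z u : Q, z ≠ 1 ∧ u ≠ 1 ∧ u ≠ z ∧ z * z = 1 ∧ u * u = 1 ∧ (∀ h, h * z * h⁻¹ = z) ∧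
        ∀ h, h * u * h⁻¹ = u ∨ h * u * h⁻¹ = u * z := by
  by_cases hn : ∀ A : Subgroup Q, A.Normal → IsMulCommutative A → IsCyclic A
  · by_cases hc : IsCyclic Q
    · obtain ⟨a, ha⟩ := hc.exists_generator
      exact Or.inl ⟨a, index_eq_one.2 (eq_top_iff.2 fun x _ => ha x)⟩
    · obtain ⟨a, ha, -⟩ := H3.exists_zpowers_index_two_of_normal_abelian_cyclic hQ hn hc
      exact Or.inr (Or.inl ⟨a, ha⟩)
  push Not at hn
  obtain ⟨A, hA, hc, hnc⟩ := hn
  obtain ⟨K, hK, hm⟩ := H2.exists_normal_pow_eq_one A 2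
  have h4 : 2 ^ 2 ≤ Nat.card K := by
    by_contra hlt
    refine hnc (H3.isCyclic_of_comm_pgroup_of_unique (hQ.to_subgroup A) hc fun H L hH hL => ?_)
    have key : ∀ H : Subgroup A, Nat.card H = 2 → H.map A.subtype = K := fun H hH => by
      have h1 : H.map A.subtype ≤ K := by
        rintro _ ⟨x, hx, rfl⟩
        refine (hm _).2 ⟨x.2, ?_⟩
        have := pow_card_eq_one' (x := (⟨x, hx⟩ : H))
        rw [hH] at this
        exact congrArg (fun y : H => ((y : A) : Q)) this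
      have h2 := card_dvd_of_le h1
      rw [card_map_of_injective A.subtype_injective, hH] at h2
      have h3 : 0 < Nat.card K := Nat.card_pos
      exact eq_of_le_of_card_ge h1 (by rw [card_map_of_injective A.subtype_injective, hH]; omega)
    exact map_injective A.subtype_injective ((key H hH).trans (key L hL).symm)
  obtain ⟨M, hM, hMK, cM⟩ := H9.exists_normal_le_card_eq hQ K 2 h4
  obtain ⟨Z, hZ, hZM, cZ⟩ := H9.exists_normal_le_card_eq hQ M 1 (by rw [cM]; norm_num)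
  obtain ⟨z, z1, hz⟩ := (Nat.card_eq_two_iff' (1 : Z)).1 cZ
  have mZ : ∀ x ∈ Z, x = 1 ∨ x = z := fun x hx => by
    by_cases e : x = 1
    exacts [Or.inl e, Or.inr (congrArg Subtype.val (hz ⟨x, hx⟩ fun e' => e (congrArg Subtype.val e')))]
  have z1' : (z : Q) ≠ 1 := fun e => z1 (Subtype.ext e)
  obtain ⟨u, hu, huZ⟩ : ∃ u ∈ M, u ∉ Z := by
    by_contra h
    push Not at h
    have := card_le_of_le (show M ≤ Z from h)
    omega
  have hi : Z.relIndex M = 2 := by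
    have := H46.card_mul_relIndex hZM
    rw [cZ, cM] at this
    omega
  refine Or.inr (Or.inr ⟨z, u, z1', fun e => huZ (e ▸ one_mem _), fun e => huZ (e ▸ z.2),
    (pow_two _).symm.trans ((hm _).1 (hMK (hZM z.2))).2, (pow_two _).symm.trans ((hm _).1 (hMK hu)).2,
    fun h => (mZ _ (hZ.conj_mem _ z.2 h)).resolve_left (by simpa using z1'), fun h => ?_⟩)
  have h1 : u⁻¹ * (h * u * h⁻¹) ∈ Z :=
    (mul_mem_iff_of_index_two hi (a := ⟨u, hu⟩⁻¹) (b := ⟨_, hM.conj_mem _ hu h⟩)).2 (by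
      simp only [inv_mem_iff, mem_subgroupOf]
      exact iff_of_false huZ fun e => huZ (by simpa [mul_assoc] using hZ.conj_mem' _ e h))
  exact (mZ _ h1).imp (fun e => (inv_mul_eq_one.1 e).symm) fun e => by rw [← e]; group

theorem index_le {Q : Type*} [Group Q] [Finite Q] {T : Subgroup Q} (a : Q) (h : a * a ∈ T) :
    T.index ≤ 2 * (zpowers a).index := by
  have h1 : zpowers (a * a) ≤ zpowers a := zpowers_le.2 (mul_mem (mem_zpowers a) (mem_zpowers a))
  have h2 := H46.card_mul_relIndex h1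
  rw [Nat.card_zpowers, Nat.card_zpowers] at h2
  have h3 : orderOf a ≤ orderOf (a * a) * 2 := orderOf_le_of_pow_eq_one
    (Nat.mul_pos (orderOf_pos _) two_pos) (by rw [mul_comm, pow_mul, pow_two, pow_orderOf_eq_one])
  rw [← h2] at h3
  have h4 := Nat.le_of_mul_le_mul_left h3 (orderOf_pos _)
  calc T.index ≤ (zpowers (a * a)).index :=
        Nat.le_of_dvd (Nat.pos_of_ne_zero index_ne_zero_of_finite) (index_dvd_of_le (zpowers_le.2 h))
    _ = _ := (relIndex_mul_index h1).symm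
    _ ≤ _ := Nat.mul_le_mul_right _ h4

variable {G : Type*} [Group G] [Finite G]

omit [Finite G] in
theorem idx {S K H : Subgroup G} (hS : S ≤ H) (hK : K ≤ H) (h2 : ∀ x ∈ H, x * x ∈ S) :
    S.relIndex H = (S ⊓ K).relIndex K * (S ⊔ K).relIndex H := by
  have hn : K ≤ normalizer (S : Set G) := by
    have key : ∀ k ∈ K, ∀ s ∈ S, k * s * k⁻¹ ∈ S := fun k hk s hs => by
      have := mul_mem (mul_mem (h2 k (hK hk)) (h2 _ (mul_mem (inv_mem (hK hk)) (hS hs)))) (inv_mem hs)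
      convert this using 1
      group
    intro k hk
    exact mem_normalizer_iff.2 fun s => ⟨key k hk s, fun h => by
      simpa [mul_assoc] using key _ (inv_mem hk) _ h⟩
  rw [inf_relIndex_right, ← H46.relIndex_sup_of_nrm hn,
    relIndex_mul_relIndex _ _ _ le_sup_left (sup_le hS hK)]

def Bd (g n : ℕ) : Prop := 2 * g ≤ n + 1 ∧ (3 < n → 2 * g ≤ n)

def St (V : Subgroup G) : Prop := ∀ H S : Subgroup G, IsPGroup 2 H → H ≤ normalizer (V : Set G) →
  S ≤ H → (∀ x ∈ H, x * x ∈ S) → H ⊓ centralizer (V : Set G) ≤ S → Bd (S.relIndex H) (Nat.card V)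

omit [Finite G] in
theorem red {V V₁ V₂ H S : Subgroup G} (s₁ : St V₁) (s₂ : St V₂)
    (gen : ∀ v ∈ V, ∃ a ∈ V₁, ∃ b ∈ V₂, v = a * b) (hH : IsPGroup 2 H)
    (n₁ : H ≤ normalizer (V₁ : Set G)) (n₂ : H ≤ normalizer (V₂ : Set G)) (hS : S ≤ H)
    (h2 : ∀ x ∈ H, x * x ∈ S) (hc : H ⊓ centralizer (V : Set G) ≤ S) :
    ∃ g₁ g₂, S.relIndex H = g₂ * g₁ ∧ Bd g₁ (Nat.card V₁) ∧ Bd g₂ (Nat.card V₂) ∧
      (Nat.card V₁ = 3 → ∀ z ∈ S, (∀ v ∈ V₁, z * v * z⁻¹ = v⁻¹) → g₁ = 1) := by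
  refine ⟨_, _, idx hS (inf_le_left : H ⊓ centralizer (V₁ : Set G) ≤ H) h2,
    s₁ H _ hH n₁ (sup_le hS inf_le_left) (fun x hx => mem_sup_left (h2 x hx)) le_sup_right,
    s₂ _ _ (hH.to_le inf_le_left) (inf_le_left.trans n₂) inf_le_right
      (fun x hx => ⟨h2 x hx.1, mul_mem hx hx⟩) (fun x hx => ⟨hc ⟨hx.1.1, fun v hv => ?_⟩, hx.1⟩),
    fun h3 z hz hi => relIndex_eq_one.2 fun h hh => ?_⟩
  · obtain ⟨a, ha, b, hb, rfl⟩ := gen v hv
    rw [mul_assoc, hx.2 b hb, ← mul_assoc, hx.1.2 a ha, mul_assoc]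
  · have := Fact.mk Nat.prime_three
    obtain ⟨v, hv⟩ := (isCyclic_of_prime_card h3).exists_generator
    have v3 : (v : G) ^ 3 = 1 := by
      have := pow_card_eq_one' (x := v)
      rw [h3] at this
      exact congrArg Subtype.val this
    have cen : ∀ x : G, x * v * x⁻¹ = v → x ∈ centralizer (V₁ : Set G) := fun x e w hw => by
      obtain ⟨k, hk⟩ := hv ⟨w, hw⟩
      have hk' : (v : G) ^ k = w := congrArg Subtype.val hk
      rw [← hk']
      exact ((show Commute x v from mul_inv_eq_iff_eq_mul.1 e).zpow_right k).symm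
    have v1 : (v : G) ≠ 1 := fun e => by
      have h4 : Nat.card V₁ = 1 := card_eq_one.2 (eq_bot_iff.2 fun w hw => by
        obtain ⟨k, hk⟩ := hv ⟨w, hw⟩
        have hk' : (v : G) ^ k = w := congrArg Subtype.val hk
        rw [← hk', e, one_zpow]; exact one_mem _)
      omega
    obtain ⟨k, hk⟩ := hv ⟨_, (mem_normalizer_iff.1 (n₁ hh) v).1 v.2⟩
    have hk' : (v : G) ^ k = h * v * h⁻¹ := congrArg Subtype.val hk
    rw [zpow_eq_zpow_emod' k v3] at hk'
    have : k % (3 : ℕ) = 0 ∨ k % (3 : ℕ) = 1 ∨ k % (3 : ℕ) = 2 := by omega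
    rcases this with e | e | e <;> rw [e] at hk'
    · exact absurd (by simpa using hk'.symm) v1
    · exact mem_sup_right ⟨hh, cen h (by simpa using hk'.symm)⟩
    · rw [← inv_mul_cancel_left z h]
      refine mul_mem (mem_sup_left (inv_mem hz)) (mem_sup_right ⟨mul_mem (hS hz) hh, cen _ ?_⟩)
      have h5 : h * v * h⁻¹ = (v : G)⁻¹ := by
        rw [← hk', eq_inv_iff_mul_eq_one, zpow_two, ← pow_three', v3]
      calc _ = z * (h * v * h⁻¹) * z⁻¹ := by group
        _ = _ := by rw [h5, hi _ (inv_mem v.2), inv_inv]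

/-- The elements of `V` inverted by `u`. -/
def Iv (V : Subgroup G) (u : G) (hc : ∀ a ∈ V, ∀ b ∈ V, a * b = b * a) : Subgroup G where
  carrier := {v | v ∈ V ∧ u * v * u⁻¹ = v⁻¹}
  one_mem' := ⟨one_mem _, by simp⟩
  mul_mem' := fun {a b} ha hb => ⟨mul_mem ha.1 hb.1, by
    rw [← conj_mul, ha.2, hb.2, ← mul_inv_rev, hc b hb.1 a ha.1]⟩
  inv_mem' := fun {a} ha => ⟨inv_mem ha.1, by rw [← conj_inv, ha.2]⟩

theorem split {V : Subgroup G} (ho : Odd (Nat.card V)) (hc : ∀ a ∈ V, ∀ b ∈ V, a * b = b * a) {u : G}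
    (hu : u ∈ normalizer (V : Set G)) (h2 : u * u ∈ centralizer (V : Set G)) :
    (∀ v ∈ V, ∃ a ∈ V ⊓ centralizer {u}, ∃ b ∈ Iv V u hc, v = a * b) ∧
      Nat.card (V ⊓ centralizer {u} : Subgroup G) * Nat.card (Iv V u hc) ≤ Nat.card V := by
  have sq : ∀ v ∈ V, v * v = 1 → v = 1 := fun v hv e => orderOf_eq_one_iff.1
    (Nat.eq_one_of_dvd_coprimes (Nat.coprime_two_left.2 ho)
      (orderOf_dvd_of_pow_eq_one ((pow_two v).trans e)) (Subgroup.orderOf_dvd_natCard V hv))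
  refine ⟨fun v hv => ?_, ?_⟩
  · obtain ⟨k, hk⟩ := ho
    have hw : v ^ (k + 1) ∈ V := pow_mem hv _
    have e : v ^ (k + 1) * v ^ (k + 1) = v := by
      have := pow_card_eq_one' (x := (⟨v, hv⟩ : V))
      rw [hk] at this
      have h3 : v ^ (2 * k + 1) = 1 := congrArg Subtype.val this
      rw [← pow_add, show k + 1 + (k + 1) = 2 * k + 1 + 1 by ring, pow_succ, h3, one_mul]
    generalize v ^ (k + 1) = w at hw e
    have hw' := (mem_normalizer_iff.1 hu w).1 hw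
    have e2 : u * (u * w * u⁻¹) * u⁻¹ = w := by
      calc _ = u * u * w * (u * u)⁻¹ := by group
        _ = w := by rw [← h2 w hw]; group
    refine ⟨w * (u * w * u⁻¹), ⟨mul_mem hw hw', mem_centralizer_singleton_iff.2 ?_⟩,
      (u * w * u⁻¹)⁻¹ * w, ⟨mul_mem (inv_mem hw') hw, ?_⟩, by rw [← e]; group⟩
    · rw [eq_comm, ← mul_inv_eq_iff_eq_mul, ← conj_mul, e2, hc _ hw' _ hw]
    · calc u * ((u * w * u⁻¹)⁻¹ * w) * u⁻¹ = (u * (u * w * u⁻¹) * u⁻¹)⁻¹ * (u * w * u⁻¹) := by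
            simp only [mul_inv_rev, inv_inv, mul_assoc, inv_mul_cancel_left]
        _ = _ := by rw [e2, mul_inv_rev (u * w * u⁻¹)⁻¹, inv_inv]
  · rw [← Nat.card_prod]
    refine Nat.card_le_card_of_injective (fun p => (⟨p.1 * p.2, mul_mem p.1.2.1 p.2.2.1⟩ : V)) ?_
    rintro ⟨a, b⟩ ⟨a', b'⟩ e
    have e1 : (a : G) * b = a' * b' := congrArg Subtype.val e
    have e2 : (a' : G)⁻¹ * a = b' * (b : G)⁻¹ := by
      rw [inv_mul_eq_iff_eq_mul, ← mul_assoc, ← e1, mul_inv_cancel_right]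
    have m1 := mul_mem (inv_mem a'.2) a.2
    have m2 := (mul_mem b'.2 (inv_mem b.2)).2
    rw [← e2, ← mem_centralizer_singleton_iff.1 m1.2, mul_inv_cancel_right] at m2
    have e3 := sq _ m1.1 (mul_eq_one_iff_eq_inv.2 m2)
    rw [e3, eq_comm, mul_inv_eq_one] at e2
    exact Prod.ext (Subtype.ext (inv_mul_eq_one.1 e3).symm) (Subtype.ext e2.symm)

theorem main (n : ℕ) : ∀ V : Subgroup G, Nat.card V = n → Odd n →
    (∀ a ∈ V, ∀ b ∈ V, a * b = b * a) → St V := by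
  induction n using Nat.strong_induction_on with
  | _ n ih =>
  intro V hV ho hc H S hH hn hS h2 hC
  rw [hV]
  by_cases h1 : n = 1
  · have : V = ⊥ := card_eq_one.1 (hV.trans h1)
    rw [relIndex_eq_one.2 fun x hx => hC ⟨hx, by simp [this]⟩, h1]
    exact ⟨le_rfl, fun h => absurd h (by norm_num)⟩
  let φ : H →* MulAut V := V.normalizerMonoidHom.comp (inclusion hn)
  let π := φ.rangeRestrict
  have πs : Function.Surjective π := φ.rangeRestrict_surjective
  have πe : ∀ x y : H, π x = π y ↔ ∀ v ∈ V, (x : G) * v * (x : G)⁻¹ = y * v * (y : G)⁻¹ := fun x y =>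
    ⟨fun e v hv => congrArg (fun α : φ.range => ((α.1 ⟨v, hv⟩ : V) : G)) e,
      fun e => Subtype.ext (MulEquiv.ext fun v => Subtype.ext (e v v.2))⟩
  have π1 : ∀ x : H, π x = 1 ↔ (x : G) ∈ centralizer (V : Set G) := fun x => by
    rw [← map_one π, πe]
    exact forall₂_congr fun v _ => by
      rw [coe_one, one_mul, inv_one, mul_one, mul_inv_eq_iff_eq_mul]; exact eq_comm
  have hidx : S.relIndex H = ((S.subgroupOf H).map π).index := by
    rw [index_map, MonoidHom.range_eq_top.2 πs, index_top, mul_one, sup_eq_left.2, relIndex]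
    exact fun x hx => hC ⟨x.2, (π1 x).1 hx⟩
  have hsq : ∀ a, a * a ∈ (S.subgroupOf H).map π := fun a => by
    obtain ⟨x, rfl⟩ := πs a
    exact ⟨x * x, h2 x x.2, map_mul _ _ _⟩
  have cyc : (∃ a : φ.range, (zpowers a).index = 1) → Bd (S.relIndex H) n := fun ⟨a, ha⟩ => by
    have := index_le a (hsq a)
    obtain ⟨k, hk⟩ := ho
    rw [hidx]
    constructor <;> omega
  by_cases hp : n.Prime
  · have := Fact.mk hp
    have := isCyclic_of_prime_card hV
    have h3 : IsCyclic (MulAut V) := by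
      refine (MulEquiv.isCyclic (IsCyclic.mulAutMulEquiv V)).2 ?_
      rw [hV]; infer_instance
    obtain ⟨a, ha⟩ := (inferInstance : IsCyclic φ.range).exists_generator
    exact cyc ⟨a, index_eq_one.2 (eq_top_iff.2 fun x _ => ha x)⟩
  have h9 : 9 ≤ n := by
    by_contra hlt
    obtain ⟨k, hk⟩ := ho
    have : n = 3 ∨ n = 5 ∨ n = 7 := by omega
    rcases this with rfl | rfl | rfl <;> exact hp (by norm_num)
  -- splitting along an element acting as an involution different from `-1`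
  have sp : ∀ u : H, π u ≠ 1 → π u * π u = 1 → (¬ ∀ v ∈ V, (u : G) * v * (u : G)⁻¹ = v⁻¹) →
      ∀ H₀ : Subgroup G, H₀ ≤ H → (∀ h : H, (h : G) ∈ H₀ → π h * π u * (π h)⁻¹ = π u) →
      2 * (S ⊓ H₀).relIndex H₀ ≤ n ∧ ∀ z ∈ S ⊓ H₀, (∀ v ∈ V, z * v * z⁻¹ = v⁻¹) →
        4 * (S ⊓ H₀).relIndex H₀ ≤ n := by
    intro u u1 u2 ui H₀ h0 hcen
    obtain ⟨gen, hcard⟩ := split (hV ▸ ho) hc (hn u.2) ((π1 (u * u)).1 (by rw [map_mul, u2]))
    set V₁ := V ⊓ centralizer {(u : G)} with hV₁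
    set V₂ := Iv V u hc with hV₂
    have l1 : V₁ ≤ V := inf_le_left
    have l2 : V₂ ≤ V := fun v hv => hv.1
    have o1 : Odd (Nat.card V₁) := (hV ▸ ho).of_dvd_nat (card_dvd_of_le l1)
    have o2 : Odd (Nat.card V₂) := (hV ▸ ho).of_dvd_nat (card_dvd_of_le l2)
    have c1 : Nat.card V₁ ≠ 1 := fun e => ui fun v hv => by
      obtain ⟨a, ha, b, hb, rfl⟩ := gen v hv
      rw [card_eq_one.1 e, mem_bot] at ha
      rw [ha, one_mul, hb.2]
    have c2 : Nat.card V₂ ≠ 1 := fun e => u1 ((π1 u).2 fun v hv => by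
      obtain ⟨a, ha, b, hb, rfl⟩ := gen v hv
      rw [card_eq_one.1 e, mem_bot] at hb
      rw [hb, mul_one, mem_centralizer_singleton_iff.1 ha.2])
    have b1 : 3 ≤ Nat.card V₁ := by obtain ⟨k, hk⟩ := o1; omega
    have b2 : 3 ≤ Nat.card V₂ := by obtain ⟨k, hk⟩ := o2; omega
    rw [hV] at hcard
    have s1 := ih _ (by nlinarith) V₁ rfl o1 fun a ha b hb => hc a (l1 ha) b (l1 hb)
    have s2 := ih _ (by nlinarith) V₂ rfl o2 fun a ha b hb => hc a (l2 ha) b (l2 hb)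
    have cj : ∀ h ∈ H₀, ∀ v ∈ V, (u : G) * (h * v * h⁻¹) * (u : G)⁻¹ = h * (u * v * (u : G)⁻¹) * h⁻¹ :=
      fun h hh v hv => by
      have := hcen ⟨h, h0 hh⟩ hh
      rw [mul_inv_eq_iff_eq_mul, ← map_mul, ← map_mul, πe] at this
      have := this v hv
      simp only [coe_mul, mul_inv_rev] at this
      calc _ = u * h * v * (h⁻¹ * (u : G)⁻¹) := by group
        _ = _ := by rw [← this]; group
    have nrm : ∀ W : Subgroup G, (∀ h ∈ H₀, ∀ v ∈ W, h * v * h⁻¹ ∈ W) → H₀ ≤ normalizer (W : Set G) :=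
      fun W e h hh => mem_normalizer_iff.2 fun v => ⟨e h hh v, fun e' => by
        simpa [mul_assoc] using e _ (inv_mem hh) _ e'⟩
    have n1 := nrm V₁ fun h hh v hv => ⟨(mem_normalizer_iff.1 (hn (h0 hh)) v).1 hv.1,
      mem_centralizer_singleton_iff.2 (by
        rw [eq_comm, ← mul_inv_eq_iff_eq_mul, cj h hh v hv.1, ← mem_centralizer_singleton_iff.1 hv.2,
          mul_inv_cancel_right])⟩
    have n2 := nrm V₂ fun h hh v hv => ⟨(mem_normalizer_iff.1 (hn (h0 hh)) v).1 hv.1, by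
      rw [cj h hh v hv.1, hv.2, conj_inv]⟩
    have q2 : ∀ x ∈ H₀, x * x ∈ S ⊓ H₀ := fun x hx => ⟨h2 x (h0 hx), mul_mem hx hx⟩
    have q3 : H₀ ⊓ centralizer (V : Set G) ≤ S ⊓ H₀ := fun x hx => ⟨hC ⟨h0 hx.1, hx.2⟩, hx.1⟩
    obtain ⟨g₁, g₂, e, d1, d2, t1⟩ := red s1 s2 gen (hH.to_le h0) n1 n2 inf_le_right q2 q3
    obtain ⟨g₃, g₄, e', d3, d4, t2⟩ := red (V := V) s2 s1 (fun v hv => by
      obtain ⟨a, ha, b, hb, rfl⟩ := gen v hv
      exact ⟨b, hb, a, ha, hc a (l1 ha) b (l2 hb)⟩) (hH.to_le h0) n2 n1 inf_le_right q2 q3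
    generalize Nat.card V₁ = a at *
    generalize Nat.card V₂ = b at *
    have big : 3 < a → 3 < b → 4 * (g₂ * g₁) ≤ n := fun ha hb => by
      have := Nat.mul_le_mul (d1.2 ha) (d2.2 hb)
      nlinarith
    refine ⟨?_, fun z hz hi => ?_⟩
    · rw [e]
      have := Nat.mul_le_mul d1.1 d2.1
      nlinarith
    · rcases b1.eq_or_lt with rfl | ha
      · rw [e, t1 rfl z hz fun v hv => hi v (l1 hv)]
        have := d2.1
        omega
      rcases b2.eq_or_lt with rfl | hb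
      · rw [e', t2 rfl z hz fun v hv => hi v (l2 hv)]
        have := d4.1
        omega
      · exact e ▸ big ha hb
  have fin : ∀ g, 2 * g ≤ n → Bd g n := fun g h => ⟨by omega, fun _ => h⟩
  rcases tri (hH.of_surjective π πs) with h | ⟨a, ha⟩ | ⟨z, u, z1, u1, uz, z2, u2, zc, uc⟩
  · exact cyc h
  · have := index_le a (hsq a)
    exact fin _ (by omega)
  obtain ⟨z, rfl⟩ := πs z
  obtain ⟨u, rfl⟩ := πs u
  by_cases zi : ∀ v ∈ V, (z : G) * v * (z : G)⁻¹ = v⁻¹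
  swap
  · have := (sp z z1 z2 zi H le_rfl fun h _ => zc _).1
    rw [inf_eq_left.2 hS] at this
    exact fin _ this
  have ui : ¬ ∀ v ∈ V, (u : G) * v * (u : G)⁻¹ = v⁻¹ := fun e =>
    uz ((πe u z).2 fun v hv => (e v hv).trans (zi v hv).symm)
  by_cases hall : ∀ h : H, π h * π u * (π h)⁻¹ = π u
  · have := (sp u u1 u2 ui H le_rfl fun h _ => hall h).1
    rw [inf_eq_left.2 hS] at this
    exact fin _ this
  push Not at hall
  obtain ⟨h, hh⟩ := hall
  let C : Subgroup H := (centralizer {π u}).comap π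
  have mC : ∀ x : H, x ∈ C ↔ π x * π u * (π x)⁻¹ = π u := fun x =>
    mem_centralizer_singleton_iff.trans mul_inv_eq_iff_eq_mul.symm
  have iC : C.index = 2 := index_eq_two_iff.2 ⟨h, fun x => by
    rw [mC, mC, map_mul, mul_inv_rev, show π x * π h * π u * ((π h)⁻¹ * (π x)⁻¹) =
      π x * (π h * π u * (π h)⁻¹) * (π x)⁻¹ by group, (uc _).resolve_left hh, ← conj_mul, zc]
    rcases uc (π x) with e | e <;> rw [e]
    · exact Or.inr ⟨rfl, by simpa using z1⟩
    · exact Or.inl ⟨by rw [mul_assoc, z2, mul_one], by simpa using z1⟩⟩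
  have zS : (z : G) ∈ S ⊓ C.map H.subtype := by
    refine ⟨?_, z, (mC z).2 (by
      rw [mul_inv_eq_iff_eq_mul, eq_comm, ← mul_inv_eq_iff_eq_mul, zc]), rfl⟩
    have e : π z = π (u⁻¹ * u⁻¹ * ((u * h) * (u * h)) * (h⁻¹ * h⁻¹)) := by
      simp only [map_mul, map_inv]
      calc π z = (π u)⁻¹ * (π u * π z) := by group
        _ = _ := by rw [← (uc _).resolve_left hh]; group
    have m : u⁻¹ * u⁻¹ * ((u * h) * (u * h)) * (h⁻¹ * h⁻¹) ∈ S.subgroupOf H :=
      mul_mem (mul_mem (h2 _ (u⁻¹).2) (h2 _ (u * h).2)) (h2 _ (h⁻¹).2)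
    generalize u⁻¹ * u⁻¹ * ((u * h) * (u * h)) * (h⁻¹ * h⁻¹) = y at e m
    have h3 : ((y⁻¹ * z : H) : G) ∈ S :=
      hC ⟨(y⁻¹ * z).2, (π1 _).1 (by rw [map_mul, map_inv, e, inv_mul_cancel])⟩
    simpa using mul_mem (show (y : G) ∈ S from m) h3
  have h4 := (sp u u1 u2 ui (C.map H.subtype) (map_subtype_le _) (fun x hx => (mC x).1 (by
    rwa [← mem_map_iff_mem H.subtype_injective]))).2 z zS zi
  have h5 : (S ⊔ C.map H.subtype).relIndex H ≤ 2 := by
    rw [← iC, ← H46.relIndex_map_subtype]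
    exact relIndex_le_of_le_left le_sup_right (by rw [H46.relIndex_map_subtype, iC]; norm_num)
  rw [idx hS (map_subtype_le C) h2]
  exact fin _ (by nlinarith)

end H33.R2
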