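import Cfsg.Agent.H52.RCSpec

/-! S3860, tower RC, slot `HYP`: the hyperplane lemma. -/

set_option autoImplicit false

namespace H33.RcHyp

open H52.RC Subgroup

universe u

variable {G : Type u} [Group G]

theorem root [Finite G] {B : Subgroup G} (ho : Odd (Nat.card B)) :
    ∃ k : ℕ, ∀ b ∈ B, (b * b) ^ k = b ∧ b ^ k * b ^ k = b := by
  obtain ⟨k, hk⟩ := ho
  have h : ∀ b ∈ B, b ^ (2 * (k + 1)) = b := fun b hb => by
    have : b ^ Nat.card B = 1 := congrArg Subtype.val (pow_card_eq_one' (x := (⟨b, hb⟩ : B)))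
    rw [show 2 * (k + 1) = Nat.card B + 1 by omega, pow_succ, this, one_mul]
  refine ⟨k + 1, fun b hb => ⟨?_, ?_⟩⟩
  · rw [← sq, ← pow_mul, h b hb]
  · rw [← pow_add, ← two_mul, h b hb]

theorem uniq [Finite G] {B : Subgroup G} (ho : Odd (Nat.card B)) (π : G ≃* G) {c i c' i' : G}
    (hi : i ∈ B) (hi' : i' ∈ B) (h1 : π c = c) (h2 : π i = i⁻¹) (h1' : π c' = c')
    (h2' : π i' = i'⁻¹) (e : c * i = c' * i') : c = c' := by
  obtain ⟨k, hk⟩ := root ho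
  have e1 : c * i⁻¹ = c' * i'⁻¹ := by
    have := congrArg π e
    rwa [map_mul, map_mul, h1, h2, h1', h2'] at this
  have e2 : i * i = i' * i' := by
    calc i * i = (c * i⁻¹)⁻¹ * (c * i) := by group
      _ = i' * i' := by rw [e1, e]; group
  have e3 : i = i' := by rw [← (hk i hi).1, e2, (hk i' hi').1]
  rw [e3] at e
  exact mul_right_cancel e

theorem dec [Finite G] {B : Subgroup G} (ho : Odd (Nat.card B)) (π : G ≃* G)
    (hπ : ∀ b ∈ B, π b ∈ B) (h2 : ∀ b ∈ B, π (π b) = b) {y : G} (hy : y ∈ B) :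
    ∃ c ∈ B, π c = c ∧ (c = 1 → π y = y⁻¹) ∧ ∀ η : G ≃* G, (∀ b ∈ B, η b ∈ B) →
      (∀ b ∈ B, π (η b) = η (π b)) → (η y = y → η c = c) ∧ (η y = y⁻¹ → η c = c⁻¹) := by
  obtain ⟨k, hk⟩ := root ho
  have hu : (π y)⁻¹ * y ∈ B := mul_mem (inv_mem (hπ y hy)) hy
  obtain ⟨i, hi⟩ : ∃ i, i = ((π y)⁻¹ * y) ^ k := ⟨_, rfl⟩
  have iB : i ∈ B := hi ▸ pow_mem hu k
  have ii : i * i = (π y)⁻¹ * y := hi ▸ (hk _ hu).2
  have pi : π i = i⁻¹ := by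
    rw [hi, map_pow, map_mul, map_inv, h2 y hy, ← inv_pow, mul_inv_rev, inv_inv]
  obtain ⟨c, hc⟩ : ∃ c, c = y * i⁻¹ := ⟨_, rfl⟩
  have cB : c ∈ B := hc ▸ mul_mem hy (inv_mem iB)
  have yc : y = c * i := by rw [hc]; group
  have pc : π c = c := by
    rw [hc, map_mul, map_inv, pi, inv_inv]
    calc π y * i = π y * (i * i) * i⁻¹ := by group
      _ = y * i⁻¹ := by rw [ii]; group
  refine ⟨c, cB, pc, fun h => ?_, fun η hη hc' => ⟨fun h => ?_, fun h => ?_⟩⟩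
  · rw [yc, h, one_mul, pi]
  · refine uniq ho π (hη i iB) iB (by rw [hc' c cB, pc]) (by rw [hc' i iB, pi, map_inv]) pc pi ?_
    rw [← map_mul, ← yc, h]
  · refine uniq ho π (i' := c * i⁻¹ * c⁻¹) (hη i iB) (mul_mem (mul_mem cB (inv_mem iB)) (inv_mem cB))
      (by rw [hc' c cB, pc]) (by rw [hc' i iB, pi, map_inv]) (by rw [map_inv, pc]) ?_ ?_
    · simp only [map_mul, map_inv, pc, pi]
      group
    · rw [← map_mul, ← yc, h, yc]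
      group

theorem jobHYP : JobHYP.{u} := by
  intro ka kb kw G _ _ m hH P T x s hP hT hsq hc xo x1 xc sP sx
  obtain ⟨B, ho, hB⟩ := kw G T (hP.to_le hT) hc
  have nT : ∀ g ∈ P, ∀ t ∈ T, g⁻¹ * t * g ∈ T := fun g hg t ht => by
    have : g⁻¹ * t * g = g⁻¹ ^ 2 * (g * t) ^ 2 * t⁻¹ := by simp only [sq]; group
    rw [this]
    exact mul_mem (mul_mem (hsq _ (inv_mem hg)) (hsq _ (mul_mem hg (hT ht)))) (inv_mem ht)
  have cT : ∀ t ∈ T, ∀ b ∈ B, t * b * t⁻¹ = b := fun t ht b hb => by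
    rw [mem_centralizer_iff.1 ((hB b).1 hb).2 t ht, mul_inv_cancel_right]
  have nB : ∀ g ∈ P, ∀ b ∈ B, MulAut.conj g b ∈ B := fun g hg b hb => by
    refine (hB _).2 ⟨by rw [MulEquiv.orderOf_eq]; exact ((hB b).1 hb).1,
      mem_centralizer_iff.2 fun t ht => ?_⟩
    rw [MulAut.conj_apply]
    calc t * (g * b * g⁻¹) = g * (g⁻¹ * t * g * b * (g⁻¹ * t * g)⁻¹) * g⁻¹ * t := by group
      _ = g * b * g⁻¹ * t := by rw [cT _ (nT g hg t ht) b hb]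
  have sq' : ∀ g ∈ P, ∀ b ∈ B, MulAut.conj g (MulAut.conj g b) = b := fun g hg b hb => by
    simp only [MulAut.conj_apply]
    calc g * (g * b * g⁻¹) * g⁻¹ = g ^ 2 * b * (g ^ 2)⁻¹ := by simp only [sq]; group
      _ = b := cT _ (hsq g hg) b hb
  have com : ∀ p ∈ P, ∀ h ∈ P, ∀ b ∈ B,
      MulAut.conj p (MulAut.conj h b) = MulAut.conj h (MulAut.conj p b) := fun p hp h hh b hb => by
    have m : p⁻¹ ^ 2 * (p * h⁻¹) ^ 2 * h ^ 2 ∈ T :=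
      mul_mem (mul_mem (hsq _ (inv_mem hp)) (hsq _ (mul_mem hp (inv_mem hh)))) (hsq _ hh)
    simp only [MulAut.conj_apply]
    calc p * (h * b * h⁻¹) * p⁻¹ = h * (p * (p⁻¹ ^ 2 * (p * h⁻¹) ^ 2 * h ^ 2 * b *
          (p⁻¹ ^ 2 * (p * h⁻¹) ^ 2 * h ^ 2)⁻¹) * p⁻¹) * h⁻¹ := by simp only [sq]; group
      _ = h * (p * b * p⁻¹) * h⁻¹ := by rw [cT _ m b hb]
  let A : Set (Subgroup G) := {K | ∃ y ∈ B, y ≠ 1 ∧ Inv s y ∧ K = P ⊓ Cs y}
  have hA : A.Nonempty := ⟨_, x, (hB x).2 ⟨xo, xc⟩, x1, sx, rfl⟩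
  obtain ⟨_, ⟨y, yB, y1, sy, rfl⟩, hmax⟩ := (Set.toFinite A).exists_maximal hA
  have hle : P ≤ Cs y := fun p hp => by
    obtain ⟨c, cB, pc, c1, hη⟩ := dec ho (MulAut.conj p) (nB p hp) (sq' p hp) yB
    by_cases h : c = 1
    · exact mem_Cs.2 (.inr (c1 h))
    have h1 : P ⊓ Cs y ≤ P ⊓ Cs c := fun g hg => by
      have := hη (MulAut.conj g) (nB g hg.1) (com p hp g hg.1)
      exact ⟨hg.1, mem_Cs.2 ((mem_Cs.1 hg.2).imp this.1 this.2)⟩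
    have h2 := hmax (y := P ⊓ Cs c)
      ⟨c, cB, h, (hη (MulAut.conj s) (nB s sP) (com p hp s sP)).2 sy, rfl⟩ h1
    exact (h2 ⟨hp, mem_Cs.2 (.inl pc)⟩).2
  have h1 := (kb G m hH y ((hB y).1 yB).1 y1 ⟨s, sy⟩).2.2.1
  have h2 := ((ka G).2.2.2.2.2.2.2.2 (Cs y) P hP hle).1
  rwa [h1] at h2

end H33.RcHyp
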