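import Cfsg.Agent.Base
import Cfsg.Agent.H42.SimXBSpec

/-! # S3694, tower SIM, slot XB-M2L -/

set_option autoImplicit false

namespace H33.SimM2L

open Subgroup Cfsg H98 Matrix H0.Sim H42.SX

theorem card_le {n k : ℕ} {F K K' : Type} [Field F] [Field K] [Fintype K] [Algebra F K] [Field K']
    [Fintype K'] (ι : K →ₐ[F] Mt n F) (hn : 1 ≤ n) (φ : cn ι ≃+* Mt k K') :
    Fintype.card K ≤ Fintype.card K' := by
  have hm : ∀ a : K, ι a ∈ cn ι := by
    intro a
    rw [Subring.mem_centralizer_iff]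
    rintro _ ⟨c, rfl⟩
    rw [← map_mul, ← map_mul, mul_comm]
  have hs : ∀ a : K, ∃ c : K', Matrix.scalar (Fin k) c = φ ⟨ι a, hm a⟩ := by
    intro a
    refine Matrix.mem_range_scalar_iff_commute_single'.2 fun i j => ?_
    obtain ⟨y, hy⟩ := φ.surjective (Matrix.single i j 1)
    rw [← hy, Commute, SemiconjBy, ← map_mul, ← map_mul]
    congr 1
    exact Subtype.ext (Subring.mem_centralizer_iff.1 y.2 _ ⟨a, rfl⟩).symm
  choose f hf using hs
  refine Fintype.card_le_of_injective f fun a b hab => ?_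
  have : Nonempty (Fin n) := ⟨⟨0, hn⟩⟩
  have h1 : φ ⟨ι a, hm a⟩ = φ ⟨ι b, hm b⟩ := by rw [← hf, ← hf, hab]
  exact ι.toRingHom.injective (congrArg Subtype.val (φ.injective h1))

theorem jobM2L : H42.SX.JobM2L := by
  intro stl qsl nq n F K _ _ _ _ _ ι q p H Q A b kt hA hK hS x hx y hy
  obtain ⟨K', _, _, k, hk, ⟨φ⟩⟩ := stl (cn ι)
  have hn : 1 ≤ n := le_trans (by norm_num) kt.par.two
  rcases hk.eq_or_lt with rfl | hk2
  · have h1 : φ (⟨x, hx⟩ * ⟨y, hy⟩) = φ (⟨y, hy⟩ * ⟨x, hx⟩) := by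
      rw [map_mul, map_mul]
      ext i j
      simp [Matrix.mul_apply, Subsingleton.elim i 0, Subsingleton.elim j 0, mul_comm]
    exact congrArg Subtype.val (φ.injective h1)
  exfalso
  have h4 : 4 ≤ Fintype.card K' := by
    have h2 : 2 ≤ Fintype.card F := Fintype.one_lt_card
    have h3 := card_le ι hn φ
    nlinarith
  let ρ : Mt k K' →* Mt n F := ((cn ι).subtype.comp φ.symm.toRingHom).toMonoidHom
  have hρ : Function.Injective ρ := Subtype.val_injective.comp φ.symm.injective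
  refine nq n F K ι false q p H Q A b kt hA (GL (Fin k) K') (Units.map ρ) (Units.map_injective hρ)
    (fun g => ⟨?_, ?_⟩) (qsl k K' hk2 fun h => by omega)
  · rintro ⟨w, rfl⟩
    exact ⟨by simp [Gam], (φ.symm (w : Mt k K')).2⟩
  · rintro ⟨-, hg⟩
    have hi : ((g⁻¹ : GL (Fin n) F) : Mt n F) ∈ cn ι := by
      rw [Subring.mem_centralizer_iff] at hg ⊢
      intro m hm
      have h1 : Commute m (g : Mt n F) := hg m hm
      exact h1.units_inv_right
    refine ⟨⟨φ ⟨_, hg⟩, φ ⟨_, hi⟩, ?_, ?_⟩, Units.ext ?_⟩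
    · rw [← map_mul, ← map_one φ]
      congr 1
      exact Subtype.ext g.mul_inv
    · rw [← map_mul, ← map_one φ]
      congr 1
      exact Subtype.ext g.inv_mul
    · exact congrArg Subtype.val (φ.symm_apply_apply ⟨_, hg⟩)

end H33.SimM2L
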