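import Cfsg.Agent.H53.SimXASpec
import Cfsg.Agent.H30.SimNC
import Cfsg.Agent.H6.SimQSL
import Cfsg.Agent.H19.SimQSU

/-! # S3694, tower SIM, slot XA-NCF -/

set_option autoImplicit false

namespace H33.SimNCF

open Subgroup Cfsg H98 Matrix H0.Sim H53.XA
open scoped commutatorElement

theorem quasi_comm {X G : Type} [Group X] [Group G] {Y : Subgroup G} (e : X ≃* Y)
    (h : IsQuasisimple (commutator X)) : IsQuasisimple (⁅Y, Y⁆ : Subgroup G) := by
  have hi : Function.Injective (Y.subtype.comp e.toMonoidHom) :=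
    Y.subtype_injective.comp e.injective
  have ht : (⊤ : Subgroup X).map (Y.subtype.comp e.toMonoidHom) = Y := by
    rw [← Subgroup.map_map, map_top_of_surjective _ e.surjective, ← MonoidHom.range_eq_map, range_subtype]
  have hm : (commutator X).map (Y.subtype.comp e.toMonoidHom) = ⁅Y, Y⁆ := by
    rw [_root_.commutator_def, Subgroup.map_commutator, ht]
  exact hm ▸ H14.quasi_of_mulEquiv h ((commutator X).equivMapOfInjective _ hi)

theorem job : H53.XA.JNCF := by
  intro fr emb pt n F _ _ u q p Θ H Q E f c hf hQ hS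
  by_contra hn
  rw [not_or] at hn
  obtain ⟨h2, hsm⟩ := hn
  have fq : Fq F u q := c.par.card
  obtain ⟨P, P', hP⟩ := fr n F u q f.rank f fq hf rfl
  obtain ⟨φ, -⟩ := emb n F u q f.rank f P P' fq hP
  have hqs : IsQuasisimple (⁅Gf u q f, Gf u q f⁆ : Subgroup (GL (Fin n) F)) := by
    cases u
    · have e : (⊤ : Subgroup (GL (Fin f.rank) F)) = Gam f.rank F false q := by simp [Gam]
      have hc : Fintype.card F = q := by simpa [Fq] using fq
      exact quasi_comm ((topEquiv.symm.trans (MulEquiv.subgroupCongr e)).trans φ)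
        (H6.SimQSL.jobQSL _ F (by omega) fun h => hsm (Or.inl ⟨h.1, hc ▸ h.2⟩))
    · have e : GU f.rank F q = Gam f.rank F true q := by simp [Gam]
      have hc : Fintype.card F = q ^ 2 := by simpa [Fq] using fq
      exact quasi_comm ((MulEquiv.subgroupCongr e).trans φ)
        (H19.SimQSU.jobQSU _ F q hc (by omega) (fun h => hsm (Or.inl h))
          fun h => hsm (Or.inr ⟨rfl, h⟩))
  have hN : Q ≤ normalizer (Gf u q f : Set (GL (Fin n) F)) :=
    hQ.trans (pt n F u q f fq hf).2.2.2.2.1
  refine H30.SimNC.jobNC n F u q p Θ H Q E _ c (le_trans ?_ hS) hqs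
    (le_normalizer_commutator hN hN)
  refine commutator_le.2 fun x hx y hy => ?_
  have hm : ⁅x, y⁆ ∈ Gf u q f := mul_mem (mul_mem (mul_mem hx hy) (inv_mem hx)) (inv_mem hy)
  refine ⟨⟨hm.1, ?_⟩, hm⟩
  change Matrix.GeneralLinearGroup.det ⁅x, y⁆ = 1
  rw [map_commutatorElement, commutatorElement_eq_one_iff_mul_comm, mul_comm]

end H33.SimNCF
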