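import Cfsg.Agent.H33.SolvE

/-! The average dimension of fixed point spaces of a solvable linear group is at most half the
dimension (Neumann, Vaughan-Lee). -/

set_option autoImplicit false

namespace H33.Solv

open Subgroup

universe u

variable {G V : Type*} [Group G] [AddCommGroup V] [DistribMulAction G V]

/-- The action on the quotient by an invariant subgroup. -/
@[reducible] def quotAct (U : AddSubgroup V) (h : Inv G U) : DistribMulAction G (V ⧸ U) where
  smul g := QuotientAddGroup.map U U (DistribSMul.toAddMonoidHom V g) (h g)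
  one_smul v := QuotientAddGroup.induction_on v fun v => congrArg _ (one_smul G v)
  mul_smul g k v := QuotientAddGroup.induction_on v fun v => congrArg _ (mul_smul g k v)
  smul_zero g := map_zero (QuotientAddGroup.map U U (DistribSMul.toAddMonoidHom V g) (h g))
  smul_add g := map_add (QuotientAddGroup.map U U (DistribSMul.toAddMonoidHom V g) (h g))

theorem card_mul_dvd [Finite V] {A B : AddSubgroup V} (h : Disjoint A B) :
    Nat.card A * Nat.card B ∣ Nat.card V := by
  rw [← Nat.card_prod]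
  exact AddSubgroup.card_dvd_of_injective (A.subtype.coprod B.subtype)
    (AddSubgroup.add_injective_of_disjoint h)

theorem fact_le {a b : ℕ} (p : ℕ) (h : a ∣ b) (hb : b ≠ 0) : a.factorization p ≤ b.factorization p :=
  (Nat.factorization_le_iff_dvd (ne_zero_of_dvd_ne_zero hb h) hb).2 h p

theorem fact_mul_le {a b c : ℕ} (p : ℕ) (h : a * b ∣ c) (hc : c ≠ 0) :
    a.factorization p + b.factorization p ≤ c.factorization p := by
  have := mul_ne_zero_iff.1 (ne_zero_of_dvd_ne_zero hc h)
  simpa [Nat.factorization_mul this.1 this.2] using fact_le p h hc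

theorem avg_coset {G : Type*} [Group G] [Finite G] (p : ℕ) {M : Subgroup G} [Fintype M]
    (hM : M.Normal) (hc : ∀ a ∈ M, ∀ b ∈ M, a * b = b * a) {x : G} (hx : M ⊔ zpowers x = ⊤) (n : ℕ) :
    ∀ (V : Type u) [AddCommGroup V] [Finite V] [DistribMulAction G V], Nat.card V = n →
      (Nat.card M).Coprime (Nat.card V) → (∀ v : V, (∀ m ∈ M, m • v = v) → v = 0) →
      2 * ∑ m : M, (Nat.card (fix V (x * m))).factorization p ≤
        Nat.card M * (Nat.card V).factorization p := by
  classical
  induction n using Nat.strong_induction_on with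
  | _ n ih =>
  intro V _ _ _ hn ho h0
  have hv : Nat.card V ≠ 0 := Nat.card_pos.ne'
  have inj : ∀ (Y : Subgroup G) (W : Type u) [AddCommGroup W], Y ≤ M → Nat.card W ∣ Nat.card V →
      ∀ w : W, Nat.card Y • w = 0 → w = 0 := fun Y W _ hY hW w e =>
    AddMonoid.addOrderOf_eq_one_iff.1 (Nat.eq_one_of_dvd_coprimes ho
      ((addOrderOf_dvd_of_nsmul_eq_zero e).trans (card_dvd_of_le hY))
      ((addOrderOf_dvd_natCard w).trans hW))
  by_cases hi : Irr G V
  swap
  · simp only [Irr, not_forall, not_or] at hi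
    obtain ⟨U, hU, h1, h2⟩ := hi
    let _ := subAct U hU
    let _ := quotAct U hU
    have e := AddSubgroup.card_eq_card_quotient_mul_card_addSubgroup U
    have d1 := AddSubgroup.card_addSubgroup_dvd_card U
    have d2 := AddSubgroup.card_quotient_dvd_card U
    have u1 := (AddSubgroup.one_lt_card_iff_ne_bot U).2 h1
    have u2 : Nat.card (V ⧸ U) ≠ 1 := mt AddSubgroup.index_eq_one.1 h2
    have u3 : 0 < Nat.card (V ⧸ U) := Nat.card_pos
    have e1 := ih _ (by rw [← hn, e]; nlinarith [Nat.one_lt_iff_ne_zero_and_ne_one.2 ⟨u3.ne', u2⟩])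
      U rfl (ho.coprime_dvd_right d1) fun v hv => Subtype.ext (h0 _ fun m hm =>
        congrArg Subtype.val (hv m hm))
    have e2 := ih _ (by rw [← hn, e]; nlinarith) (V ⧸ U) rfl (ho.coprime_dvd_right d2) fun v hv => by
      obtain ⟨v, rfl⟩ := QuotientAddGroup.mk_surjective v
      refine inj M _ le_rfl d2 _ ?_
      have := congrArg (QuotientAddGroup.mk' U) (h0 (∑ m : M, m.1 • v) fun k hk => by
        rw [Finset.smul_sum]
        exact Fintype.sum_equiv (Equiv.mulLeft ⟨k, hk⟩) _ _ fun m => (mul_smul _ _ _).symm)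
      rwa [map_sum, Finset.sum_congr rfl (g := fun _ => (v : V ⧸ U)) fun (m : M) _ =>
        show QuotientAddGroup.mk' U (m.1 • v) = v from hv m m.2, Finset.sum_const, Finset.card_univ, ← Nat.card_eq_fintype_card] at this
    have e3 : ∀ y : G, (Nat.card (fix V y)).factorization p ≤
        (Nat.card (fix U y)).factorization p + (Nat.card (fix (V ⧸ U) y)).factorization p := fun y => by
      let f := (QuotientAddGroup.mk' U).comp (fix V y).subtype
      rw [← AddSubgroup.card_mul_index f.ker, AddSubgroup.index_ker,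
        Nat.factorization_mul Nat.card_pos.ne' Nat.card_pos.ne']
      refine add_le_add (fact_le p (AddSubgroup.card_dvd_of_injective (AddMonoidHom.mk'
        (fun v => ⟨⟨v.1.1, (QuotientAddGroup.eq_zero_iff _).1 v.2⟩, Subtype.ext v.1.2⟩)
        fun _ _ => rfl) fun a b e => Subtype.ext (Subtype.ext (congrArg (·.1.1) e))) Nat.card_pos.ne')
        (fact_le p (AddSubgroup.card_dvd_of_le ?_) Nat.card_pos.ne')
      rintro _ ⟨v, rfl⟩
      exact congrArg QuotientAddGroup.mk v.2
    have e4 := Finset.sum_le_sum (s := Finset.univ) fun (m : M) _ => e3 (x * m)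
    rw [Finset.sum_add_distrib] at e4
    rw [e, Nat.factorization_mul u3.ne' Nat.card_pos.ne', Finsupp.add_apply, mul_add]
    omega
  rcases subsingleton_or_nontrivial V with h | h
  · simp [Nat.card_unique]
  obtain ⟨Y, ⟨y1, w, w0, y2⟩, hmax⟩ := H2.exists_maximal_subgroup
    (fun Y : Subgroup G => Y ≤ M ∧ ∃ w : V, w ≠ 0 ∧ ∀ a ∈ Y, a • w = w)
    (let ⟨w, hw⟩ := exists_ne (0 : V)
    ⟨⊥, bot_le, w, hw, fun a ha => by rw [mem_bot.1 ha, one_smul]⟩)
  have key : ∀ Y' : Subgroup G, Y' ≤ M → ∀ v : V, v ≠ 0 → (∀ a ∈ Y, a • v = v) →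
      (∀ a ∈ Y', a • v = v) → Y' ≤ Y := fun Y' h1 v h2 h3 h4 => le_sup_right.trans
    (hmax (Y ⊔ Y') ⟨sup_le y1 h1, v, h2, (sup_le h3 h4 : _ ≤ MulAction.stabilizer G v)⟩ le_sup_left).le
  let U : AddSubgroup V := ⨅ a ∈ Y, fix V a
  have hU : ∀ v, v ∈ U ↔ ∀ a ∈ Y, a • v = v := fun v => by simp [U, mem_fix]
  have gen : ∀ (y : G), x⁻¹ * y ∈ M → ∀ g : G, ∃ m ∈ M, ∃ k ∈ zpowers y, m * k = g := fun y hy g => by
    have : g ∈ M ⊔ zpowers y := (hx.ge.trans (sup_le le_sup_left (zpowers_le.2 ?_))) trivial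
    · rwa [← SetLike.mem_coe, normal_mul] at this
    · have := mul_mem (mem_sup_right (mem_zpowers y)) (mem_sup_left (T := zpowers y) (inv_mem hy))
      simpa using this
  by_cases hx' : ∀ a ∈ Y, x⁻¹ * a * x ∈ Y
  · have hY : Y.Normal := normalizer_eq_top_iff.1 (eq_top_iff.2 (hx.ge.trans (sup_le
      (fun m hm => mem_normalizer_fintype fun a ha => by
        rwa [hc m hm a (y1 ha), mul_inv_cancel_right])
      (zpowers_le.2 (inv_mem_iff.1 (mem_normalizer_fintype (by simpa using hx')))))))
    have hUt : U = ⊤ := (hi U fun g v hv => (hU _).2 fun a ha => by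
      have := (hU _).1 hv _ (hY.conj_mem a ha g⁻¹)
      rwa [mul_smul, mul_smul, inv_smul_eq_iff, inv_inv] at this).resolve_left
        fun e => w0 (AddSubgroup.mem_bot.1 (e ▸ (hU w).2 y2))
    obtain ⟨k, hk, hkY⟩ : ∃ k ∈ M, k ∉ Y := by
      by_contra! e
      exact w0 (h0 w fun m hm => y2 m (e m hm))
    have := Finset.sum_le_sum (s := Finset.univ) fun (m : M) _ => fact_mul_le p (card_mul_dvd
      (A := fix V (x * m)) (B := fix V (x * (m * ⟨k, hk⟩ : M))) (AddSubgroup.disjoint_def.2
        fun {v} h1 h2 => by_contra fun v0 => hkY (key (zpowers k) (zpowers_le.2 hk) v v0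
          ((hU v).1 (hUt ▸ trivial)) (fun a ha => fix_zpow ?_ ha) (mem_zpowers k)))) hv
    · rwa [Finset.sum_add_distrib, Finset.sum_const, Finset.card_univ, ← Nat.card_eq_fintype_card,
        Fintype.sum_equiv (Equiv.mulRight (⟨k, hk⟩ : M))
          (fun m : M => (Nat.card (fix V (x * (m * ⟨k, hk⟩ : M)))).factorization p)
          (fun m : M => (Nat.card (fix V (x * m))).factorization p) fun _ => rfl, ← two_mul] at this
    · refine MulAction.injective (x * m) ?_
      beta_reduce
      rw [← mul_smul, mul_assoc, mem_fix.1 h1]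
      exact h2
  have := Fintype.ofFinite Y
  let T : V →+ V := ∑ a : Y, DistribSMul.toAddMonoidHom V a.1
  have hT : ∀ v, T v = ∑ a : Y, a.1 • v := fun v => AddMonoidHom.finsetSum_apply _ _ _
  have t1 : ∀ v, T v ∈ U := fun v => (hU _).2 fun k hk => by
    rw [hT, Finset.smul_sum]
    exact Fintype.sum_equiv (Equiv.mulLeft ⟨k, hk⟩) _ _ fun m => (mul_smul _ _ _).symm
  have t2 : ⨅ g : G, (T.comp (DistribSMul.toAddMonoidHom V g)).ker = ⊥ := (hi _ fun g v hv => by
    simp only [AddSubgroup.mem_iInf] at hv ⊢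
    exact fun k => (congrArg T (mul_smul k g v).symm).trans (hv (k * g))).resolve_right fun e => by
      have : T ((1 : G) • w) = 0 := AddSubgroup.mem_iInf.1 (e.ge (AddSubgroup.mem_top w)) (1 : G)
      rw [one_smul, hT, Finset.sum_congr rfl fun (a : Y) _ => y2 a a.2, Finset.sum_const, Finset.card_univ,
        ← Nat.card_eq_fintype_card] at this
      exact w0 (inj Y V y1 dvd_rfl w this)
  have t3 : Nat.card U * Nat.card U ∣ Nat.card V := by
    nth_rewrite 2 [← AddSubgroup.card_map_of_injective (f := DistribSMul.toAddMonoidHom V x⁻¹)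
      (MulAction.injective x⁻¹)]
    refine card_mul_dvd (AddSubgroup.disjoint_def.2 ?_)
    rintro _ h1 ⟨v, h2, rfl⟩
    refine by_contra fun v0 => hx' fun a ha => key (Y.map (MulAut.conj x⁻¹).toMonoidHom) ?_ _ v0
      ((hU _).1 h1) ?_ ⟨a, ha, by simp⟩
    · rintro _ ⟨b, hb, rfl⟩
      exact hM.conj_mem b (y1 hb) _
    · rintro _ ⟨b, hb, rfl⟩
      change (x⁻¹ * b * x⁻¹⁻¹) • x⁻¹ • v = x⁻¹ • v
      rw [mul_smul, inv_smul_smul, mul_smul, (hU v).1 h2 b hb]
  rw [Finset.mul_sum, Nat.card_eq_fintype_card (α := M), ← Finset.card_univ, ← smul_eq_mul,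
    ← Finset.sum_const]
  refine Finset.sum_le_sum fun m _ => le_trans ?_ (fact_mul_le p t3 hv)
  rw [← two_mul]
  refine Nat.mul_le_mul_left _ (fact_le p (AddSubgroup.card_dvd_of_injective
    ((T.comp (fix V (x * m)).subtype).codRestrict U fun v => t1 v)
    ((injective_iff_map_eq_zero _).2 fun v e => Subtype.ext (AddSubgroup.mem_bot.1 (t2 ▸
      AddSubgroup.mem_iInf.2 fun g => ?_)))) Nat.card_pos.ne')
  obtain ⟨a, ha, k, hk, rfl⟩ := gen (x * m) (by simp) g
  change T ((a * k) • v.1) = 0
  rw [mul_smul, fix_zpow v.2 hk, ← smul_zero a, ← show T v = 0 from congrArg Subtype.val e, hT, hT,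
    Finset.smul_sum]
  exact Finset.sum_congr rfl fun b _ => by rw [← mul_smul, hc _ (y1 b.2) a ha, mul_smul]

theorem avg_fix [Fintype G] [Finite V] (hs : Group.IsSolvable G) (hi : Irr G V)
    (h : ∃ (g : G) (v : V), g • v ≠ v) (p : ℕ) :
    2 * ∑ g : G, (Nat.card (fix V g)).factorization p ≤
      Nat.card G * (Nat.card V).factorization p := by
  let ρ := (DistribMulAction.toAddMonoidEnd G V).toHomUnits
  have := finite_end V
  have hf := ρ.rangeRestrict_surjective
  have : Group.IsSolvable ρ.range := Group.isSolvable_of_surjective hf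
  obtain ⟨g, v, hv⟩ := h
  have : Nontrivial ρ.range := ⟨ρ.rangeRestrict g, 1, fun e => hv (congrArg (· • v) e)⟩
  have : Nontrivial V := ⟨_, _, hv⟩
  have hi' : Irr ρ.range V := fun U hU => hi U fun g => hU (ρ.rangeRestrict g)
  obtain ⟨M, hM, m0, hmin⟩ := H2.exists_minimal_normal ρ.range
  have hc := H2.isMulCommutative_of_minimal_normal hmin
  have h1 : ¬ ∀ a ∈ M, ∀ v : V, a • v = v := fun e => m0 (eq_bot_iff.2 fun a ha =>
    eq_of_smul_eq_smul (α := V) fun v => by rw [e a ha, one_smul])
  obtain ⟨r, hr, -, hV⟩ := hi'.exists_prime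
  have ho : (Nat.card M).Coprime (Nat.card V) := by
    have := Fact.mk hr
    obtain ⟨k, hk⟩ := (show IsPGroup r (Multiplicative V) from fun w => ⟨1, by
      rw [pow_one]; exact hV w⟩).exists_card_eq
    rw [show Nat.card V = r ^ k from hk]
    refine ((Nat.Prime.coprime_iff_not_dvd hr).2 fun e => h1 (hi'.cr.normal_p hr hV hM fun a => ⟨1,
      Subtype.ext ?_⟩)).symm.pow_right k
    rw [pow_one]
    exact H2.pow_eq_one_of_minimal_normal hmin hr e a a.2
  have h0 : ∀ v : V, (∀ m ∈ M, m • v = v) → v = 0 := fun v hv => by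
    have hU : ∀ v, v ∈ (⨅ a ∈ M, fix V a) ↔ ∀ a ∈ M, a • v = v := fun v => by simp [mem_fix]
    refine AddSubgroup.mem_bot.1 ((hi' _ fun g v hv => (hU _).2 fun a ha => ?_).resolve_right
      (fun e => h1 fun a ha v => (hU v).1 (e ▸ trivial) a ha) ▸ (hU v).2 hv)
    have := (hU _).1 hv _ (hM.conj_mem a ha g⁻¹)
    rwa [mul_smul, mul_smul, inv_smul_eq_iff, inv_inv] at this
  have := Fintype.ofFinite M
  have key : ∀ x : ρ.range, 2 * ∑ m : M, (Nat.card (fix V (x * m))).factorization p ≤
      Nat.card M * (Nat.card V).factorization p := fun x => by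
    let e := subgroupOfEquivOfLe (le_sup_left : M ≤ M ⊔ zpowers x)
    have := Fintype.ofFinite (M.subgroupOf (M ⊔ zpowers x))
    have := avg_coset p (M := M.subgroupOf (M ⊔ zpowers x)) inferInstance
      (fun a ha b hb => Subtype.ext
        (congrArg (fun z : M => z.1) (hc.is_comm.comm ⟨a.1, ha⟩ ⟨b.1, hb⟩)))
      (x := ⟨x, mem_sup_right (mem_zpowers x)⟩) (map_injective (subtype_injective _) (by
        rw [Subgroup.map_sup, MonoidHom.map_zpowers, map_subgroupOf_eq_of_le le_sup_left,
          ← MonoidHom.range_eq_map, range_subtype]; rfl)) _ V rfl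
      (by rwa [Nat.card_congr e.toEquiv]) fun v hv => h0 v fun m hm => hv ⟨m, mem_sup_left hm⟩ hm
    rw [Nat.card_congr e.toEquiv] at this
    exact (congrArg (2 * ·) (Fintype.sum_equiv e.toEquiv _ _ fun _ => rfl)).ge.trans this
  choose s hs using hf
  have := Finset.sum_le_sum (s := Finset.univ) fun (g : G) _ => key (ρ.rangeRestrict g)
  rw [← Finset.mul_sum, Finset.sum_comm, Finset.sum_congr rfl fun (m : M) _ => Fintype.sum_equiv
    (Equiv.mulRight (s m)) _ (fun g : G => (Nat.card (fix V g)).factorization p) fun g => by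
      rw [← hs m, ← map_mul, hs]; rfl, Finset.sum_const, Finset.sum_const, Finset.card_univ,
    Finset.card_univ, ← Nat.card_eq_fintype_card, ← Nat.card_eq_fintype_card, smul_eq_mul,
    smul_eq_mul, mul_left_comm, mul_left_comm (Nat.card G)] at this
  exact Nat.le_of_mul_le_mul_left this Nat.card_pos

end H33.Solv
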